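import Mathlib
import Cfsg.Prelude.Def_Transfer

set_option autoImplicit false

namespace Cfsg.Agent.Helper9

open Subgroup
open scoped commutatorElement

variable {G : Type*} [Group G]

/-- the set of commutators `u c u⁻¹ c⁻¹` with `u ∈ s`, `c ∈ A`. -/
def commSet9 (s : Set G) (A : Subgroup G) : Set G :=
  {g | ∃ u ∈ s, ∃ c ∈ A, u * c * u⁻¹ * c⁻¹ = g}

lemma commSet9_empty (A : Subgroup G) : commSet9 (∅ : Set G) A = ∅ := by
  ext g
  constructor
  · rintro ⟨u, hu, -⟩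
    exact ((Set.mem_empty_iff_false u).mp hu).elim
  · intro h
    exact ((Set.mem_empty_iff_false g).mp h).elim

lemma commSet9_insert (v : G) (s : Set G) (A : Subgroup G) :
    commSet9 (insert v s) A = commSet9 {v} A ∪ commSet9 s A := by
  ext g
  constructor
  · rintro ⟨u, hu, c, hc, rfl⟩
    rcases Set.mem_insert_iff.mp hu with h | h
    · exact Or.inl ⟨u, Set.mem_singleton_iff.mpr h, c, hc, rfl⟩
    · exact Or.inr ⟨u, h, c, hc, rfl⟩
  · rintro (⟨u, hu, c, hc, rfl⟩ | ⟨u, hu, c, hc, rfl⟩)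
    · exact ⟨u, Set.mem_insert_iff.mpr (Or.inl (Set.mem_singleton_iff.mp hu)), c, hc, rfl⟩
    · exact ⟨u, Set.mem_insert_of_mem _ hu, c, hc, rfl⟩

lemma centralizer_union9 (S T : Set G) :
    centralizer (S ∪ T) = centralizer S ⊓ centralizer T := by
  ext g
  constructor
  · intro hg
    exact Subgroup.mem_inf.mpr
      ⟨Subgroup.mem_centralizer_iff.mpr fun h hh =>
          Subgroup.mem_centralizer_iff.mp hg h (Or.inl hh),
        Subgroup.mem_centralizer_iff.mpr fun h hh =>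
          Subgroup.mem_centralizer_iff.mp hg h (Or.inr hh)⟩
  · intro hg
    obtain ⟨h1, h2⟩ := Subgroup.mem_inf.mp hg
    refine Subgroup.mem_centralizer_iff.mpr fun h hh => ?_
    rcases hh with hh | hh
    · exact Subgroup.mem_centralizer_iff.mp h1 h hh
    · exact Subgroup.mem_centralizer_iff.mp h2 h hh

lemma le_centralizer_singleton9 {X : Subgroup G} {g : G}
    (hg : g ∈ centralizer (X : Set G)) : X ≤ centralizer ({g} : Set G) := by
  intro x hx
  refine Subgroup.mem_centralizer_iff.mpr fun h hh => ?_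
  rw [Set.mem_singleton_iff.mp hh]
  exact (Subgroup.mem_centralizer_iff.mp hg x hx).symm

lemma centralizer_closure9 (S : Set G) :
    centralizer ((closure S : Subgroup G) : Set G) = centralizer S := by
  apply le_antisymm
  · exact Subgroup.centralizer_le Subgroup.subset_closure
  · intro g hg
    have h1 : closure S ≤ centralizer ({g} : Set G) := by
      refine (Subgroup.closure_le _).mpr ?_
      intro s hs
      show s ∈ centralizer ({g} : Set G)
      refine Subgroup.mem_centralizer_iff.mpr fun h hh => ?_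
      rw [Set.mem_singleton_iff.mp hh]
      exact (Subgroup.mem_centralizer_iff.mp hg s hs).symm
    refine Subgroup.mem_centralizer_iff.mpr fun h hh => ?_
    exact (Subgroup.mem_centralizer_iff.mp (h1 hh) g (Set.mem_singleton g)).symm

lemma centralizer_sup9 (X Y : Subgroup G) :
    centralizer ((X ⊔ Y : Subgroup G) : Set G) =
      centralizer (X : Set G) ⊓ centralizer (Y : Set G) := by
  apply le_antisymm
  · exact le_inf (Subgroup.centralizer_le (SetLike.coe_subset_coe.mpr le_sup_left))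
      (Subgroup.centralizer_le (SetLike.coe_subset_coe.mpr le_sup_right))
  · intro g hg
    obtain ⟨h1, h2⟩ := Subgroup.mem_inf.mp hg
    have hXY : X ⊔ Y ≤ centralizer ({g} : Set G) :=
      sup_le (le_centralizer_singleton9 h1) (le_centralizer_singleton9 h2)
    refine Subgroup.mem_centralizer_iff.mpr fun h hh => ?_
    exact (Subgroup.mem_centralizer_iff.mp (hXY hh) g (Set.mem_singleton g)).symm

lemma card_mul_card_le9 [Finite G] (X Y : Subgroup G) :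
    Nat.card X * Nat.card Y ≤ Nat.card ↥(X ⊔ Y) * Nat.card ↥(X ⊓ Y) := by
  have h1 : Nat.card ↥(X ⊓ Y) * (X ⊓ Y).relIndex X = Nat.card X := by
    have := Subgroup.relIndex_mul_relIndex (⊥ : Subgroup G) (X ⊓ Y) X bot_le inf_le_left
    rwa [Subgroup.relIndex_bot_left, Subgroup.relIndex_bot_left] at this
  have h2 : Nat.card Y * Y.relIndex (X ⊔ Y) = Nat.card ↥(X ⊔ Y) := by
    have := Subgroup.relIndex_mul_relIndex (⊥ : Subgroup G) Y (X ⊔ Y) bot_le le_sup_right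
    rwa [Subgroup.relIndex_bot_left, Subgroup.relIndex_bot_left] at this
  have h3 : (X ⊓ Y).relIndex X = Y.relIndex X := Subgroup.inf_relIndex_left X Y
  have h0 : Y.relIndex (X ⊔ Y) ≠ 0 := by
    intro h0
    rw [h0, mul_zero] at h2
    exact (Nat.card_pos (α := ↥(X ⊔ Y))).ne h2
  have h4 : Y.relIndex X ≤ Y.relIndex (X ⊔ Y) :=
    Subgroup.relIndex_le_of_le_right le_sup_left h0
  calc Nat.card X * Nat.card Y
      = Nat.card ↥(X ⊓ Y) * Y.relIndex X * Nat.card Y := by rw [← h1, h3]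
    _ ≤ Nat.card ↥(X ⊓ Y) * Y.relIndex (X ⊔ Y) * Nat.card Y :=
        Nat.mul_le_mul_right _ (Nat.mul_le_mul_left _ h4)
    _ = (Nat.card Y * Y.relIndex (X ⊔ Y)) * Nat.card ↥(X ⊓ Y) := by ring
    _ = Nat.card ↥(X ⊔ Y) * Nat.card ↥(X ⊓ Y) := by rw [h2]

lemma comm4_aux9 {P Q R v : G} (hvQ : v * Q = Q * v) (hvR : v * R = R * v)
    (hQR : Q * R = R * Q) (h : P * R⁻¹ = v * Q⁻¹) : Q * R⁻¹ = v * P⁻¹ := by
  have hvQ' : Commute v Q := hvQ
  have hvR' : Commute v R := hvR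
  have hQR' : Commute Q R := hQR
  have hP : P = v * Q⁻¹ * R := by
    calc P = P * R⁻¹ * R := by group
      _ = v * Q⁻¹ * R := by rw [h]
  rw [hP]
  have e1 : v * (v * Q⁻¹ * R)⁻¹ = v * (R⁻¹ * Q) * v⁻¹ := by group
  rw [e1]
  have e2 : Commute v (R⁻¹ * Q) := hvR'.inv_right.mul_right hvQ'
  rw [e2.eq, mul_inv_cancel_right]
  exact hQR'.inv_right.eq

lemma conj_comm_cancel9 {a c t : G}
    (h : (a * c * a⁻¹) * (a * t * a⁻¹) = (a * t * a⁻¹) * (a * c * a⁻¹)) : c * t = t * c := by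
  have h1 : a * (c * t) * a⁻¹ = a * (t * c) * a⁻¹ := by
    calc a * (c * t) * a⁻¹ = (a * c * a⁻¹) * (a * t * a⁻¹) := by group
      _ = (a * t * a⁻¹) * (a * c * a⁻¹) := h
      _ = a * (t * c) * a⁻¹ := by group
  exact mul_left_cancel (mul_right_cancel h1)

lemma hcomm9 {V A : Subgroup G} (hAV : A ≤ normalizer (V : Set G))
    (hab : ⁅A, A⁆ ≤ centralizer (V : Set G)) :
    ∀ a ∈ A, ∀ b ∈ A, ∀ x ∈ V, a * (b * x * b⁻¹) * a⁻¹ = b * (a * x * a⁻¹) * b⁻¹ := by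
  intro a ha b hb x hx
  have hy1 : a * x * a⁻¹ ∈ V := (Subgroup.mem_normalizer_iff.mp (hAV ha) x).mp hx
  have hy : b * (a * x * a⁻¹) * b⁻¹ ∈ V := (Subgroup.mem_normalizer_iff.mp (hAV hb) _).mp hy1
  have hc : ⁅a, b⁆ ∈ centralizer (V : Set G) := hab (Subgroup.commutator_mem_commutator ha hb)
  have h1 := (Subgroup.mem_centralizer_iff.mp hc) _ hy
  rw [commutatorElement_def] at h1
  calc a * (b * x * b⁻¹) * a⁻¹
      = (a * b * a⁻¹ * b⁻¹) * (b * (a * x * a⁻¹) * b⁻¹) * (a * b * a⁻¹ * b⁻¹)⁻¹ := by group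
    _ = (b * (a * x * a⁻¹) * b⁻¹) * (a * b * a⁻¹ * b⁻¹) * (a * b * a⁻¹ * b⁻¹)⁻¹ := by rw [h1]
    _ = b * (a * x * a⁻¹) * b⁻¹ := by group

lemma commK9 {V A : Subgroup G} (hVc : ∀ x ∈ V, ∀ y ∈ V, x * y = y * x)
    (hAV : A ≤ normalizer (V : Set G))
    (hcomm : ∀ a ∈ A, ∀ b ∈ A, ∀ x ∈ V, a * (b * x * b⁻¹) * a⁻¹ = b * (a * x * a⁻¹) * b⁻¹)
    {e c v : G} (he : e ∈ A) (hc : c ∈ A) (hv : v ∈ V)
    (h : c * (v * e * v⁻¹ * e⁻¹) = (v * e * v⁻¹ * e⁻¹) * c) :
    e * (v * c * v⁻¹ * c⁻¹) = (v * c * v⁻¹ * c⁻¹) * e := by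
  have hQ : e * v * e⁻¹ ∈ V := (Subgroup.mem_normalizer_iff.mp (hAV he) v).mp hv
  have hR : c * (e * v * e⁻¹) * c⁻¹ ∈ V := (Subgroup.mem_normalizer_iff.mp (hAV hc) _).mp hQ
  have h1 : (c * v * c⁻¹) * (c * (e * v * e⁻¹) * c⁻¹)⁻¹ = v * (e * v * e⁻¹)⁻¹ := by
    calc (c * v * c⁻¹) * (c * (e * v * e⁻¹) * c⁻¹)⁻¹
        = c * (v * e * v⁻¹ * e⁻¹) * c⁻¹ := by group
      _ = (v * e * v⁻¹ * e⁻¹) * c * c⁻¹ := by rw [h]
      _ = v * (e * v * e⁻¹)⁻¹ := by group
  have h2 := comm4_aux9 (P := c * v * c⁻¹) (Q := e * v * e⁻¹) (R := c * (e * v * e⁻¹) * c⁻¹)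
    (v := v) (hVc v hv _ hQ) (hVc v hv _ hR) (hVc _ hQ _ hR) h1
  rw [hcomm c hc e he v hv] at h2
  have h3 : e * (v * c * v⁻¹ * c⁻¹) * e⁻¹ = v * c * v⁻¹ * c⁻¹ := by
    calc e * (v * c * v⁻¹ * c⁻¹) * e⁻¹
        = (e * v * e⁻¹) * (e * (c * v * c⁻¹) * e⁻¹)⁻¹ := by group
      _ = v * (c * v * c⁻¹)⁻¹ := h2
      _ = v * c * v⁻¹ * c⁻¹ := by group
  calc e * (v * c * v⁻¹ * c⁻¹) = e * (v * c * v⁻¹ * c⁻¹) * e⁻¹ * e := by group
    _ = (v * c * v⁻¹ * c⁻¹) * e := by rw [h3]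

lemma single_step9 [Finite G] {V A : Subgroup G}
    (hVc : ∀ x ∈ V, ∀ y ∈ V, x * y = y * x)
    (hAV : A ≤ normalizer (V : Set G))
    (hab : ⁅A, A⁆ ≤ centralizer (V : Set G)) {v : G} (hv : v ∈ V) :
    Nat.card A * Nat.card ↥(V ⊓ centralizer (A : Set G)) ≤
      Nat.card ↥(A ⊓ centralizer (commSet9 {v} A)) *
        Nat.card ↥(closure (commSet9 {v} A) ⊔ (V ⊓ centralizer (A : Set G))) := by
  obtain ⟨Av, hAv⟩ : ∃ K : Subgroup G, K = A ⊓ centralizer (commSet9 {v} A) := ⟨_, rfl⟩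
  obtain ⟨C, hC⟩ : ∃ K : Subgroup G, K = V ⊓ centralizer (A : Set G) := ⟨_, rfl⟩
  obtain ⟨D, hD⟩ : ∃ K : Subgroup G, K = closure (commSet9 {v} A) ⊔ C := ⟨_, rfl⟩
  rw [← hC, ← hAv, ← hD]
  have hAvA : Av ≤ A := by rw [hAv]; exact inf_le_left
  have hCD : C ≤ D := by rw [hD]; exact le_sup_right
  have hcomm := hcomm9 hAV hab
  have h1 : Nat.card Av * Av.relIndex A = Nat.card A := by
    have := Subgroup.relIndex_mul_relIndex (⊥ : Subgroup G) Av A bot_le hAvA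
    rwa [Subgroup.relIndex_bot_left, Subgroup.relIndex_bot_left] at this
  have h2 : Nat.card C * C.relIndex D = Nat.card D := by
    have := Subgroup.relIndex_mul_relIndex (⊥ : Subgroup G) C D bot_le hCD
    rwa [Subgroup.relIndex_bot_left, Subgroup.relIndex_bot_left] at this
  have hmem : ∀ a : ↥A, v * (a : G) * v⁻¹ * (a : G)⁻¹ ∈ D := by
    intro a
    rw [hD]
    exact (le_sup_left : closure (commSet9 {v} A) ≤ closure (commSet9 {v} A) ⊔ C)
      (Subgroup.subset_closure ⟨v, rfl, a, a.2, rfl⟩)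
  have h3 : Av.relIndex A ≤ C.relIndex D := by
    have : Finite (↥D ⧸ C.subgroupOf D) := Finite.of_surjective _ QuotientGroup.mk_surjective
    show Nat.card (↥A ⧸ Av.subgroupOf A) ≤ Nat.card (↥D ⧸ C.subgroupOf D)
    refine Nat.card_le_card_of_injective
      (fun q : ↥A ⧸ Av.subgroupOf A =>
        (QuotientGroup.mk ⟨v * ((Quotient.out q : ↥A) : G) * v⁻¹ * ((Quotient.out q : ↥A) : G)⁻¹,
          hmem (Quotient.out q)⟩ : ↥D ⧸ C.subgroupOf D)) ?_
    intro q₁ q₂ h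
    obtain ⟨a, ha⟩ : ∃ a : ↥A, a = Quotient.out q₁ := ⟨_, rfl⟩
    obtain ⟨b, hb⟩ : ∃ b : ↥A, b = Quotient.out q₂ := ⟨_, rfl⟩
    have h' : (QuotientGroup.mk ⟨v * (a : G) * v⁻¹ * (a : G)⁻¹, hmem a⟩ : ↥D ⧸ C.subgroupOf D)
        = QuotientGroup.mk ⟨v * (b : G) * v⁻¹ * (b : G)⁻¹, hmem b⟩ := by
      rw [ha, hb]; exact h
    have h2' : (v * (a : G) * v⁻¹ * (a : G)⁻¹)⁻¹ * (v * (b : G) * v⁻¹ * (b : G)⁻¹) ∈ C :=
      Subgroup.mem_subgroupOf.mp (QuotientGroup.eq.mp h')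
    have he : ((a : G)⁻¹ * (b : G)) ∈ A := A.mul_mem (A.inv_mem a.2) b.2
    have hg : (v * (a : G) * v⁻¹ * (a : G)⁻¹)⁻¹ * (v * (b : G) * v⁻¹ * (b : G)⁻¹)
        = (a : G) * (v * ((a : G)⁻¹ * (b : G)) * v⁻¹ * ((a : G)⁻¹ * (b : G))⁻¹) * (a : G)⁻¹ := by
      group
    rw [hg, hC] at h2'
    have hθ : ∀ c' ∈ A, c' * (v * ((a : G)⁻¹ * (b : G)) * v⁻¹ * ((a : G)⁻¹ * (b : G))⁻¹)
        = (v * ((a : G)⁻¹ * (b : G)) * v⁻¹ * ((a : G)⁻¹ * (b : G))⁻¹) * c' := by
      intro c' hc'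
      have h5 := Subgroup.mem_centralizer_iff.mp (Subgroup.mem_inf.mp h2').2
        ((a : G) * c' * (a : G)⁻¹) (A.mul_mem (A.mul_mem a.2 hc') (A.inv_mem a.2))
      exact conj_comm_cancel9 h5
    have hgoal : a⁻¹ * b ∈ Av.subgroupOf A := by
      rw [Subgroup.mem_subgroupOf, hAv]
      refine Subgroup.mem_inf.mpr ⟨(a⁻¹ * b).2, ?_⟩
      refine Subgroup.mem_centralizer_iff.mpr ?_
      rintro s ⟨u, hu, c, hc, rfl⟩
      rw [Set.mem_singleton_iff.mp hu]
      have hK := commK9 hVc hAV hcomm he hc hv (hθ c hc)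
      show v * c * v⁻¹ * c⁻¹ * ((a : G)⁻¹ * (b : G)) = ((a : G)⁻¹ * (b : G)) * (v * c * v⁻¹ * c⁻¹)
      exact hK.symm
    have hfin : (QuotientGroup.mk a : ↥A ⧸ Av.subgroupOf A) = QuotientGroup.mk b :=
      QuotientGroup.eq.mpr hgoal
    rw [ha, hb, QuotientGroup.out_eq', QuotientGroup.out_eq'] at hfin
    exact hfin
  calc Nat.card A * Nat.card C = Nat.card Av * Av.relIndex A * Nat.card C := by rw [h1]
    _ ≤ Nat.card Av * C.relIndex D * Nat.card C :=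
        Nat.mul_le_mul_right _ (Nat.mul_le_mul_left _ h3)
    _ = Nat.card Av * (Nat.card C * C.relIndex D) := by ring
    _ = Nat.card Av * Nat.card D := by rw [h2]

lemma qp_single9 [Finite G] {V A : Subgroup G}
    (hVc : ∀ x ∈ V, ∀ y ∈ V, x * y = y * x)
    (hAV : A ≤ normalizer (V : Set G))
    (hab : ⁅A, A⁆ ≤ centralizer (V : Set G))
    (hstar : ∀ B : Subgroup G, B ≤ A →
      Nat.card B * Nat.card ↥(V ⊓ centralizer (B : Set G)) ≤
        Nat.card A * Nat.card ↥(V ⊓ centralizer (A : Set G)))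
    {v : G} (hv : v ∈ V) :
    Nat.card ↥(A ⊓ centralizer (commSet9 {v} A)) *
        Nat.card ↥(V ⊓ centralizer ((A ⊓ centralizer (commSet9 {v} A) : Subgroup G) : Set G)) =
      Nat.card A * Nat.card ↥(V ⊓ centralizer (A : Set G)) ∧
    V ⊓ centralizer ((A ⊓ centralizer (commSet9 {v} A) : Subgroup G) : Set G) =
      closure (commSet9 {v} A) ⊔ (V ⊓ centralizer (A : Set G)) := by
  have h1 := single_step9 hVc hAV hab hv
  have hle : closure (commSet9 {v} A) ⊔ (V ⊓ centralizer (A : Set G)) ≤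
      V ⊓ centralizer ((A ⊓ centralizer (commSet9 {v} A) : Subgroup G) : Set G) := by
    apply sup_le
    · refine (Subgroup.closure_le _).mpr ?_
      rintro s ⟨u, hu, c, hc, rfl⟩
      rw [Set.mem_singleton_iff.mp hu]
      refine Subgroup.mem_inf.mpr ⟨?_, ?_⟩
      · have h4 : c * v⁻¹ * c⁻¹ ∈ V :=
          (Subgroup.mem_normalizer_iff.mp (hAV hc) _).mp (V.inv_mem hv)
        have e : v * c * v⁻¹ * c⁻¹ = v * (c * v⁻¹ * c⁻¹) := by group
        rw [e]
        exact V.mul_mem hv h4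
      · refine Subgroup.mem_centralizer_iff.mpr ?_
        intro h hh
        exact (Subgroup.mem_centralizer_iff.mp (Subgroup.mem_inf.mp hh).2 _
          ⟨v, rfl, c, hc, rfl⟩).symm
    · exact inf_le_inf_left _ (Subgroup.centralizer_le (SetLike.coe_subset_coe.mpr inf_le_left))
  have h2 := hstar (A ⊓ centralizer (commSet9 {v} A)) inf_le_left
  have h3 := Subgroup.card_le_of_le hle
  have hpos : 0 < Nat.card ↥(A ⊓ centralizer (commSet9 {v} A)) := Nat.card_pos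
  have h4 : Nat.card ↥(A ⊓ centralizer (commSet9 {v} A)) *
        Nat.card ↥(V ⊓ centralizer ((A ⊓ centralizer (commSet9 {v} A) : Subgroup G) : Set G)) =
      Nat.card A * Nat.card ↥(V ⊓ centralizer (A : Set G)) :=
    le_antisymm h2 (h1.trans (Nat.mul_le_mul_left _ h3))
  refine ⟨h4, (Subgroup.eq_of_le_of_card_ge hle ?_).symm⟩
  have h5 : Nat.card ↥(A ⊓ centralizer (commSet9 {v} A)) *
        Nat.card ↥(V ⊓ centralizer ((A ⊓ centralizer (commSet9 {v} A) : Subgroup G) : Set G)) ≤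
      Nat.card ↥(A ⊓ centralizer (commSet9 {v} A)) *
        Nat.card ↥(closure (commSet9 {v} A) ⊔ (V ⊓ centralizer (A : Set G))) := by
    rw [h4]; exact h1
  exact Nat.le_of_mul_le_mul_left h5 hpos

lemma arith_T2_9 {nX nY nJ nI kX kY kJ kI kS F : ℕ} (h1 : nX * nY ≤ nJ * nI)
    (h2 : kX * kY ≤ kS * kJ) (hX : nX * kX = F) (hY : nY * kY = F) (hJ : nJ * kJ ≤ F)
    (hI : nI * kI ≤ F) (hS : kS ≤ kI) (hF : 0 < F) (hnI : 0 < nI) :
    nI * kI = F ∧ kI ≤ kS := by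
  have e1 : F * F ≤ F * (nI * kS) := by
    calc F * F = (nX * kX) * (nY * kY) := by rw [hX, hY]
      _ = (nX * nY) * (kX * kY) := by ring
      _ ≤ (nJ * nI) * (kS * kJ) := Nat.mul_le_mul h1 h2
      _ = (nJ * kJ) * (nI * kS) := by ring
      _ ≤ F * (nI * kS) := Nat.mul_le_mul_right _ hJ
  have e2 : F ≤ nI * kS := Nat.le_of_mul_le_mul_left e1 hF
  have e3 : nI * kS ≤ nI * kI := Nat.mul_le_mul_left _ hS
  have e4 : nI * kI = F := le_antisymm hI (e2.trans e3)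
  have e5 : nI * kI ≤ nI * kS := by rw [e4]; exact e2
  exact ⟨e4, Nat.le_of_mul_le_mul_left e5 hnI⟩

lemma qp_inf9 [Finite G] {V A X Y : Subgroup G}
    (hstar : ∀ B : Subgroup G, B ≤ A →
      Nat.card B * Nat.card ↥(V ⊓ centralizer (B : Set G)) ≤
        Nat.card A * Nat.card ↥(V ⊓ centralizer (A : Set G)))
    (hXA : X ≤ A) (hYA : Y ≤ A)
    (hX : Nat.card X * Nat.card ↥(V ⊓ centralizer (X : Set G)) =
      Nat.card A * Nat.card ↥(V ⊓ centralizer (A : Set G)))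
    (hY : Nat.card Y * Nat.card ↥(V ⊓ centralizer (Y : Set G)) =
      Nat.card A * Nat.card ↥(V ⊓ centralizer (A : Set G))) :
    Nat.card ↥(X ⊓ Y) * Nat.card ↥(V ⊓ centralizer ((X ⊓ Y : Subgroup G) : Set G)) =
      Nat.card A * Nat.card ↥(V ⊓ centralizer (A : Set G)) ∧
    V ⊓ centralizer ((X ⊓ Y : Subgroup G) : Set G) =
      (V ⊓ centralizer (X : Set G)) ⊔ (V ⊓ centralizer (Y : Set G)) := by
  have hJ := hstar (X ⊔ Y) (sup_le hXA hYA)
  have hI := hstar (X ⊓ Y) (inf_le_left.trans hXA)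
  have hS : (V ⊓ centralizer (X : Set G)) ⊔ (V ⊓ centralizer (Y : Set G)) ≤
      V ⊓ centralizer ((X ⊓ Y : Subgroup G) : Set G) :=
    sup_le (inf_le_inf_left _ (Subgroup.centralizer_le (SetLike.coe_subset_coe.mpr inf_le_left)))
      (inf_le_inf_left _ (Subgroup.centralizer_le (SetLike.coe_subset_coe.mpr inf_le_right)))
  have hc1 := card_mul_card_le9 X Y
  have hc2 := card_mul_card_le9 (V ⊓ centralizer (X : Set G)) (V ⊓ centralizer (Y : Set G))
  have hJeq : V ⊓ centralizer ((X ⊔ Y : Subgroup G) : Set G) =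
      (V ⊓ centralizer (X : Set G)) ⊓ (V ⊓ centralizer (Y : Set G)) := by
    rw [centralizer_sup9, inf_inf_distrib_left]
  rw [hJeq] at hJ
  have hSk := Subgroup.card_le_of_le hS
  have hFpos : 0 < Nat.card A * Nat.card ↥(V ⊓ centralizer (A : Set G)) :=
    Nat.mul_pos Nat.card_pos Nat.card_pos
  have hIpos : 0 < Nat.card ↥(X ⊓ Y) := Nat.card_pos
  obtain ⟨e4, e5⟩ := arith_T2_9 hc1 hc2 hX hY hJ hI hSk hFpos hIpos
  exact ⟨e4, (Subgroup.eq_of_le_of_card_ge hS e5).symm⟩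

lemma qp_union9 [Finite G] {V A : Subgroup G}
    (hstar : ∀ B : Subgroup G, B ≤ A →
      Nat.card B * Nat.card ↥(V ⊓ centralizer (B : Set G)) ≤
        Nat.card A * Nat.card ↥(V ⊓ centralizer (A : Set G)))
    {T₁ T₂ : Set G}
    (h1 : Nat.card ↥(A ⊓ centralizer T₁) *
        Nat.card ↥(V ⊓ centralizer ((A ⊓ centralizer T₁ : Subgroup G) : Set G)) =
      Nat.card A * Nat.card ↥(V ⊓ centralizer (A : Set G)) ∧
    V ⊓ centralizer ((A ⊓ centralizer T₁ : Subgroup G) : Set G) =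
      closure T₁ ⊔ (V ⊓ centralizer (A : Set G)))
    (h2 : Nat.card ↥(A ⊓ centralizer T₂) *
        Nat.card ↥(V ⊓ centralizer ((A ⊓ centralizer T₂ : Subgroup G) : Set G)) =
      Nat.card A * Nat.card ↥(V ⊓ centralizer (A : Set G)) ∧
    V ⊓ centralizer ((A ⊓ centralizer T₂ : Subgroup G) : Set G) =
      closure T₂ ⊔ (V ⊓ centralizer (A : Set G))) :
    Nat.card ↥(A ⊓ centralizer (T₁ ∪ T₂)) *
        Nat.card ↥(V ⊓ centralizer ((A ⊓ centralizer (T₁ ∪ T₂) : Subgroup G) : Set G)) =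
      Nat.card A * Nat.card ↥(V ⊓ centralizer (A : Set G)) ∧
    V ⊓ centralizer ((A ⊓ centralizer (T₁ ∪ T₂) : Subgroup G) : Set G) =
      closure (T₁ ∪ T₂) ⊔ (V ⊓ centralizer (A : Set G)) := by
  obtain ⟨h1a, h1b⟩ := h1
  obtain ⟨h2a, h2b⟩ := h2
  have hXY : A ⊓ centralizer (T₁ ∪ T₂) = (A ⊓ centralizer T₁) ⊓ (A ⊓ centralizer T₂) := by
    rw [centralizer_union9, inf_inf_distrib_left]
  obtain ⟨e1, e2⟩ := qp_inf9 hstar inf_le_left inf_le_left h1a h2a
  refine ⟨?_, ?_⟩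
  · rw [hXY]; exact e1
  · rw [hXY, e2, h1b, h2b, Subgroup.closure_union]
    exact (sup_sup_distrib_right _ _ _).symm

lemma qp_finset9 [Finite G] {V A : Subgroup G}
    (hVc : ∀ x ∈ V, ∀ y ∈ V, x * y = y * x)
    (hAV : A ≤ normalizer (V : Set G))
    (hab : ⁅A, A⁆ ≤ centralizer (V : Set G))
    (hstar : ∀ B : Subgroup G, B ≤ A →
      Nat.card B * Nat.card ↥(V ⊓ centralizer (B : Set G)) ≤
        Nat.card A * Nat.card ↥(V ⊓ centralizer (A : Set G))) :
    ∀ s : Finset G, (↑s : Set G) ⊆ (V : Set G) →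
      Nat.card ↥(A ⊓ centralizer (commSet9 (↑s) A)) *
        Nat.card ↥(V ⊓ centralizer ((A ⊓ centralizer (commSet9 (↑s) A) : Subgroup G) : Set G)) =
      Nat.card A * Nat.card ↥(V ⊓ centralizer (A : Set G)) ∧
    V ⊓ centralizer ((A ⊓ centralizer (commSet9 (↑s) A) : Subgroup G) : Set G) =
      closure (commSet9 (↑s) A) ⊔ (V ⊓ centralizer (A : Set G)) := by
  classical
  intro s
  refine Finset.induction_on s ?_ ?_
  · intro _
    rw [Finset.coe_empty, commSet9_empty]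
    have h0 : A ⊓ centralizer (∅ : Set G) = A :=
      inf_eq_left.mpr (fun x _ => Subgroup.mem_centralizer_iff.mpr
        (fun h hh => ((Set.mem_empty_iff_false h).mp hh).elim))
    refine ⟨?_, ?_⟩
    · rw [h0]
    · rw [h0, Subgroup.closure_empty, bot_sup_eq]
  · intro v s' _ ih hsub
    rw [Finset.coe_insert, Set.insert_subset_iff] at hsub
    rw [Finset.coe_insert, commSet9_insert]
    exact qp_union9 hstar (qp_single9 hVc hAV hab hstar hsub.1) (ih hsub.2)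

theorem thompson_repl9 [Finite G] {p : ℕ} (V A : Subgroup G)
    (hV : Cfsg.IsElementaryAbelian p V)
    (hAV : A ≤ normalizer (V : Set G)) (hab : ⁅A, A⁆ ≤ centralizer (V : Set G))
    (U : Subgroup G) (hU : U ≤ V) :
    ∃ B : Subgroup G, B ≤ A ∧
      ((Nat.card A * Nat.card ↥(V ⊓ centralizer (A : Set G)) <
          Nat.card B * Nat.card ↥(V ⊓ centralizer (B : Set G))) ∨
        (B = A ⊓ centralizer ((⁅U, A⁆ : Subgroup G) : Set G) ∧
          (V ⊓ centralizer (B : Set G)) = ⁅U, A⁆ ⊔ (V ⊓ centralizer (A : Set G)) ∧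
          Nat.card A * Nat.card ↥(V ⊓ centralizer (A : Set G)) =
            Nat.card B * Nat.card ↥(V ⊓ centralizer (B : Set G)))) := by
  classical
  by_cases hex : ∃ B : Subgroup G, B ≤ A ∧
      Nat.card A * Nat.card ↥(V ⊓ centralizer (A : Set G)) <
        Nat.card B * Nat.card ↥(V ⊓ centralizer (B : Set G))
  · obtain ⟨B, hB, hlt⟩ := hex
    exact ⟨B, hB, Or.inl hlt⟩
  · have hstar : ∀ B : Subgroup G, B ≤ A →
        Nat.card B * Nat.card ↥(V ⊓ centralizer (B : Set G)) ≤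
          Nat.card A * Nat.card ↥(V ⊓ centralizer (A : Set G)) := by
      intro B hB
      by_contra hlt
      exact hex ⟨B, hB, not_le.mp hlt⟩
    have hVc : ∀ x ∈ V, ∀ y ∈ V, x * y = y * x := by
      intro x hx y hy
      have h := hV.1.is_comm.comm ⟨x, hx⟩ ⟨y, hy⟩
      exact congrArg Subtype.val h
    have hfin := qp_finset9 hVc hAV hab hstar (Set.toFinite (U : Set G)).toFinset (by
      rw [Set.Finite.coe_toFinset]; exact hU)
    rw [Set.Finite.coe_toFinset] at hfin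
    have hcl : closure (commSet9 (U : Set G) A) = ⁅U, A⁆ := rfl
    have hcent : centralizer (commSet9 (U : Set G) A) =
        centralizer ((⁅U, A⁆ : Subgroup G) : Set G) := by
      rw [← hcl, centralizer_closure9]
    rw [hcent, hcl] at hfin
    exact ⟨A ⊓ centralizer ((⁅U, A⁆ : Subgroup G) : Set G), inf_le_left,
      Or.inr ⟨rfl, hfin.2, hfin.1.symm⟩⟩

end Cfsg.Agent.Helper9
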