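import Mathlib
import Cfsg.Prelude.Def_PLocal
import Cfsg.Agent.Helper1.GenCent
import Cfsg.Agent.Helper9.ABLemma
import Cfsg.Agent.Helper9.Layer3
import Cfsg.Agent.Helper9.Layer
import Cfsg.Agent.Helper9.Fitting
import Cfsg.Agent.Helper9.Timmesfeld

set_option autoImplicit false

namespace Cfsg.Agent.Helper9

open Subgroup
open scoped commutatorElement

universe u

variable {G : Type u} [Group G]

theorem mem_zpowers_of_ne_one9 [Finite G] {p : ℕ} [Fact p.Prime] {g w : G} (hg : g ^ p = 1)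
    (hw : w ∈ zpowers g) (hw1 : w ≠ 1) : g ∈ zpowers w := by
  have hg1 : g ≠ 1 := by
    intro h1
    rw [h1, Subgroup.zpowers_one_eq_bot, Subgroup.mem_bot] at hw
    exact hw1 hw
  have hwp : w ^ p = 1 := by
    obtain ⟨k, rfl⟩ := Subgroup.mem_zpowers_iff.mp hw
    rw [← zpow_natCast, ← zpow_mul, mul_comm, zpow_mul, zpow_natCast, hg, one_zpow]
  have h1 : orderOf g = p := orderOf_eq_prime hg hg1
  have h2 : orderOf w = p := orderOf_eq_prime hwp hw1
  have hle : zpowers w ≤ zpowers g := Subgroup.zpowers_le.mpr hw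
  have heq : zpowers w = zpowers g := by
    apply Subgroup.eq_of_le_of_card_ge hle
    rw [Nat.card_zpowers, Nat.card_zpowers, h1, h2]
  rw [heq]
  exact Subgroup.mem_zpowers g

theorem card_sup_zpowers_le9 [Finite G] {p : ℕ} [Fact p.Prime] {A₀ : Subgroup G} {x : G}
    (hx : x ^ p = 1) (hc : ∀ a ∈ A₀, a * x = x * a) :
    Nat.card ↥(A₀ ⊔ zpowers x) ≤ p * Nat.card A₀ := by
  have hcomm : ∀ a ∈ A₀, ∀ b ∈ zpowers x, a * b = b * a := by
    intro a ha b hb
    obtain ⟨k, rfl⟩ := Subgroup.mem_zpowers_iff.mp hb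
    exact ((show Commute a x from hc a ha).zpow_right k).eq
  have hsurj : Function.Surjective (fun q : ↥A₀ × ↥(zpowers x) =>
      (⟨(q.1 : G) * (q.2 : G), Subgroup.mul_mem _ (Subgroup.mem_sup_left q.1.2)
        (Subgroup.mem_sup_right q.2.2)⟩ : ↥(A₀ ⊔ zpowers x))) := by
    rintro ⟨y, hy⟩
    obtain ⟨a, ha, b, hb, rfl⟩ := mem_sup_of_commute hcomm hy
    exact ⟨(⟨a, ha⟩, ⟨b, hb⟩), rfl⟩
  have h1 := Nat.card_le_card_of_surjective _ hsurj
  rw [Nat.card_prod, Nat.card_zpowers] at h1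
  have h2 : orderOf x ≤ p :=
    Nat.le_of_dvd (Fact.out : p.Prime).pos (orderOf_dvd_of_pow_eq_one hx)
  calc Nat.card ↥(A₀ ⊔ zpowers x) ≤ Nat.card A₀ * orderOf x := h1
    _ ≤ Nat.card A₀ * p := Nat.mul_le_mul_left _ h2
    _ = p * Nat.card A₀ := Nat.mul_comm _ _

theorem pgroup_card_step9 [Finite G] {p : ℕ} [Fact p.Prime] {C W : Subgroup G}
    (hW : IsPGroup p ↥W) (hlt : C < W) : p * Nat.card C ≤ Nat.card W := by
  have hp : p.Prime := Fact.out
  obtain ⟨w, hw⟩ := IsPGroup.iff_card.mp hW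
  obtain ⟨c, hc⟩ := IsPGroup.iff_card.mp (hW.to_le hlt.le)
  have h1 : Nat.card C < Nat.card W := card_lt_of_lt hlt
  rw [hw, hc] at h1 ⊢
  have h2 : c < w := (Nat.pow_lt_pow_iff_right hp.one_lt).mp h1
  calc p * p ^ c = p ^ (c + 1) := by rw [pow_succ, mul_comm]
    _ ≤ p ^ w := Nat.pow_le_pow_right hp.pos h2

theorem isPGroup_of_exp9 {p : ℕ} {A : Subgroup G} (hAp : ∀ a ∈ A, a ^ p = 1) :
    IsPGroup p ↥A := by
  intro g
  refine ⟨1, Subtype.ext ?_⟩
  rw [pow_one, Subgroup.coe_pow]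
  exact hAp _ g.2

/-- If `x` centralizes `C_V(A₀)` then `x` centralizes `C_Q(A₀)` (`Q` a faithful `p'`-group on
the `p`-group `V`). -/
theorem cent_fix_imp_cent9 [Finite G] {p : ℕ} [Fact p.Prime] {V Q A₀ : Subgroup G} {x : G}
    (hVp : IsPGroup p ↥V) (hQV : Q ≤ normalizer (V : Set G)) (hQp : (Nat.card Q).Coprime p)
    (hQf : Q ⊓ centralizer (V : Set G) = ⊥)
    (hA₀p : IsPGroup p ↥A₀) (hA₀V : A₀ ≤ normalizer (V : Set G))
    (hxV : x ∈ normalizer (V : Set G)) (hxQ : x ∈ normalizer (Q : Set G))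
    (hxA : ∀ b ∈ A₀, x * b = b * x)
    (hxW : ∀ w ∈ V ⊓ centralizer (A₀ : Set G), x * w = w * x) :
    ∀ k ∈ Q ⊓ centralizer (A₀ : Set G), x * k = k * x := by
  intro k hk
  obtain ⟨hkQ, hkA⟩ := Subgroup.mem_inf.mp hk
  have hkA' : ∀ b ∈ A₀, k * b = b * k :=
    fun b hb => (Subgroup.mem_centralizer_iff.mp hkA b hb).symm
  obtain ⟨c, hc⟩ : ∃ c : G, c = k * x * k⁻¹ * x⁻¹ := ⟨_, rfl⟩
  have hcQ : c ∈ Q := by
    rw [hc]
    have h1 : x * k⁻¹ * x⁻¹ ∈ Q := (Subgroup.mem_normalizer_iff.mp hxQ _).mp (Q.inv_mem hkQ)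
    have e : k * x * k⁻¹ * x⁻¹ = k * (x * k⁻¹ * x⁻¹) := by group
    rw [e]; exact Q.mul_mem hkQ h1
  have hcb : ∀ b ∈ A₀, c * b = b * c := by
    intro b hb
    have h1 : Commute k b := hkA' b hb
    have h2 : Commute x b := hxA b hb
    rw [hc]
    exact (((h1.mul_left h2).mul_left h1.inv_left).mul_left h2.inv_left).eq
  have hcV : c ∈ normalizer (V : Set G) := by
    rw [hc]
    exact Subgroup.mul_mem _ (Subgroup.mul_mem _ (Subgroup.mul_mem _ (hQV hkQ) hxV)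
      (Subgroup.inv_mem _ (hQV hkQ))) (Subgroup.inv_mem _ hxV)
  have hcord : (orderOf c).Coprime p :=
    Nat.Coprime.coprime_dvd_left (Q.orderOf_dvd_natCard hcQ) hQp
  have hcW : ∀ w ∈ V ⊓ centralizer (A₀ : Set G), c * w = w * c := by
    intro w hw
    obtain ⟨hwV, hwA⟩ := Subgroup.mem_inf.mp hw
    have hw' : k⁻¹ * w * k ∈ V ⊓ centralizer (A₀ : Set G) := by
      refine Subgroup.mem_inf.mpr ⟨?_, ?_⟩
      · have h0 := (Subgroup.mem_normalizer_iff.mp (Subgroup.inv_mem _ (hQV hkQ)) w).mp hwV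
        rwa [inv_inv] at h0
      · refine Subgroup.mem_centralizer_iff.mpr fun b hb => ?_
        have h1 : Commute b k := (hkA' b hb).symm
        have h2 : Commute b w := Subgroup.mem_centralizer_iff.mp hwA b hb
        exact ((h1.inv_right.mul_right h2).mul_right h1).eq
    have hxw := hxW w hw
    have hxw' := hxW _ hw'
    have e0 : x⁻¹ * w * x = w := by
      calc x⁻¹ * w * x = x⁻¹ * (w * x) := by group
        _ = x⁻¹ * (x * w) := by rw [hxw]
        _ = w := by group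
    rw [hc]
    calc k * x * k⁻¹ * x⁻¹ * w = k * x * k⁻¹ * (x⁻¹ * w * x) * x⁻¹ := by group
      _ = k * x * k⁻¹ * w * x⁻¹ := by rw [e0]
      _ = k * (x * (k⁻¹ * w * k)) * k⁻¹ * x⁻¹ := by group
      _ = k * ((k⁻¹ * w * k) * x) * k⁻¹ * x⁻¹ := by rw [hxw']
      _ = w * (k * x * k⁻¹ * x⁻¹) := by group
  have hcV2 := thompson_AxB_elt p c hcord A₀ V hA₀p hVp hcb hA₀V hcV hcW
  have hc1 : c ∈ Q ⊓ centralizer (V : Set G) :=
    Subgroup.mem_inf.mpr ⟨hcQ, Subgroup.mem_centralizer_iff.mpr fun v hv => (hcV2 v hv).symm⟩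
  rw [hQf, Subgroup.mem_bot] at hc1
  rw [hc1] at hc
  calc x * k = (k * x * k⁻¹ * x⁻¹)⁻¹ * (k * x) := by group
    _ = k * x := by rw [← hc, inv_one, one_mul]

/-- Existence of a "hyperplane" `A₀` of the elementary abelian `p`-group `A` with `A` acting
nontrivially on `C_Q(A₀)`. -/
theorem exists_hyperplane9 [Finite G] {p : ℕ} [Fact p.Prime] {Q A : Subgroup G}
    (hQp : (Nat.card Q).Coprime p)
    (hAc : ∀ a ∈ A, ∀ b ∈ A, a * b = b * a) (hAp : ∀ a ∈ A, a ^ p = 1)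
    (hAQ : A ≤ normalizer (Q : Set G)) (hnc : ¬ A ≤ centralizer (Q : Set G)) :
    ∃ A₀ : Subgroup G, A₀ ≤ A ∧ ∃ x ∈ A, x ∉ A₀ ∧ A = A₀ ⊔ zpowers x ∧
      ¬ ∀ k ∈ Q ⊓ centralizer (A₀ : Set G), x * k = k * x := by
  classical
  have hp : p.Prime := Fact.out
  obtain ⟨S, hS⟩ : ∃ S : Set (Subgroup G), S = {B | B ≤ A ∧ ∃ x ∈ A,
      ¬ ∀ k ∈ Q ⊓ centralizer (B : Set G), x * k = k * x} := ⟨_, rfl⟩
  have hbot : (⊥ : Subgroup G) ∈ S := by
    rw [hS]
    obtain ⟨a, ha, hna⟩ := SetLike.not_le_iff_exists.mp hnc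
    have hna' : ¬ ∀ k ∈ Q, k * a = a * k := fun h => hna (Subgroup.mem_centralizer_iff.mpr h)
    refine ⟨bot_le, a, ha, fun hall => hna' fun k hk => ?_⟩
    exact (hall k (Subgroup.mem_inf.mpr ⟨hk, Subgroup.mem_centralizer_iff.mpr fun h hh => by
      rw [Subgroup.mem_bot.mp hh, one_mul, mul_one]⟩)).symm
  haveI : Nonempty ↥S := ⟨⟨⊥, hbot⟩⟩
  obtain ⟨⟨B, hBS⟩, hBmax⟩ := Finite.exists_max (fun B : ↥S => Nat.card ↥(B : Subgroup G))
  have hBS' := hBS
  rw [hS] at hBS'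
  obtain ⟨hBA, x, hxA, hx⟩ := hBS'
  have hxB : x ∉ B := by
    intro hxB
    apply hx
    intro k hk
    exact Subgroup.mem_centralizer_iff.mp (Subgroup.mem_inf.mp hk).2 x hxB
  refine ⟨B, hBA, x, hxA, hxB, ?_, hx⟩
  apply le_antisymm
  swap
  · exact sup_le hBA (Subgroup.zpowers_le.mpr hxA)
  intro b' hb'A
  by_contra hb'
  obtain ⟨K, hK⟩ : ∃ K : Subgroup G, K = Q ⊓ centralizer (B : Set G) := ⟨_, rfl⟩
  obtain ⟨A', hA'⟩ : ∃ A' : Subgroup G, A' = zpowers x ⊔ zpowers b' := ⟨_, rfl⟩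
  have hA'A : A' ≤ A := by
    rw [hA']; exact sup_le (Subgroup.zpowers_le.mpr hxA) (Subgroup.zpowers_le.mpr hb'A)
  have hx1 : x ≠ 1 := fun h => hxB (by rw [h]; exact B.one_mem)
  have hxp : x ^ p = 1 := hAp x hxA
  have hb'p : b' ^ p = 1 := hAp b' hb'A
  have f2 : ∀ a ∈ A', a ∈ B → a = 1 := by
    intro a haA' haB
    rw [hA'] at haA'
    obtain ⟨u, hu, w, hw, rfl⟩ := mem_sup_of_commute
      (fun a ha b hb => hAc a (Subgroup.zpowers_le.mpr hxA ha) b
        (Subgroup.zpowers_le.mpr hb'A hb)) haA'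
    have hw1 : w = 1 := by
      by_contra hw1
      have h1 := mem_zpowers_of_ne_one9 hb'p hw hw1
      have h2 : w ∈ B ⊔ zpowers x := by
        have e : w = u⁻¹ * (u * w) := by group
        rw [e]
        exact Subgroup.mul_mem _ (Subgroup.mem_sup_right (Subgroup.inv_mem _ hu))
          (Subgroup.mem_sup_left haB)
      exact hb' (Subgroup.zpowers_le.mpr h2 h1)
    rw [hw1, mul_one] at haB ⊢
    by_contra hu1
    have h1 := mem_zpowers_of_ne_one9 hxp hu hu1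
    exact hxB (Subgroup.zpowers_le.mpr haB h1)
  have f3 : ¬ IsCyclic ↥A' := by
    intro hcyc
    obtain ⟨g, hg⟩ := IsCyclic.exists_generator (α := ↥A')
    have hgp : g ^ p = 1 := Subtype.ext (by rw [Subgroup.coe_pow]; exact hAp _ (hA'A g.2))
    have h1 : Nat.card ↥A' ≤ p := by
      rw [← orderOf_eq_card_of_forall_mem_zpowers hg]
      exact Nat.le_of_dvd hp.pos (orderOf_dvd_of_pow_eq_one hgp)
    have hle : zpowers x ≤ A' := by rw [hA']; exact le_sup_left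
    have heq : zpowers x = A' := by
      apply Subgroup.eq_of_le_of_card_ge hle
      rw [Nat.card_zpowers, orderOf_eq_prime hxp hx1]
      exact h1
    apply hb'
    have hb'A' : b' ∈ A' := by rw [hA']; exact Subgroup.mem_sup_right (Subgroup.mem_zpowers b')
    rw [← heq] at hb'A'
    exact Subgroup.mem_sup_right hb'A'
  have hAK : ∀ a ∈ A, a ∈ normalizer (K : Set G) := by
    intro a ha
    apply Subgroup.mem_normalizer_fintype
    intro n hn
    have hn' : n ∈ Q ⊓ centralizer (B : Set G) := by rw [← hK]; exact hn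
    obtain ⟨hnQ, hnB⟩ := Subgroup.mem_inf.mp hn'
    show a * n * a⁻¹ ∈ K
    rw [hK]
    refine Subgroup.mem_inf.mpr ⟨(Subgroup.mem_normalizer_iff.mp (hAQ ha) n).mp hnQ, ?_⟩
    refine Subgroup.mem_centralizer_iff.mpr fun b hb => ?_
    have h1 : Commute b a := hAc b (hBA hb) a ha
    have h2 : Commute b n := Subgroup.mem_centralizer_iff.mp hnB b hb
    exact ((h1.mul_right h2).mul_right h1.inv_right).eq
  have f4 : A' ≤ normalizer (K : Set G) := fun a ha => hAK a (hA'A ha)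
  have hA'pg : IsPGroup p ↥A' := isPGroup_of_exp9 (fun a ha => hAp a (hA'A ha))
  obtain ⟨m, hm⟩ := IsPGroup.iff_card.mp hA'pg
  have hKQ : K ≤ Q := by rw [hK]; exact inf_le_left
  have f5 : (Nat.card ↥A').Coprime (Nat.card ↥K) := by
    rw [hm]
    exact Nat.Coprime.pow_left m (Nat.Coprime.symm
      (Nat.Coprime.coprime_dvd_left (Subgroup.card_dvd_of_le hKQ) hQp))
  have hgen := Cfsg.Agent.Helper1.centGen_aux (Nat.card ↥K) G A' K rfl
    (fun a ha b hb => hAc a (hA'A ha) b (hA'A hb)) f3 f4 f5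
  have hex : ∃ a ∈ A', a ≠ 1 ∧ ¬ ∀ k' ∈ K ⊓ centralizer ({a} : Set G), x * k' = k' * x := by
    by_contra hcon
    have hall : ∀ a ∈ A', a ≠ 1 → ∀ k' ∈ K ⊓ centralizer ({a} : Set G), x * k' = k' * x := by
      intro a ha ha1
      by_contra h
      exact hcon ⟨a, ha, ha1, h⟩
    have hle : Cfsg.Agent.Helper1.centGen A' K ≤ centralizer ({x} : Set G) := by
      unfold Cfsg.Agent.Helper1.centGen
      refine iSup₂_le fun a ha => ?_
      intro k' hk'
      refine Subgroup.mem_centralizer_iff.mpr fun h hh => ?_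
      rw [Set.mem_singleton_iff.mp hh]
      exact hall a ha.1 ha.2 k' hk'
    apply hx
    intro k hk
    have hkK : k ∈ K := by rw [hK]; exact hk
    exact Subgroup.mem_centralizer_iff.mp (hle (hgen hkK)) x (Set.mem_singleton x)
  obtain ⟨a, haA', ha1, hak⟩ := hex
  have hB'S : (B ⊔ zpowers a) ∈ S := by
    rw [hS]
    refine ⟨sup_le hBA (Subgroup.zpowers_le.mpr (hA'A haA')), x, hxA, ?_⟩
    intro hall
    apply hak
    intro k' hk'
    obtain ⟨hk'K, hk'a⟩ := Subgroup.mem_inf.mp hk'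
    rw [hK] at hk'K
    obtain ⟨hk'Q, hk'B⟩ := Subgroup.mem_inf.mp hk'K
    apply hall k'
    refine Subgroup.mem_inf.mpr ⟨hk'Q, ?_⟩
    rw [centralizer_sup9]
    refine Subgroup.mem_inf.mpr ⟨hk'B, ?_⟩
    rw [Subgroup.zpowers_eq_closure, centralizer_closure9]
    exact hk'a
  have hlt : B < B ⊔ zpowers a := by
    refine lt_of_le_of_ne le_sup_left ?_
    intro heq
    have haB : a ∈ B := by rw [heq]; exact Subgroup.mem_sup_right (Subgroup.mem_zpowers a)
    exact ha1 (f2 a haA' haB)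
  have h1 := hBmax ⟨B ⊔ zpowers a, hB'S⟩
  exact absurd (card_lt_of_lt hlt) (not_lt.mpr h1)

/-- No over-offenders: an elementary abelian `p`-group `A` acting faithfully on the `p'`-group
`Q`, itself faithful on the `p`-group `V`, satisfies `|A| |C_V(A)| ≤ |V|`. -/
theorem offender_bound9 [Finite G] {p : ℕ} [Fact p.Prime] {V Q : Subgroup G}
    (hVp : IsPGroup p ↥V) (hQV : Q ≤ normalizer (V : Set G)) (hQp : (Nat.card Q).Coprime p)
    (hQf : Q ⊓ centralizer (V : Set G) = ⊥) :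
    ∀ (n : ℕ) (A : Subgroup G), Nat.card A = n →
      (∀ a ∈ A, ∀ b ∈ A, a * b = b * a) → (∀ a ∈ A, a ^ p = 1) →
      A ≤ normalizer (V : Set G) → A ≤ normalizer (Q : Set G) →
      A ⊓ centralizer (Q : Set G) = ⊥ →
      Nat.card A * Nat.card ↥(V ⊓ centralizer (A : Set G)) ≤ Nat.card V := by
  intro n
  induction n using Nat.strong_induction_on with
  | _ n ih =>
  intro A hn hAc hAp hAV hAQ hAf
  have hp : p.Prime := Fact.out
  by_cases hA1 : A = ⊥
  · rw [hA1, Subgroup.card_bot, one_mul]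
    exact Subgroup.card_le_of_le inf_le_left
  have hnc : ¬ A ≤ centralizer (Q : Set G) := by
    intro hle
    apply hA1
    rw [← hAf]
    exact (inf_eq_left.mpr hle).symm
  obtain ⟨A₀, hA₀A, x, hxA, hxA₀, hAeq, hxk⟩ := exists_hyperplane9 hQp hAc hAp hAQ hnc
  have hlt : A₀ < A := lt_of_le_of_ne hA₀A (fun h => hxA₀ (by rw [h]; exact hxA))
  have hcardlt : Nat.card A₀ < n := by rw [← hn]; exact card_lt_of_lt hlt
  have hA₀f : A₀ ⊓ centralizer (Q : Set G) = ⊥ := by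
    rw [eq_bot_iff, ← hAf]; exact inf_le_inf_right _ hA₀A
  have ih0 := ih (Nat.card A₀) hcardlt A₀ rfl (fun a ha b hb => hAc a (hA₀A ha) b (hA₀A hb))
    (fun a ha => hAp a (hA₀A ha)) (hA₀A.trans hAV) (hA₀A.trans hAQ) hA₀f
  have hA₀p : IsPGroup p ↥A₀ := isPGroup_of_exp9 (fun a ha => hAp a (hA₀A ha))
  have hxW : ¬ ∀ w ∈ V ⊓ centralizer (A₀ : Set G), x * w = w * x := by
    intro hall
    exact hxk (cent_fix_imp_cent9 hVp hQV hQp hQf hA₀p (hA₀A.trans hAV) (hAV hxA) (hAQ hxA)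
      (fun b hb => hAc x hxA b (hA₀A hb)) hall)
  have hle : V ⊓ centralizer (A : Set G) ≤ V ⊓ centralizer (A₀ : Set G) :=
    inf_le_inf_left _ (Subgroup.centralizer_le (SetLike.coe_subset_coe.mpr hA₀A))
  have hlt2 : V ⊓ centralizer (A : Set G) < V ⊓ centralizer (A₀ : Set G) := by
    refine lt_of_le_of_ne hle ?_
    intro heq
    apply hxW
    intro w hw
    rw [← heq] at hw
    exact Subgroup.mem_centralizer_iff.mp (Subgroup.mem_inf.mp hw).2 x hxA
  have hstep : p * Nat.card ↥(V ⊓ centralizer (A : Set G)) ≤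
      Nat.card ↥(V ⊓ centralizer (A₀ : Set G)) :=
    pgroup_card_step9 (hVp.to_le inf_le_left) hlt2
  have hcardA : Nat.card A ≤ p * Nat.card A₀ := by
    have h1 := card_sup_zpowers_le9 (A₀ := A₀) (hAp x hxA) (fun a ha => hAc a (hA₀A ha) x hxA)
    rw [← hAeq] at h1
    exact h1
  calc Nat.card A * Nat.card ↥(V ⊓ centralizer (A : Set G))
      ≤ (p * Nat.card A₀) * Nat.card ↥(V ⊓ centralizer (A : Set G)) :=
        Nat.mul_le_mul_right _ hcardA
    _ = Nat.card A₀ * (p * Nat.card ↥(V ⊓ centralizer (A : Set G))) := by ring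
    _ ≤ Nat.card A₀ * Nat.card ↥(V ⊓ centralizer (A₀ : Set G)) := Nat.mul_le_mul_left _ hstep
    _ ≤ Nat.card V := ih0

/-- The `p'`-core of a faithful group `H` on `V` with `C_H(O_{p'}(H)) ≤ O_{p'}(H)`, as a
subgroup of the ambient group. -/
theorem pprime_core_setup9 [Finite G] {p : ℕ} [Fact p.Prime] (V H : Subgroup G)
    (hHV : H ≤ normalizer (V : Set G)) (hf : H ⊓ centralizer (V : Set G) = ⊥)
    (hS1 : centralizer (Cfsg.pPrimeCore p ↥H : Set ↥H) ≤ Cfsg.pPrimeCore p ↥H) :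
    ∃ Q : Subgroup G, Q ≤ H ∧ (Nat.card Q).Coprime p ∧ H ≤ normalizer (Q : Set G) ∧
      Q ⊓ centralizer (V : Set G) = ⊥ ∧
      ∀ A : Subgroup G, A ≤ H → (∀ a ∈ A, a ^ p = 1) → A ⊓ centralizer (Q : Set G) = ⊥ := by
  obtain ⟨Q, hQ⟩ : ∃ Q : Subgroup G, Q = (Cfsg.pPrimeCore p ↥H).map H.subtype := ⟨_, rfl⟩
  have hQH : Q ≤ H := by rw [hQ]; exact Subgroup.map_subtype_le _
  have hQp : (Nat.card Q).Coprime p := by
    rw [hQ, Subgroup.card_map_of_injective H.subtype_injective]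
    exact pPrimeCore_coprime p
  have hQf : Q ⊓ centralizer (V : Set G) = ⊥ := by
    rw [eq_bot_iff, ← hf]; exact inf_le_inf_right _ hQH
  have hHQ : H ≤ normalizer (Q : Set G) := by
    rw [hQ]; exact Subgroup.le_normalizer.trans (char_map_normalizer H (Cfsg.pPrimeCore p ↥H))
  refine ⟨Q, hQH, hQp, hHQ, hQf, ?_⟩
  intro A hAH hAp
  rw [eq_bot_iff]
  intro a ha
  obtain ⟨haA, haQ⟩ := Subgroup.mem_inf.mp ha
  have h1 : (⟨a, hAH haA⟩ : ↥H) ∈ centralizer (Cfsg.pPrimeCore p ↥H : Set ↥H) := by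
    refine Subgroup.mem_centralizer_iff.mpr fun k hk => Subtype.ext ?_
    have hk' : (k : G) ∈ Q := by rw [hQ]; exact ⟨k, hk, rfl⟩
    exact Subgroup.mem_centralizer_iff.mp haQ _ hk'
  have h2 : a ∈ Q := by rw [hQ]; exact ⟨⟨a, hAH haA⟩, hS1 h1, rfl⟩
  have h3 : orderOf a ∣ Nat.card Q := Q.orderOf_dvd_natCard h2
  have h4 : orderOf a ∣ p := orderOf_dvd_of_pow_eq_one (hAp a haA)
  have h5 : orderOf a = 1 := Nat.eq_one_of_dvd_coprimes hQp h3 h4
  rw [Subgroup.mem_bot]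
  exact orderOf_eq_one_iff.mp h5

theorem ff_best_offender_card9 [Finite G] {p : ℕ} [Fact p.Prime] (V H : Subgroup G)
    (hV : Cfsg.IsElementaryAbelian p V) (hHV : H ≤ normalizer (V : Set G))
    (hf : H ⊓ centralizer (V : Set G) = ⊥)
    (hS1 : centralizer (Cfsg.pPrimeCore p ↥H : Set ↥H) ≤ Cfsg.pPrimeCore p ↥H)
    (A : Subgroup G) (hAH : A ≤ H) (hA : Cfsg.IsBestOffenderOn p V A) :
    Nat.card A * Nat.card ↥(V ⊓ centralizer (A : Set G)) = Nat.card V := by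
  obtain ⟨hstar, hab, hpow⟩ := hA
  have hAc : ∀ a ∈ A, ∀ b ∈ A, a * b = b * a := by
    intro a ha b hb
    have h1 : ⁅a, b⁆ ∈ H ⊓ centralizer (V : Set G) := by
      refine Subgroup.mem_inf.mpr ⟨?_, hab (Subgroup.commutator_mem_commutator ha hb)⟩
      rw [commutatorElement_def]
      exact H.mul_mem (H.mul_mem (H.mul_mem (hAH ha) (hAH hb)) (H.inv_mem (hAH ha)))
        (H.inv_mem (hAH hb))
    rw [hf, Subgroup.mem_bot] at h1
    exact commutatorElement_eq_one_iff_mul_comm.mp h1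
  have hAp : ∀ a ∈ A, a ^ p = 1 := by
    intro a ha
    have h1 : a ^ p ∈ H ⊓ centralizer (V : Set G) :=
      Subgroup.mem_inf.mpr ⟨H.pow_mem (hAH ha) p, hpow a ha⟩
    rw [hf, Subgroup.mem_bot] at h1
    exact h1
  have hVp : IsPGroup p ↥V := isPGroup_of_exp9 hV.2
  obtain ⟨Q, hQH, hQp, hHQ, hQf, hQA⟩ := pprime_core_setup9 V H hHV hf hS1
  have hle := offender_bound9 hVp (hQH.trans hHV) hQp hQf (Nat.card A) A rfl hAc hAp
    (hAH.trans hHV) (hAH.trans hHQ) (hQA A hAH hAp)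
  have hge := hstar ⊥ bot_le
  have e1 : V ⊓ centralizer ((⊥ : Subgroup G) : Set G) = V :=
    inf_eq_left.mpr (fun v _ => Subgroup.mem_centralizer_iff.mpr (fun h hh => by
      rw [Subgroup.mem_bot.mp hh, one_mul, mul_one]))
  rw [e1, Subgroup.card_bot, one_mul] at hge
  exact le_antisymm hle hge

end Cfsg.Agent.Helper9
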