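import Mathlib
import Cfsg.Prelude.Def_PLocal
import Cfsg.Agent.Helper9.Offender

set_option autoImplicit false

namespace Cfsg.Agent.Helper9

open Subgroup
open scoped commutatorElement

universe u

variable {G : Type u} [Group G]

/-- A "hyperplane" `A₀` complementing a prescribed element `x` of `A` that acts nontrivially
on `Q`, with `x` still acting nontrivially on `C_Q(A₀)`. -/
theorem exists_hyperplane_for9 [Finite G] {p : ℕ} [Fact p.Prime] {Q A : Subgroup G}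
    (hQp : (Nat.card Q).Coprime p)
    (hAc : ∀ a ∈ A, ∀ b ∈ A, a * b = b * a) (hAp : ∀ a ∈ A, a ^ p = 1)
    (hAQ : A ≤ normalizer (Q : Set G)) {x : G} (hxA : x ∈ A)
    (hxQ : ¬ ∀ k ∈ Q, x * k = k * x) :
    ∃ A₀ : Subgroup G, A₀ ≤ A ∧ x ∉ A₀ ∧ A = A₀ ⊔ zpowers x ∧
      ¬ ∀ k ∈ Q ⊓ centralizer (A₀ : Set G), x * k = k * x := by
  classical
  have hp : p.Prime := Fact.out
  obtain ⟨S, hS⟩ : ∃ S : Set (Subgroup G), S = {B | B ≤ A ∧
      ¬ ∀ k ∈ Q ⊓ centralizer (B : Set G), x * k = k * x} := ⟨_, rfl⟩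
  have hbot : (⊥ : Subgroup G) ∈ S := by
    rw [hS]
    refine ⟨bot_le, fun hall => hxQ fun k hk => ?_⟩
    exact hall k (Subgroup.mem_inf.mpr ⟨hk, Subgroup.mem_centralizer_iff.mpr fun h hh => by
      rw [Subgroup.mem_bot.mp hh, one_mul, mul_one]⟩)
  haveI : Nonempty ↥S := ⟨⟨⊥, hbot⟩⟩
  obtain ⟨⟨B, hBS⟩, hBmax⟩ := Finite.exists_max (fun B : ↥S => Nat.card ↥(B : Subgroup G))
  have hBS' := hBS
  rw [hS] at hBS'
  obtain ⟨hBA, hx⟩ := hBS'
  have hxB : x ∉ B := by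
    intro hxB
    apply hx
    intro k hk
    exact Subgroup.mem_centralizer_iff.mp (Subgroup.mem_inf.mp hk).2 x hxB
  refine ⟨B, hBA, hxB, ?_, hx⟩
  apply le_antisymm
  swap
  · exact sup_le hBA (Subgroup.zpowers_le.mpr hxA)
  intro b' hb'A
  by_contra hb'
  obtain ⟨K, hK⟩ : ∃ K : Subgroup G, K = Q ⊓ centralizer (B : Set G) := ⟨_, rfl⟩
  obtain ⟨A', hA'⟩ : ∃ A' : Subgroup G, A' = zpowers x ⊔ zpowers b' := ⟨_, rfl⟩
  have hA'A : A' ≤ A := by
    rw [hA']; exact sup_le (Subgroup.zpowers_le.mpr hxA) (Subgroup.zpowers_le.mpr hb'A)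
  have hx1 : x ≠ 1 := fun h => hxB (by rw [h]; exact B.one_mem)
  have hxp : x ^ p = 1 := hAp x hxA
  have hb'p : b' ^ p = 1 := hAp b' hb'A
  have f2 : ∀ a ∈ A', a ∈ B → a = 1 := by
    intro a haA' haB
    rw [hA'] at haA'
    obtain ⟨u, hu, w, hw, rfl⟩ := mem_sup_of_commute
      (fun a ha b hb => hAc a (Subgroup.zpowers_le.mpr hxA ha) b
        (Subgroup.zpowers_le.mpr hb'A hb)) haA'
    have hw1 : w = 1 := by
      by_contra hw1
      have h1 := mem_zpowers_of_ne_one9 hb'p hw hw1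
      have h2 : w ∈ B ⊔ zpowers x := by
        have e : w = u⁻¹ * (u * w) := by group
        rw [e]
        exact Subgroup.mul_mem _ (Subgroup.mem_sup_right (Subgroup.inv_mem _ hu))
          (Subgroup.mem_sup_left haB)
      exact hb' (Subgroup.zpowers_le.mpr h2 h1)
    rw [hw1, mul_one] at haB ⊢
    by_contra hu1
    have h1 := mem_zpowers_of_ne_one9 hxp hu hu1
    exact hxB (Subgroup.zpowers_le.mpr haB h1)
  have f3 : ¬ IsCyclic ↥A' := by
    intro hcyc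
    obtain ⟨g, hg⟩ := IsCyclic.exists_generator (α := ↥A')
    have hgp : g ^ p = 1 := Subtype.ext (by rw [Subgroup.coe_pow]; exact hAp _ (hA'A g.2))
    have h1 : Nat.card ↥A' ≤ p := by
      rw [← orderOf_eq_card_of_forall_mem_zpowers hg]
      exact Nat.le_of_dvd hp.pos (orderOf_dvd_of_pow_eq_one hgp)
    have hle : zpowers x ≤ A' := by rw [hA']; exact le_sup_left
    have heq : zpowers x = A' := by
      apply Subgroup.eq_of_le_of_card_ge hle
      rw [Nat.card_zpowers, orderOf_eq_prime hxp hx1]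
      exact h1
    apply hb'
    have hb'A' : b' ∈ A' := by rw [hA']; exact Subgroup.mem_sup_right (Subgroup.mem_zpowers b')
    rw [← heq] at hb'A'
    exact Subgroup.mem_sup_right hb'A'
  have hAK : ∀ a ∈ A, a ∈ normalizer (K : Set G) := by
    intro a ha
    apply Subgroup.mem_normalizer_fintype
    intro n hn
    have hn' : n ∈ Q ⊓ centralizer (B : Set G) := by rw [← hK]; exact hn
    obtain ⟨hnQ, hnB⟩ := Subgroup.mem_inf.mp hn'
    show a * n * a⁻¹ ∈ K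
    rw [hK]
    refine Subgroup.mem_inf.mpr ⟨(Subgroup.mem_normalizer_iff.mp (hAQ ha) n).mp hnQ, ?_⟩
    refine Subgroup.mem_centralizer_iff.mpr fun b hb => ?_
    have h1 : Commute b a := hAc b (hBA hb) a ha
    have h2 : Commute b n := Subgroup.mem_centralizer_iff.mp hnB b hb
    exact ((h1.mul_right h2).mul_right h1.inv_right).eq
  have f4 : A' ≤ normalizer (K : Set G) := fun a ha => hAK a (hA'A ha)
  have hA'pg : IsPGroup p ↥A' := isPGroup_of_exp9 (fun a ha => hAp a (hA'A ha))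
  obtain ⟨m, hm⟩ := IsPGroup.iff_card.mp hA'pg
  have hKQ : K ≤ Q := by rw [hK]; exact inf_le_left
  have f5 : (Nat.card ↥A').Coprime (Nat.card ↥K) := by
    rw [hm]
    exact Nat.Coprime.pow_left m (Nat.Coprime.symm
      (Nat.Coprime.coprime_dvd_left (Subgroup.card_dvd_of_le hKQ) hQp))
  have hgen := Cfsg.Agent.Helper1.centGen_aux (Nat.card ↥K) G A' K rfl
    (fun a ha b hb => hAc a (hA'A ha) b (hA'A hb)) f3 f4 f5
  have hex : ∃ a ∈ A', a ≠ 1 ∧ ¬ ∀ k' ∈ K ⊓ centralizer ({a} : Set G), x * k' = k' * x := by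
    by_contra hcon
    have hall : ∀ a ∈ A', a ≠ 1 → ∀ k' ∈ K ⊓ centralizer ({a} : Set G), x * k' = k' * x := by
      intro a ha ha1
      by_contra h
      exact hcon ⟨a, ha, ha1, h⟩
    have hle : Cfsg.Agent.Helper1.centGen A' K ≤ centralizer ({x} : Set G) := by
      unfold Cfsg.Agent.Helper1.centGen
      refine iSup₂_le fun a ha => ?_
      intro k' hk'
      refine Subgroup.mem_centralizer_iff.mpr fun h hh => ?_
      rw [Set.mem_singleton_iff.mp hh]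
      exact hall a ha.1 ha.2 k' hk'
    apply hx
    intro k hk
    have hkK : k ∈ K := by rw [hK]; exact hk
    exact Subgroup.mem_centralizer_iff.mp (hle (hgen hkK)) x (Set.mem_singleton x)
  obtain ⟨a, haA', ha1, hak⟩ := hex
  have hB'S : (B ⊔ zpowers a) ∈ S := by
    rw [hS]
    refine ⟨sup_le hBA (Subgroup.zpowers_le.mpr (hA'A haA')), ?_⟩
    intro hall
    apply hak
    intro k' hk'
    obtain ⟨hk'K, hk'a⟩ := Subgroup.mem_inf.mp hk'
    rw [hK] at hk'K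
    obtain ⟨hk'Q, hk'B⟩ := Subgroup.mem_inf.mp hk'K
    apply hall k'
    refine Subgroup.mem_inf.mpr ⟨hk'Q, ?_⟩
    rw [centralizer_sup9]
    refine Subgroup.mem_inf.mpr ⟨hk'B, ?_⟩
    rw [Subgroup.zpowers_eq_closure, centralizer_closure9]
    exact hk'a
  have hlt : B < B ⊔ zpowers a := by
    refine lt_of_le_of_ne le_sup_left ?_
    intro heq
    have haB : a ∈ B := by rw [heq]; exact Subgroup.mem_sup_right (Subgroup.mem_zpowers a)
    exact ha1 (f2 a haA' haB)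
  have h1 := hBmax ⟨B ⊔ zpowers a, hB'S⟩
  exact absurd (card_lt_of_lt hlt) (not_lt.mpr h1)

theorem hyperplane_step_for9 [Finite G] {p : ℕ} [Fact p.Prime] {V Q A : Subgroup G}
    (hVp : IsPGroup p ↥V) (hQV : Q ≤ normalizer (V : Set G)) (hQp : (Nat.card Q).Coprime p)
    (hQf : Q ⊓ centralizer (V : Set G) = ⊥)
    (hAc : ∀ a ∈ A, ∀ b ∈ A, a * b = b * a) (hAp : ∀ a ∈ A, a ^ p = 1)
    (hAV : A ≤ normalizer (V : Set G)) (hAQ : A ≤ normalizer (Q : Set G))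
    {x : G} (hxA : x ∈ A) (hxQ : ¬ ∀ k ∈ Q, x * k = k * x) :
    ∃ A₀ : Subgroup G, A₀ ≤ A ∧ x ∉ A₀ ∧ A = A₀ ⊔ zpowers x ∧
      p * Nat.card ↥(V ⊓ centralizer (A : Set G)) ≤ Nat.card ↥(V ⊓ centralizer (A₀ : Set G)) ∧
      Nat.card A ≤ p * Nat.card A₀ := by
  obtain ⟨A₀, hA₀A, hxA₀, hAeq, hxk⟩ := exists_hyperplane_for9 hQp hAc hAp hAQ hxA hxQ
  refine ⟨A₀, hA₀A, hxA₀, hAeq, ?_, ?_⟩
  · have hA₀p : IsPGroup p ↥A₀ := isPGroup_of_exp9 (fun a ha => hAp a (hA₀A ha))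
    have hxW : ¬ ∀ w ∈ V ⊓ centralizer (A₀ : Set G), x * w = w * x := by
      intro hall
      exact hxk (cent_fix_imp_cent9 hVp hQV hQp hQf hA₀p (hA₀A.trans hAV) (hAV hxA) (hAQ hxA)
        (fun b hb => hAc x hxA b (hA₀A hb)) hall)
    have hle : V ⊓ centralizer (A : Set G) ≤ V ⊓ centralizer (A₀ : Set G) :=
      inf_le_inf_left _ (Subgroup.centralizer_le (SetLike.coe_subset_coe.mpr hA₀A))
    have hlt2 : V ⊓ centralizer (A : Set G) < V ⊓ centralizer (A₀ : Set G) := by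
      refine lt_of_le_of_ne hle ?_
      intro heq
      apply hxW
      intro w hw
      rw [← heq] at hw
      exact Subgroup.mem_centralizer_iff.mp (Subgroup.mem_inf.mp hw).2 x hxA
    exact pgroup_card_step9 (hVp.to_le inf_le_left) hlt2
  · have h1 := card_sup_zpowers_le9 (A₀ := A₀) (hAp x hxA) (fun a ha => hAc a (hA₀A ha) x hxA)
    rw [← hAeq] at h1
    exact h1

/-- If `|A| |C_V(A)| = |V|`, the same holds for a hyperplane complementing a prescribed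
nonidentity element. -/
theorem hyperplane_full9 [Finite G] {p : ℕ} [Fact p.Prime] {V Q A : Subgroup G}
    (hVp : IsPGroup p ↥V) (hQV : Q ≤ normalizer (V : Set G)) (hQp : (Nat.card Q).Coprime p)
    (hQf : Q ⊓ centralizer (V : Set G) = ⊥)
    (hAc : ∀ a ∈ A, ∀ b ∈ A, a * b = b * a) (hAp : ∀ a ∈ A, a ^ p = 1)
    (hAV : A ≤ normalizer (V : Set G)) (hAQ : A ≤ normalizer (Q : Set G))
    (hAf : A ⊓ centralizer (Q : Set G) = ⊥)
    (hfull : Nat.card A * Nat.card ↥(V ⊓ centralizer (A : Set G)) = Nat.card V)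
    {x : G} (hxA : x ∈ A) (hx1 : x ≠ 1) :
    ∃ A₀ : Subgroup G, A₀ ≤ A ∧ x ∉ A₀ ∧ A = A₀ ⊔ zpowers x ∧
      Nat.card A₀ * Nat.card ↥(V ⊓ centralizer (A₀ : Set G)) = Nat.card V := by
  have hxQ : ¬ ∀ k ∈ Q, x * k = k * x := by
    intro hall
    apply hx1
    have h1 : x ∈ A ⊓ centralizer (Q : Set G) :=
      Subgroup.mem_inf.mpr ⟨hxA, Subgroup.mem_centralizer_iff.mpr fun k hk => (hall k hk).symm⟩
    rw [hAf, Subgroup.mem_bot] at h1
    exact h1
  obtain ⟨A₀, hA₀A, hxA₀, hAeq, hstep, hcard⟩ :=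
    hyperplane_step_for9 hVp hQV hQp hQf hAc hAp hAV hAQ hxA hxQ
  refine ⟨A₀, hA₀A, hxA₀, hAeq, ?_⟩
  have hA₀f : A₀ ⊓ centralizer (Q : Set G) = ⊥ := by
    rw [eq_bot_iff, ← hAf]; exact inf_le_inf_right _ hA₀A
  have hle := offender_bound9 hVp hQV hQp hQf (Nat.card A₀) A₀ rfl
    (fun a ha b hb => hAc a (hA₀A ha) b (hA₀A hb)) (fun a ha => hAp a (hA₀A ha))
    (hA₀A.trans hAV) (hA₀A.trans hAQ) hA₀f
  apply le_antisymm hle
  calc Nat.card V = Nat.card A * Nat.card ↥(V ⊓ centralizer (A : Set G)) := hfull.symm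
    _ ≤ (p * Nat.card A₀) * Nat.card ↥(V ⊓ centralizer (A : Set G)) :=
        Nat.mul_le_mul_right _ hcard
    _ = Nat.card A₀ * (p * Nat.card ↥(V ⊓ centralizer (A : Set G))) := by ring
    _ ≤ Nat.card A₀ * Nat.card ↥(V ⊓ centralizer (A₀ : Set G)) := Nat.mul_le_mul_left _ hstep

/-- `|[V, ⟨x⟩]| · |C_V(x)| = |V|` for an abelian `V` normalized by `x`. -/
theorem card_comm_zpowers9 [Finite G] {V : Subgroup G}
    (hVc : ∀ a ∈ V, ∀ b ∈ V, a * b = b * a) {x : G} (hxV : x ∈ normalizer (V : Set G)) :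
    Nat.card ↥⁅V, zpowers x⁆ * Nat.card ↥(V ⊓ centralizer ({x} : Set G)) = Nat.card V := by
  have hconj : ∀ v ∈ V, x * v * x⁻¹ ∈ V :=
    fun v hv => (Subgroup.mem_normalizer_iff.mp hxV v).mp hv
  have hφmem : ∀ v ∈ V, v * (x * v⁻¹ * x⁻¹) ∈ V :=
    fun v hv => V.mul_mem hv (hconj _ (V.inv_mem hv))
  obtain ⟨φ, hφ⟩ : ∃ φ : ↥V →* ↥V, ∀ v : ↥V,
      ((φ v : ↥V) : G) = (v : G) * (x * (v : G)⁻¹ * x⁻¹) := by
    refine ⟨MonoidHom.mk' (fun v => ⟨(v : G) * (x * (v : G)⁻¹ * x⁻¹), hφmem v v.2⟩) ?_,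
      fun v => rfl⟩
    intro v w
    apply Subtype.ext
    show ((v : G) * (w : G)) * (x * ((v : G) * (w : G))⁻¹ * x⁻¹) =
      ((v : G) * (x * (v : G)⁻¹ * x⁻¹)) * ((w : G) * (x * (w : G)⁻¹ * x⁻¹))
    have h1 := hVc ((w : G) * (x * (w : G)⁻¹ * x⁻¹)) (hφmem w w.2) (x * (v : G)⁻¹ * x⁻¹)
      (hconj _ (V.inv_mem v.2))
    calc ((v : G) * (w : G)) * (x * ((v : G) * (w : G))⁻¹ * x⁻¹)
        = (v : G) * (((w : G) * (x * (w : G)⁻¹ * x⁻¹)) * (x * (v : G)⁻¹ * x⁻¹)) := by group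
      _ = (v : G) * ((x * (v : G)⁻¹ * x⁻¹) * ((w : G) * (x * (w : G)⁻¹ * x⁻¹))) := by rw [h1]
      _ = ((v : G) * (x * (v : G)⁻¹ * x⁻¹)) * ((w : G) * (x * (w : G)⁻¹ * x⁻¹)) := by group
  have hker : (φ.ker).map V.subtype = V ⊓ centralizer ({x} : Set G) := by
    ext u
    constructor
    · rintro ⟨v, hv, rfl⟩
      have h1 : ((φ v : ↥V) : G) = 1 := by rw [MonoidHom.mem_ker.mp hv]; rfl
      rw [hφ] at h1
      refine Subgroup.mem_inf.mpr ⟨v.2, Subgroup.mem_centralizer_iff.mpr fun h hh => ?_⟩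
      rw [Set.mem_singleton_iff.mp hh]
      show x * (v : G) = (v : G) * x
      calc x * (v : G) = ((v : G) * (x * (v : G)⁻¹ * x⁻¹))⁻¹ * ((v : G) * x) := by group
        _ = (v : G) * x := by rw [h1, inv_one, one_mul]
    · intro hu
      obtain ⟨huV, hux⟩ := Subgroup.mem_inf.mp hu
      have hxu : x * u = u * x := Subgroup.mem_centralizer_iff.mp hux x (Set.mem_singleton x)
      refine ⟨⟨u, huV⟩, MonoidHom.mem_ker.mpr (Subtype.ext ?_), rfl⟩
      rw [hφ]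
      show u * (x * u⁻¹ * x⁻¹) = 1
      calc u * (x * u⁻¹ * x⁻¹) = u * x * u⁻¹ * x⁻¹ := by group
        _ = x * u * u⁻¹ * x⁻¹ := by rw [hxu]
        _ = 1 := by group
  have hcard1 : Nat.card ↥V = Nat.card ↥φ.range * Nat.card ↥φ.ker := by
    rw [Subgroup.card_eq_card_quotient_mul_card_subgroup φ.ker,
      Nat.card_congr (QuotientGroup.quotientKerEquivRange φ).toEquiv]
  have hcard2 : Nat.card ↥φ.ker = Nat.card ↥(V ⊓ centralizer ({x} : Set G)) := by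
    rw [← hker, Subgroup.card_map_of_injective V.subtype_injective]
  obtain ⟨I, hI⟩ : ∃ I : Subgroup G, I = φ.range.map V.subtype := ⟨_, rfl⟩
  have hImem : ∀ v ∈ V, v * (x * v⁻¹ * x⁻¹) ∈ I := by
    intro v hv
    rw [hI]
    exact ⟨φ ⟨v, hv⟩, ⟨⟨v, hv⟩, rfl⟩, hφ ⟨v, hv⟩⟩
  have hIelim : ∀ t ∈ I, ∃ v ∈ V, t = v * (x * v⁻¹ * x⁻¹) := by
    intro t ht
    rw [hI] at ht
    obtain ⟨_, ⟨v, rfl⟩, rfl⟩ := ht
    exact ⟨v, v.2, hφ v⟩
  have hIconj : ∀ t ∈ I, x * t * x⁻¹ ∈ I := by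
    intro t ht
    obtain ⟨v, hv, rfl⟩ := hIelim t ht
    have e : x * (v * (x * v⁻¹ * x⁻¹)) * x⁻¹ =
        (x * v * x⁻¹) * (x * (x * v * x⁻¹)⁻¹ * x⁻¹) := by group
    rw [e]
    exact hImem _ (hconj v hv)
  have hpow : ∀ (i : ℕ) (v : G), v ∈ V → v * x ^ i * v⁻¹ * (x ^ i)⁻¹ ∈ I := by
    intro i
    induction i with
    | zero =>
      intro v _
      have e : v * x ^ 0 * v⁻¹ * (x ^ 0)⁻¹ = 1 := by rw [pow_zero]; group
      rw [e]; exact I.one_mem
    | succ i ih =>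
      intro v hv
      have e : v * x ^ (i + 1) * v⁻¹ * (x ^ (i + 1))⁻¹ =
          (v * (x * v⁻¹ * x⁻¹)) * (x * (v * x ^ i * v⁻¹ * (x ^ i)⁻¹) * x⁻¹) := by
        rw [pow_succ']; group
      rw [e]
      exact I.mul_mem (hImem v hv) (hIconj _ (ih v hv))
  have hIeq : ⁅V, zpowers x⁆ = I := by
    apply le_antisymm
    · rw [Subgroup.commutator_le]
      intro v hv a ha
      obtain ⟨i, rfl⟩ := (Submonoid.mem_powers_iff a x).mp (mem_powers_iff_mem_zpowers.mpr ha)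
      rw [commutatorElement_def]
      exact hpow i v hv
    · intro t ht
      obtain ⟨v, hv, rfl⟩ := hIelim t ht
      have e : v * (x * v⁻¹ * x⁻¹) = ⁅v, x⁆ := by rw [commutatorElement_def]; group
      rw [e]
      exact Subgroup.commutator_mem_commutator hv (Subgroup.mem_zpowers x)
  rw [hIeq, hI, Subgroup.card_map_of_injective V.subtype_injective, hcard1, hcard2]

theorem offender_elem_ab9 {p : ℕ} {V H A : Subgroup G}
    (hf : H ⊓ centralizer (V : Set G) = ⊥) (hAH : A ≤ H)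
    (hab : ⁅A, A⁆ ≤ centralizer (V : Set G)) (hpow : ∀ a ∈ A, a ^ p ∈ centralizer (V : Set G)) :
    (∀ a ∈ A, ∀ b ∈ A, a * b = b * a) ∧ ∀ a ∈ A, a ^ p = 1 := by
  constructor
  · intro a ha b hb
    have h1 : ⁅a, b⁆ ∈ H ⊓ centralizer (V : Set G) := by
      refine Subgroup.mem_inf.mpr ⟨?_, hab (Subgroup.commutator_mem_commutator ha hb)⟩
      rw [commutatorElement_def]
      exact H.mul_mem (H.mul_mem (H.mul_mem (hAH ha) (hAH hb)) (H.inv_mem (hAH ha)))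
        (H.inv_mem (hAH hb))
    rw [hf, Subgroup.mem_bot] at h1
    exact commutatorElement_eq_one_iff_mul_comm.mp h1
  · intro a ha
    have h1 : a ^ p ∈ H ⊓ centralizer (V : Set G) :=
      Subgroup.mem_inf.mpr ⟨H.pow_mem (hAH ha) p, hpow a ha⟩
    rw [hf, Subgroup.mem_bot] at h1
    exact h1

theorem min_offender9 [Finite G] {p : ℕ} [Fact p.Prime] (V H : Subgroup G)
    (hV : Cfsg.IsElementaryAbelian p V) (hHV : H ≤ normalizer (V : Set G))
    (hf : H ⊓ centralizer (V : Set G) = ⊥)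
    (hS1 : centralizer (Cfsg.pPrimeCore p ↥H : Set ↥H) ≤ Cfsg.pPrimeCore p ↥H)
    (A : Subgroup G) (hAH : A ≤ H) (hA : Cfsg.IsBestOffenderOn p V A) (hAV : ⁅V, A⁆ ≠ ⊥)
    (hmin : ∀ B : Subgroup G, B ≤ A → Cfsg.IsBestOffenderOn p V B → ⁅V, B⁆ ≠ ⊥ → B = A) :
    Nat.card A = p ∧ Nat.card ↥(⁅V, A⁆) = p ∧
      (V ⊓ centralizer (A : Set G)).relIndex V = p := by
  have hfull := ff_best_offender_card9 V H hV hHV hf hS1 A hAH hA
  obtain ⟨hstar, hab, hpow⟩ := hA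
  obtain ⟨hAc, hAp⟩ := offender_elem_ab9 hf hAH hab hpow
  have hVp : IsPGroup p ↥V := isPGroup_of_exp9 hV.2
  have hVc : ∀ x ∈ V, ∀ y ∈ V, x * y = y * x := by
    intro x hx y hy
    have h := hV.1.is_comm.comm ⟨x, hx⟩ ⟨y, hy⟩
    exact congrArg Subtype.val h
  obtain ⟨Q, hQH, hQp, hHQ, hQf, hQA⟩ := pprime_core_setup9 V H hHV hf hS1
  have hA1 : A ≠ ⊥ := by
    intro h
    rw [h] at hAV
    exact hAV (Subgroup.commutator_bot_right V)
  obtain ⟨⟨x, hxA⟩, hx1'⟩ := Subgroup.ne_bot_iff_exists_ne_one.mp hA1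
  have hx1 : x ≠ 1 := fun h => hx1' (Subtype.ext h)
  obtain ⟨A₀, hA₀A, hxA₀, hAeq, hfull₀⟩ := hyperplane_full9 hVp (hQH.trans hHV) hQp hQf hAc hAp
    (hAH.trans hHV) (hAH.trans hHQ) (hQA A hAH hAp) hfull hxA hx1
  have hA₀bo : Cfsg.IsBestOffenderOn p V A₀ :=
    ⟨fun B hB => by rw [hfull₀, ← hfull]; exact hstar B (hB.trans hA₀A),
      (Subgroup.commutator_mono hA₀A hA₀A).trans hab, fun a ha => hpow a (hA₀A ha)⟩
  have hA₀bot : A₀ = ⊥ := by
    by_contra hne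
    have hVA₀ : ⁅V, A₀⁆ ≠ ⊥ := by
      intro h0
      apply hne
      have h1 : V ≤ centralizer (A₀ : Set G) :=
        Subgroup.commutator_eq_bot_iff_le_centralizer.mp h0
      rw [eq_bot_iff, ← hf]
      intro a ha
      refine Subgroup.mem_inf.mpr ⟨hAH (hA₀A ha), Subgroup.mem_centralizer_iff.mpr fun v hv => ?_⟩
      exact (Subgroup.mem_centralizer_iff.mp (h1 hv) a ha).symm
    have h2 := hmin A₀ hA₀A hA₀bo hVA₀
    exact hxA₀ (by rw [h2]; exact hxA)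
  have hAz : A = zpowers x := by rw [hAeq, hA₀bot, bot_sup_eq]
  have hcardA : Nat.card A = p := by
    rw [hAz, Nat.card_zpowers]; exact orderOf_eq_prime (hAp x hxA) hx1
  have hpos : 0 < Nat.card ↥(V ⊓ centralizer (A : Set G)) := Nat.card_pos
  have hrel : Nat.card ↥(V ⊓ centralizer (A : Set G)) *
      (V ⊓ centralizer (A : Set G)).relIndex V = Nat.card V := by
    have h0 := Subgroup.relIndex_mul_relIndex (⊥ : Subgroup G)
      (V ⊓ centralizer (A : Set G)) V bot_le inf_le_left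
    rwa [Subgroup.relIndex_bot_left, Subgroup.relIndex_bot_left] at h0
  have h3 : (V ⊓ centralizer (A : Set G)).relIndex V = p := by
    have e : Nat.card ↥(V ⊓ centralizer (A : Set G)) *
        (V ⊓ centralizer (A : Set G)).relIndex V =
        Nat.card ↥(V ⊓ centralizer (A : Set G)) * p := by
      rw [hrel, ← hfull, hcardA, mul_comm]
    exact Nat.eq_of_mul_eq_mul_left hpos e
  have hcz : centralizer (A : Set G) = centralizer ({x} : Set G) := by
    have e2 : centralizer ((zpowers x : Subgroup G) : Set G) = centralizer ({x} : Set G) := by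
      rw [Subgroup.zpowers_eq_closure, centralizer_closure9]
    rw [← hAz] at e2
    exact e2
  have hcomm := card_comm_zpowers9 hVc (hHV (hAH hxA))
  rw [← hAz, ← hcz] at hcomm
  have h2 : Nat.card ↥⁅V, A⁆ = p := by
    have e : Nat.card ↥⁅V, A⁆ * Nat.card ↥(V ⊓ centralizer (A : Set G)) =
        p * Nat.card ↥(V ⊓ centralizer (A : Set G)) := by
      rw [hcomm, ← hfull, hcardA]
    exact Nat.eq_of_mul_eq_mul_right hpos e
  exact ⟨hcardA, h2, h3⟩

end Cfsg.Agent.Helper9
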