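import Mathlib
import Cfsg.Prelude.Def_PLocal
import Cfsg.Agent.Helper9.Offender3

set_option autoImplicit false

namespace Cfsg.Agent.Helper9

open Subgroup
open scoped commutatorElement

universe u

variable {G : Type u} [Group G]

theorem card_sup_le_of_commute9 [Finite G] {X Y : Subgroup G}
    (hc : ∀ a ∈ X, ∀ b ∈ Y, a * b = b * a) :
    Nat.card ↥(X ⊔ Y) ≤ Nat.card X * Nat.card Y := by
  have hsurj : Function.Surjective (fun q : ↥X × ↥Y =>
      (⟨(q.1 : G) * (q.2 : G), Subgroup.mul_mem _ (Subgroup.mem_sup_left q.1.2)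
        (Subgroup.mem_sup_right q.2.2)⟩ : ↥(X ⊔ Y))) := by
    rintro ⟨y, hy⟩
    obtain ⟨a, ha, b, hb, rfl⟩ := mem_sup_of_commute hc hy
    exact ⟨(⟨a, ha⟩, ⟨b, hb⟩), rfl⟩
  have h1 := Nat.card_le_card_of_surjective _ hsurj
  rw [Nat.card_prod] at h1
  exact h1

theorem card_biSup_le9 [Finite G] {p : ℕ} {A : Subgroup G}
    (hAc : ∀ a ∈ A, ∀ b ∈ A, a * b = b * a) {ι : Type*} (L : ι → Subgroup G)
    (hL : ∀ i, L i ≤ A) (hLc : ∀ i, Nat.card (L i) ≤ p) (s : Finset ι) :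
    Nat.card ↥(⨆ j ∈ s, L j) ≤ p ^ s.card := by
  classical
  induction s using Finset.induction_on with
  | empty =>
    have e : (⨆ j ∈ (∅ : Finset ι), L j) = ⊥ := by simp
    rw [e, Subgroup.card_bot, Finset.card_empty, pow_zero]
  | insert a s ha ih =>
    rw [Finset.iSup_insert, Finset.card_insert_of_notMem ha, pow_succ]
    have hle : (⨆ j ∈ s, L j) ≤ A := iSup₂_le (fun j _ => hL j)
    have h1 := card_sup_le_of_commute9 (X := L a) (Y := ⨆ j ∈ s, L j)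
      (fun x hx y hy => hAc x (hL a hx) y (hle hy))
    calc Nat.card ↥(L a ⊔ ⨆ j ∈ s, L j) ≤ Nat.card (L a) * Nat.card ↥(⨆ j ∈ s, L j) := h1
      _ ≤ p * p ^ s.card := Nat.mul_le_mul (hLc a) ih
      _ = p ^ s.card * p := Nat.mul_comm _ _

theorem indep_of_card9 [Finite G] {p : ℕ} [Fact p.Prime] {A : Subgroup G}
    (hAc : ∀ a ∈ A, ∀ b ∈ A, a * b = b * a) {k : ℕ} (L : Fin k → Subgroup G)
    (hL : ∀ i, L i ≤ A) (hLc : ∀ i, Nat.card (L i) = p) (hsup : ⨆ i, L i = A)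
    (hcard : Nat.card A = p ^ k) : iSupIndep L := by
  have hp : p.Prime := Fact.out
  rw [iSupIndep_def]
  intro i
  rw [disjoint_iff]
  by_contra hne
  obtain ⟨T, hT⟩ : ∃ T : Subgroup G, T = ⨆ (j) (_ : j ≠ i), L j := ⟨_, rfl⟩
  rw [← hT] at hne
  have hdvd : Nat.card ↥(L i ⊓ T) ∣ p := by
    rw [← hLc i]; exact Subgroup.card_dvd_of_le inf_le_left
  have hne1 : Nat.card ↥(L i ⊓ T) ≠ 1 := fun h => hne (Subgroup.eq_bot_of_card_eq _ h)
  have hcp : Nat.card ↥(L i ⊓ T) = p := by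
    rcases (Nat.dvd_prime hp).mp hdvd with h | h
    · exact absurd h hne1
    · exact h
  have heq : L i ⊓ T = L i := by
    apply Subgroup.eq_of_le_of_card_ge inf_le_left
    rw [hcp, hLc i]
  have hLT : L i ≤ T := inf_eq_left.mp heq
  have hAT : A = T := by
    rw [← hsup, iSup_split_single L i, ← hT]
    exact sup_eq_right.mpr hLT
  have hTle : T ≤ ⨆ j ∈ Finset.univ.erase i, L j := by
    rw [hT]
    refine iSup₂_le (fun j hj => ?_)
    exact le_iSup₂_of_le j (Finset.mem_erase.mpr ⟨hj, Finset.mem_univ j⟩) le_rfl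
  have h1 := card_biSup_le9 (p := p) hAc L hL (fun j => (hLc j).le) (Finset.univ.erase i)
  rw [Finset.card_erase_of_mem (Finset.mem_univ i), Finset.card_univ, Fintype.card_fin] at h1
  have h2 : Nat.card T ≤ p ^ (k - 1) := (Subgroup.card_le_of_le hTle).trans h1
  rw [← hAT, hcard] at h2
  have hk : 0 < k := i.pos
  have h3 : p ^ (k - 1) < p ^ k := Nat.pow_lt_pow_right hp.one_lt (Nat.sub_lt hk Nat.one_pos)
  exact absurd h2 (not_le.mpr h3)

/-- A "full" elementary abelian group (`|B| |C_V(B)| = |V|`) is generated by full subgroups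
of order `p`, as many as its rank. -/
theorem atoms_decomp9 [Finite G] {p : ℕ} [Fact p.Prime] {V Q A : Subgroup G}
    (hVp : IsPGroup p ↥V) (hQV : Q ≤ normalizer (V : Set G)) (hQp : (Nat.card Q).Coprime p)
    (hQf : Q ⊓ centralizer (V : Set G) = ⊥)
    (hAc : ∀ a ∈ A, ∀ b ∈ A, a * b = b * a) (hAp : ∀ a ∈ A, a ^ p = 1)
    (hAV : A ≤ normalizer (V : Set G)) (hAQ : A ≤ normalizer (Q : Set G))
    (hAf : A ⊓ centralizer (Q : Set G) = ⊥) :
    ∀ (n : ℕ) (B : Subgroup G), Nat.card B = n → B ≤ A →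
      Nat.card B * Nat.card ↥(V ⊓ centralizer (B : Set G)) = Nat.card V →
      ∃ (k : ℕ) (L : Fin k → Subgroup G),
        (∀ i, L i ≤ B ∧ Nat.card (L i) = p ∧
          Nat.card (L i) * Nat.card ↥(V ⊓ centralizer (L i : Set G)) = Nat.card V) ∧
        ⨆ i, L i = B ∧ Nat.card B = p ^ k := by
  intro n
  induction n using Nat.strong_induction_on with
  | _ n ih =>
  intro B hn hBA hfull
  have hp : p.Prime := Fact.out
  have hBc : ∀ a ∈ B, ∀ b ∈ B, a * b = b * a := fun a ha b hb => hAc a (hBA ha) b (hBA hb)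
  have hBp : ∀ a ∈ B, a ^ p = 1 := fun a ha => hAp a (hBA ha)
  have hBf : B ⊓ centralizer (Q : Set G) = ⊥ := by
    rw [eq_bot_iff, ← hAf]; exact inf_le_inf_right _ hBA
  by_cases hB1 : B = ⊥
  · refine ⟨0, fun i => i.elim0, fun i => i.elim0, ?_, ?_⟩
    · rw [iSup_of_empty, hB1]
    · rw [hB1, Subgroup.card_bot, pow_zero]
  obtain ⟨⟨d, hdB⟩, hd1'⟩ := Subgroup.ne_bot_iff_exists_ne_one.mp hB1
  have hd1 : d ≠ 1 := fun h => hd1' (Subtype.ext h)
  obtain ⟨B₀, hB₀B, hdB₀, hBeq, hfull₀⟩ := hyperplane_full9 hVp hQV hQp hQf hBc hBp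
    (hBA.trans hAV) (hBA.trans hAQ) hBf hfull hdB hd1
  have hlt : B₀ < B := lt_of_le_of_ne hB₀B (fun h => hdB₀ (by rw [h]; exact hdB))
  have hcardlt : Nat.card B₀ < n := by rw [← hn]; exact card_lt_of_lt hlt
  obtain ⟨k₀, L₀, hL₀, hsup₀, hcard₀⟩ :=
    ih (Nat.card B₀) hcardlt B₀ rfl (hB₀B.trans hBA) hfull₀
  have hBpg : IsPGroup p ↥B := isPGroup_of_exp9 hBp
  have hatom : ∃ L : Subgroup G, L ≤ B ∧ ¬ L ≤ B₀ ∧ Nat.card L = p ∧
      Nat.card L * Nat.card ↥(V ⊓ centralizer (L : Set G)) = Nat.card V := by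
    by_cases hB₀1 : B₀ = ⊥
    · have hBz : B = zpowers d := by rw [hBeq, hB₀1, bot_sup_eq]
      have hcB : Nat.card B = p := by
        rw [hBz, Nat.card_zpowers]; exact orderOf_eq_prime (hBp d hdB) hd1
      refine ⟨B, le_rfl, ?_, hcB, hfull⟩
      intro hle
      exact hdB₀ (hle hdB)
    · obtain ⟨⟨d', hd'B₀⟩, hd'1'⟩ := Subgroup.ne_bot_iff_exists_ne_one.mp hB₀1
      have hd'1 : d' ≠ 1 := fun h => hd'1' (Subtype.ext h)
      obtain ⟨B₁, hB₁B, hd'B₁, hBeq₁, hfull₁⟩ := hyperplane_full9 hVp hQV hQp hQf hBc hBp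
        (hBA.trans hAV) (hBA.trans hAQ) hBf hfull (hB₀B hd'B₀) hd'1
      have hlt₁ : B₁ < B :=
        lt_of_le_of_ne hB₁B (fun h => hd'B₁ (by rw [h]; exact hB₀B hd'B₀))
      have hcardlt₁ : Nat.card B₁ < n := by rw [← hn]; exact card_lt_of_lt hlt₁
      obtain ⟨k₁, L₁, hL₁, hsup₁, -⟩ :=
        ih (Nat.card B₁) hcardlt₁ B₁ rfl (hB₁B.trans hBA) hfull₁
      by_contra hno
      have hall : ∀ j, L₁ j ≤ B₀ := by
        intro j
        by_contra hj
        exact hno ⟨L₁ j, (hL₁ j).1.trans hB₁B, hj, (hL₁ j).2.1, (hL₁ j).2.2⟩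
      have hB₁B₀ : B₁ ≤ B₀ := by rw [← hsup₁]; exact iSup_le hall
      have hBB₀ : B ≤ B₀ := by
        rw [hBeq₁]
        exact sup_le hB₁B₀ (Subgroup.zpowers_le.mpr hd'B₀)
      exact hdB₀ (hBB₀ hdB)
  obtain ⟨L, hLB, hLB₀, hLc, hLfull⟩ := hatom
  have hlt2 : B₀ < B₀ ⊔ L := by
    refine lt_of_le_of_ne le_sup_left ?_
    intro h
    apply hLB₀
    rw [h]
    exact le_sup_right
  have hsupB : B₀ ⊔ L ≤ B := sup_le hB₀B hLB
  have hcB₀ : Nat.card B ≤ p * Nat.card B₀ := by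
    have h1 := card_sup_zpowers_le9 (A₀ := B₀) (hBp d hdB) (fun a ha => hBc a (hB₀B ha) d hdB)
    rw [← hBeq] at h1
    exact h1
  have hstep : p * Nat.card B₀ ≤ Nat.card ↥(B₀ ⊔ L) :=
    pgroup_card_step9 (hBpg.to_le hsupB) hlt2
  have hBL : B₀ ⊔ L = B :=
    Subgroup.eq_of_le_of_card_ge hsupB (hcB₀.trans hstep)
  have e : p ^ (k₀ + 1) = p * Nat.card B₀ := by rw [hcard₀, pow_succ, mul_comm]
  have hcardB : Nat.card B = p ^ (k₀ + 1) := by
    rw [e]
    apply le_antisymm hcB₀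
    have h2 := hstep
    rw [hBL] at h2
    exact h2
  obtain ⟨L', hL'c, hL'l⟩ : ∃ L' : Fin (k₀ + 1) → Subgroup G,
      (∀ j : Fin k₀, L' (Fin.castSucc j) = L₀ j) ∧ L' (Fin.last k₀) = L :=
    ⟨Fin.snoc (α := fun _ => Subgroup G) L₀ L,
      fun j => Fin.snoc_castSucc (α := fun _ => Subgroup G) L L₀ j,
      Fin.snoc_last (α := fun _ => Subgroup G) L L₀⟩
  refine ⟨k₀ + 1, L', ?_, ?_, hcardB⟩
  · intro i
    induction i using Fin.lastCases with
    | last => rw [hL'l]; exact ⟨hLB, hLc, hLfull⟩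
    | cast j => rw [hL'c j]; exact ⟨(hL₀ j).1.trans hB₀B, (hL₀ j).2.1, (hL₀ j).2.2⟩
  · apply le_antisymm
    · refine iSup_le (fun i => ?_)
      induction i using Fin.lastCases with
      | last => rw [hL'l]; exact hLB
      | cast j => rw [hL'c j]; exact (hL₀ j).1.trans hB₀B
    · rw [← hBL]
      refine sup_le ?_ ?_
      · rw [← hsup₀]
        refine iSup_le (fun j => ?_)
        rw [← hL'c j]
        exact le_iSup L' (Fin.castSucc j)
      · rw [← hL'l]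
        exact le_iSup L' (Fin.last k₀)

/-- Every best offender in a faithful group with `C_H(O_{p'}(H)) ≤ O_{p'}(H)` is the direct
product of minimal nontrivially acting best offenders. -/
theorem offender_decomp9 [Finite G] {p : ℕ} [Fact p.Prime] (V H : Subgroup G)
    (hV : Cfsg.IsElementaryAbelian p V) (hHV : H ≤ normalizer (V : Set G))
    (hf : H ⊓ centralizer (V : Set G) = ⊥)
    (hS1 : centralizer (Cfsg.pPrimeCore p ↥H : Set ↥H) ≤ Cfsg.pPrimeCore p ↥H)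
    (A : Subgroup G) (hAH : A ≤ H) (hA : Cfsg.IsBestOffenderOn p V A) :
    ∃ (k : ℕ) (B : Fin k → Subgroup G),
      (∀ i, B i ≤ A ∧ Cfsg.IsBestOffenderOn p V (B i) ∧ ⁅V, B i⁆ ≠ ⊥ ∧
        ∀ C : Subgroup G, C ≤ B i → Cfsg.IsBestOffenderOn p V C → ⁅V, C⁆ ≠ ⊥ → C = B i) ∧
      iSupIndep B ∧ ⨆ i, B i = A := by
  have hp : p.Prime := Fact.out
  have hfull := ff_best_offender_card9 V H hV hHV hf hS1 A hAH hA
  obtain ⟨hstar, hab, hpow⟩ := hA
  obtain ⟨hAc, hAp⟩ := offender_elem_ab9 hf hAH hab hpow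
  have hVp : IsPGroup p ↥V := isPGroup_of_exp9 hV.2
  obtain ⟨Q, hQH, hQp, hHQ, hQf, hQA⟩ := pprime_core_setup9 V H hHV hf hS1
  obtain ⟨k, L, hL, hsup, hcard⟩ := atoms_decomp9 hVp (hQH.trans hHV) hQp hQf hAc hAp
    (hAH.trans hHV) (hAH.trans hHQ) (hQA A hAH hAp) (Nat.card A) A rfl le_rfl hfull
  refine ⟨k, L, ?_, ?_, hsup⟩
  · intro i
    obtain ⟨hLA, hLc, hLfull⟩ := hL i
    have hLbo : Cfsg.IsBestOffenderOn p V (L i) :=
      ⟨fun X hX => by rw [hLfull, ← hfull]; exact hstar X (hX.trans hLA),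
        (Subgroup.commutator_mono hLA hLA).trans hab, fun a ha => hpow a (hLA ha)⟩
    have hL1 : L i ≠ ⊥ := by
      intro h
      rw [h, Subgroup.card_bot] at hLc
      exact hp.one_lt.ne hLc
    have hVL : ⁅V, L i⁆ ≠ ⊥ := by
      intro h0
      apply hL1
      have h1 : V ≤ centralizer (L i : Set G) :=
        Subgroup.commutator_eq_bot_iff_le_centralizer.mp h0
      rw [eq_bot_iff, ← hf]
      intro a ha
      refine Subgroup.mem_inf.mpr ⟨hAH (hLA ha), Subgroup.mem_centralizer_iff.mpr fun v hv => ?_⟩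
      exact (Subgroup.mem_centralizer_iff.mp (h1 hv) a ha).symm
    refine ⟨hLA, hLbo, hVL, ?_⟩
    intro C hCL _ hVC
    have hC1 : C ≠ ⊥ := by
      intro h
      rw [h] at hVC
      exact hVC (Subgroup.commutator_bot_right V)
    have hdvd : Nat.card C ∣ p := by rw [← hLc]; exact Subgroup.card_dvd_of_le hCL
    have hCc : Nat.card C = p := by
      rcases (Nat.dvd_prime hp).mp hdvd with h | h
      · exact absurd (Subgroup.eq_bot_of_card_eq _ h) hC1
      · exact h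
    apply Subgroup.eq_of_le_of_card_ge hCL
    rw [hCc, hLc]
  · exact indep_of_card9 hAc L (fun i => (hL i).1) (fun i => (hL i).2.1) hsup hcard

end Cfsg.Agent.Helper9
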