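import Mathlib

set_option autoImplicit false

namespace Cfsg.Agent.Helper9

open scoped commutatorElement

universe u v

/-- Coprime action on an abelian `p`-group: if every fixed point of the `p`-group `A` is
fixed by the `p'`-group `K` (normalized by `A`), then `K` acts trivially. -/
theorem abelian_fixed9 {M : Type u} [CommGroup M] [Finite M] {Y : Type v} [Group Y] [Finite Y]
    {p : ℕ} [Fact p.Prime] (hM : IsPGroup p M) (φ : Y →* MulAut M) (A K : Subgroup Y)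
    (hA : IsPGroup p ↥A) (hK : (Nat.card K).Coprime p)
    (hAK : A ≤ Subgroup.normalizer (K : Set Y))
    (hfix : ∀ m : M, (∀ a ∈ A, φ a m = m) → ∀ k ∈ K, φ k m = m) :
    ∀ k ∈ K, ∀ m : M, φ k m = m := by
  classical
  haveI : Fintype ↥K := Fintype.ofFinite _
  obtain ⟨T, hT⟩ : ∃ T : M →* M, ∀ m, T m = ∏ k : ↥K, φ (k : Y) m :=
    ⟨MonoidHom.mk' (fun m => ∏ k : ↥K, φ (k : Y) m) (fun x y => by
      simp only [map_mul]
      exact Finset.prod_mul_distrib), fun m => rfl⟩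
  have hTfix : ∀ k' ∈ K, ∀ m, φ k' (T m) = T m := by
    intro k' hk' m
    have e : ∏ k : ↥K, φ (((⟨k', hk'⟩ : ↥K) * k : ↥K) : Y) m = ∏ k : ↥K, φ (k : Y) m :=
      Equiv.prod_comp (Equiv.mulLeft (⟨k', hk'⟩ : ↥K)) (fun k : ↥K => φ (k : Y) m)
    rw [hT, map_prod, ← e]
    refine Finset.prod_congr rfl (fun k _ => ?_)
    rw [Subgroup.coe_mul, map_mul]
    rfl
  have hTA : ∀ a ∈ A, ∀ m, φ a (T m) = T (φ a m) := by
    intro a ha m
    have hn := hAK ha
    have hn' : a⁻¹ ∈ Subgroup.normalizer (K : Set Y) := inv_mem hn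
    let σ : ↥K ≃ ↥K :=
      { toFun := fun k => ⟨a * k * a⁻¹, (Subgroup.mem_normalizer_iff.mp hn k).mp k.2⟩
        invFun := fun k => ⟨a⁻¹ * k * a, by
          have h := (Subgroup.mem_normalizer_iff.mp hn' k).mp k.2
          rwa [inv_inv] at h⟩
        left_inv := fun k => Subtype.ext (by
          show a⁻¹ * (a * (k : Y) * a⁻¹) * a = k
          group)
        right_inv := fun k => Subtype.ext (by
          show a * (a⁻¹ * (k : Y) * a) * a⁻¹ = k
          group) }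
    have e : ∏ k : ↥K, φ ((σ k : ↥K) : Y) (φ a m) = ∏ k : ↥K, φ (k : Y) (φ a m) :=
      Equiv.prod_comp σ (fun k : ↥K => φ (k : Y) (φ a m))
    rw [hT, hT, map_prod, ← e]
    refine Finset.prod_congr rfl (fun k _ => ?_)
    show φ a (φ (k : Y) m) = φ (a * (k : Y) * a⁻¹) (φ a m)
    have h1 : φ a (φ (k : Y) m) = φ (a * (k : Y)) m := by
      rw [map_mul φ a (k : Y)]; rfl
    have h2 : φ (a * (k : Y) * a⁻¹) (φ a m) = φ (a * (k : Y) * a⁻¹ * a) m := by
      rw [map_mul φ (a * (k : Y) * a⁻¹) a]; rfl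
    rw [h1, h2, inv_mul_cancel_right]
  have hTpow : ∀ f : M, (∀ k ∈ K, φ k f = f) → T f = f ^ Nat.card K := by
    intro f hf
    rw [hT, Finset.prod_congr rfl (fun (k : ↥K) _ => hf (k : Y) k.2), Finset.prod_const,
      Finset.card_univ, Nat.card_eq_fintype_card]
  have hcop : ∀ m : M, m ^ Nat.card K = 1 → m = 1 := by
    intro m hm
    obtain ⟨j, hj⟩ := hM m
    have h1 : orderOf m ∣ Nat.card K := orderOf_dvd_of_pow_eq_one hm
    have h2 : orderOf m ∣ p ^ j := orderOf_dvd_of_pow_eq_one hj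
    have h3 : orderOf m = 1 := Nat.eq_one_of_dvd_coprimes (Nat.Coprime.pow_right j hK) h1 h2
    exact orderOf_eq_one_iff.mp h3
  have hker : T.ker = ⊥ := by
    by_contra hne
    have hNp : IsPGroup p ↥T.ker := hM.to_subgroup T.ker
    haveI : Nontrivial ↥T.ker := (Subgroup.nontrivial_iff_ne_bot _).mpr hne
    obtain ⟨j, hj0, hj⟩ := (IsPGroup.nontrivial_iff_card hNp).mp inferInstance
    have hpN : p ∣ Nat.card ↥T.ker := by rw [hj]; exact dvd_pow_self p hj0.ne'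
    have hinv : ∀ a ∈ A, ∀ n ∈ T.ker, φ a n ∈ T.ker := by
      intro a ha n hn
      rw [MonoidHom.mem_ker] at hn ⊢
      rw [← hTA a ha, hn, map_one]
    letI : MulAction ↥A ↥T.ker :=
      { smul := fun a n => ⟨φ (a : Y) (n : M), hinv a.1 a.2 n.1 n.2⟩
        one_smul := fun n => Subtype.ext (by
          show φ ((1 : ↥A) : Y) (n : M) = n
          rw [Subgroup.coe_one, map_one]; rfl)
        mul_smul := fun a b n => Subtype.ext (by
          show φ ((a * b : ↥A) : Y) (n : M) = φ (a : Y) (φ (b : Y) (n : M))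
          rw [Subgroup.coe_mul, map_mul]; rfl) }
    have h1 : (1 : ↥T.ker) ∈ MulAction.fixedPoints ↥A ↥T.ker := by
      rw [MulAction.mem_fixedPoints]
      intro a
      exact Subtype.ext (by
        show φ (a : Y) ((1 : ↥T.ker) : M) = ((1 : ↥T.ker) : M)
        rw [Subgroup.coe_one, map_one])
    obtain ⟨b, hb, hb1⟩ := hA.exists_fixed_point_of_prime_dvd_card_of_fixed_point ↥T.ker hpN h1
    rw [MulAction.mem_fixedPoints] at hb
    have hbfix : ∀ a ∈ A, φ a (b : M) = b := by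
      intro a ha
      exact congrArg Subtype.val (hb ⟨a, ha⟩)
    have hbK := hfix (b : M) hbfix
    have hTb : T (b : M) = (b : M) ^ Nat.card K := hTpow _ hbK
    have hb0 : T (b : M) = 1 := MonoidHom.mem_ker.mp b.2
    rw [hb0] at hTb
    exact hb1 (Subtype.ext (hcop _ hTb.symm).symm)
  intro k hk m
  have hu : m ^ Nat.card K * (T m)⁻¹ ∈ T.ker := by
    rw [MonoidHom.mem_ker, map_mul, map_inv, map_pow,
      hTpow (T m) (fun k' hk' => hTfix k' hk' m), mul_inv_cancel]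
  rw [hker, Subgroup.mem_bot] at hu
  have hm : m ^ Nat.card K = T m := mul_inv_eq_one.mp hu
  have h2 : φ k (m ^ Nat.card K) = m ^ Nat.card K := by rw [hm]; exact hTfix k hk m
  have h3 : (φ k m * m⁻¹) ^ Nat.card K = 1 := by
    rw [mul_pow, inv_pow, ← map_pow, h2, mul_inv_cancel]
  exact mul_inv_eq_one.mp (hcop _ h3)

section BaerSec

variable {W : Type u} [Group W]

theorem comm_central9 (hcl : ∀ x y z : W, ⁅⁅x, y⁆, z⁆ = 1) (x y g : W) :
    ⁅x, y⁆ * g = g * ⁅x, y⁆ :=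
  commutatorElement_eq_one_iff_mul_comm.mp (hcl x y g)

theorem comm_pow_central9 (hcl : ∀ x y z : W, ⁅⁅x, y⁆, z⁆ = 1) (h : ℕ) (x y g : W) :
    ⁅x, y⁆ ^ h * g = g * ⁅x, y⁆ ^ h :=
  ((show Commute ⁅x, y⁆ g from comm_central9 hcl x y g).pow_left h).eq

theorem comm_mul_left9 (hcl : ∀ x y z : W, ⁅⁅x, y⁆, z⁆ = 1) (x y z : W) :
    ⁅x * y, z⁆ = ⁅x, z⁆ * ⁅y, z⁆ := by
  have e : ⁅x * y, z⁆ = x * ⁅y, z⁆ * x⁻¹ * ⁅x, z⁆ := by
    simp only [commutatorElement_def]; group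
  rw [e, ← comm_central9 hcl y z x, mul_inv_cancel_right, comm_central9 hcl y z ⁅x, z⁆]

theorem comm_mul_right9 (hcl : ∀ x y z : W, ⁅⁅x, y⁆, z⁆ = 1) (x y z : W) :
    ⁅z, x * y⁆ = ⁅z, x⁆ * ⁅z, y⁆ := by
  rw [← commutatorElement_inv (x * y) z, comm_mul_left9 hcl, mul_inv_rev, commutatorElement_inv,
    commutatorElement_inv, comm_central9 hcl z y ⁅z, x⁆]

theorem comm_central_left9 (c x : W) (hc : ∀ g : W, c * g = g * c) : ⁅c, x⁆ = 1 :=
  commutatorElement_eq_one_iff_mul_comm.mpr (hc x)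

theorem comm_central_right9 (c x : W) (hc : ∀ g : W, c * g = g * c) : ⁅x, c⁆ = 1 :=
  commutatorElement_eq_one_iff_mul_comm.mpr (hc x).symm

theorem baer_assoc9 (hcl : ∀ x y z : W, ⁅⁅x, y⁆, z⁆ = 1) (h : ℕ) (x y z : W) :
    x * y * ⁅y, x⁆ ^ h * z * ⁅z, x * y * ⁅y, x⁆ ^ h⁆ ^ h =
      x * (y * z * ⁅z, y⁆ ^ h) * ⁅y * z * ⁅z, y⁆ ^ h, x⁆ ^ h := by
  have hc1 : ∀ g : W, ⁅y, x⁆ ^ h * g = g * ⁅y, x⁆ ^ h := comm_pow_central9 hcl h y x
  have hc2 : ∀ g : W, ⁅z, y⁆ ^ h * g = g * ⁅z, y⁆ ^ h := comm_pow_central9 hcl h z y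
  have e1 : ⁅z, x * y * ⁅y, x⁆ ^ h⁆ = ⁅z, x⁆ * ⁅z, y⁆ := by
    rw [comm_mul_right9 hcl, comm_mul_right9 hcl, comm_central_right9 _ z hc1, mul_one]
  have e2 : ⁅y * z * ⁅z, y⁆ ^ h, x⁆ = ⁅y, x⁆ * ⁅z, x⁆ := by
    rw [comm_mul_left9 hcl, comm_mul_left9 hcl, comm_central_left9 _ x hc2, mul_one]
  have e3 : (⁅z, x⁆ * ⁅z, y⁆) ^ h = ⁅z, x⁆ ^ h * ⁅z, y⁆ ^ h :=
    (show Commute ⁅z, x⁆ ⁅z, y⁆ from comm_central9 hcl z x _).mul_pow h
  have e4 : (⁅y, x⁆ * ⁅z, x⁆) ^ h = ⁅y, x⁆ ^ h * ⁅z, x⁆ ^ h :=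
    (show Commute ⁅y, x⁆ ⁅z, x⁆ from comm_central9 hcl y x _).mul_pow h
  rw [e1, e2, e3, e4]
  obtain ⟨a, ha⟩ : ∃ a : W, a = ⁅y, x⁆ ^ h := ⟨_, rfl⟩
  obtain ⟨b, hb⟩ : ∃ b : W, b = ⁅z, x⁆ ^ h := ⟨_, rfl⟩
  obtain ⟨c, hc⟩ : ∃ c : W, c = ⁅z, y⁆ ^ h := ⟨_, rfl⟩
  rw [← ha, ← hb, ← hc]
  rw [← ha] at hc1
  rw [← hc] at hc2
  have f1 : a * z = z * a := hc1 z
  have f2 : c * (a * b) = (a * b) * c := hc2 (a * b)
  calc x * y * a * z * (b * c) = x * y * (a * z) * (b * c) := by group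
    _ = x * y * (z * a) * (b * c) := by rw [f1]
    _ = x * (y * z) * ((a * b) * c) := by group
    _ = x * (y * z) * (c * (a * b)) := by rw [f2]
    _ = x * (y * z * c) * (a * b) := by group

theorem baer_comm9 (hcl : ∀ x y z : W, ⁅⁅x, y⁆, z⁆ = 1) (h : ℕ)
    (hh : ∀ x y : W, ⁅x, y⁆ ^ (2 * h) = ⁅x, y⁆) (x y : W) :
    x * y * ⁅y, x⁆ ^ h = y * x * ⁅x, y⁆ ^ h := by
  obtain ⟨c, hc⟩ : ∃ c : W, c = ⁅x, y⁆ := ⟨_, rfl⟩
  have hcc : ∀ g : W, c * g = g * c := by rw [hc]; exact comm_central9 hcl x y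
  have hc2 : c ^ h * c ^ h = c := by rw [← pow_add, ← two_mul, hc]; exact hh x y
  have e0 : x * y = c * (y * x) := by rw [hc, commutatorElement_def]; group
  have e1 : ⁅y, x⁆ = c⁻¹ := by rw [hc, commutatorElement_inv]
  rw [e1, ← hc, e0, inv_pow, hcc (y * x), mul_assoc (y * x) c]
  congr 1
  exact mul_inv_eq_iff_eq_mul.mpr hc2.symm

theorem baer_one_mul9 (h : ℕ) (x : W) : 1 * x * ⁅x, (1 : W)⁆ ^ h = x := by
  rw [commutatorElement_one_right, one_pow, mul_one, one_mul]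

theorem baer_mul_one9 (h : ℕ) (x : W) : x * 1 * ⁅(1 : W), x⁆ ^ h = x := by
  rw [commutatorElement_one_left, one_pow, mul_one, mul_one]

theorem baer_inv_mul9 (h : ℕ) (x : W) : x⁻¹ * x * ⁅x, x⁻¹⁆ ^ h = 1 := by
  have e : ⁅x, x⁻¹⁆ = 1 := by rw [commutatorElement_def]; group
  rw [e, one_pow, mul_one, inv_mul_cancel]

/-- A copy of `W` that carries Baer's commutative group structure. -/
structure BaerCopy9 (W : Type u) where
  val : W

theorem BaerCopy9.ext9 {a b : BaerCopy9 W} (h : a.val = b.val) : a = b := by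
  cases a; cases b; exact congrArg BaerCopy9.mk h

/-- Baer's commutative group structure `x ⊕ y = x y [y, x]^h` on a class-two group in which
`h` halves commutators. -/
def baerGroup9 (h : ℕ) (hcl : ∀ x y z : W, ⁅⁅x, y⁆, z⁆ = 1)
    (hh : ∀ x y : W, ⁅x, y⁆ ^ (2 * h) = ⁅x, y⁆) : CommGroup (BaerCopy9 W) where
  mul a b := ⟨a.val * b.val * ⁅b.val, a.val⁆ ^ h⟩
  one := ⟨1⟩
  inv a := ⟨a.val⁻¹⟩
  mul_assoc a b c := congrArg BaerCopy9.mk (baer_assoc9 hcl h a.val b.val c.val)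
  one_mul a := congrArg BaerCopy9.mk (baer_one_mul9 h a.val)
  mul_one a := congrArg BaerCopy9.mk (baer_mul_one9 h a.val)
  inv_mul_cancel a := congrArg BaerCopy9.mk (baer_inv_mul9 h a.val)
  mul_comm a b := congrArg BaerCopy9.mk (baer_comm9 hcl h hh a.val b.val)

end BaerSec

/-- Baer's trick: the fixed point lemma `abelian_fixed9` for a `p`-group of class at most
two, `p` odd. -/
theorem baer_fixed9 {W : Type u} [Group W] [Finite W] {Y : Type v} [Group Y] [Finite Y]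
    {p : ℕ} [Fact p.Prime] (hp2 : p ≠ 2) (hW : IsPGroup p W)
    (hcl : ∀ x y z : W, ⁅⁅x, y⁆, z⁆ = 1)
    (φ : Y →* MulAut W) (A K : Subgroup Y) (hA : IsPGroup p ↥A) (hK : (Nat.card K).Coprime p)
    (hAK : A ≤ Subgroup.normalizer (K : Set Y))
    (hfix : ∀ w : W, (∀ a ∈ A, φ a w = w) → ∀ k ∈ K, φ k w = w) :
    ∀ k ∈ K, ∀ w : W, φ k w = w := by
  have hp : p.Prime := Fact.out
  obtain ⟨n, hn⟩ := IsPGroup.iff_card.mp hW
  have hodd : Odd (p ^ n) := (hp.eq_two_or_odd'.resolve_left hp2).pow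
  obtain ⟨t, ht⟩ := hodd
  have hh : ∀ x y : W, ⁅x, y⁆ ^ (2 * (t + 1)) = ⁅x, y⁆ := by
    intro x y
    have e : 2 * (t + 1) = Nat.card W + 1 := by rw [hn, ht]; ring
    rw [e, pow_succ, pow_card_eq_one', one_mul]
  letI : CommGroup (BaerCopy9 W) := baerGroup9 (t + 1) hcl hh
  let eqv : BaerCopy9 W ≃ W :=
    { toFun := fun m => m.val, invFun := fun w => ⟨w⟩, left_inv := fun _ => rfl,
      right_inv := fun _ => rfl }
  haveI : Finite (BaerCopy9 W) := Finite.of_equiv W eqv.symm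
  have hMp : IsPGroup p (BaerCopy9 W) := by
    apply IsPGroup.of_card (n := n)
    rw [Nat.card_congr eqv, hn]
  obtain ⟨ψ, hψ⟩ : ∃ ψ : Y →* MulAut (BaerCopy9 W), ∀ (y : Y) (m : BaerCopy9 W),
      (ψ y m).val = φ y m.val := by
    refine ⟨{ toFun := fun y =>
                { toFun := fun m => ⟨φ y m.val⟩
                  invFun := fun m => ⟨(φ y).symm m.val⟩
                  left_inv := fun m => congrArg BaerCopy9.mk ((φ y).symm_apply_apply m.val)
                  right_inv := fun m => congrArg BaerCopy9.mk ((φ y).apply_symm_apply m.val)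
                  map_mul' := fun a b => congrArg BaerCopy9.mk (by
                    show φ y (a.val * b.val * ⁅b.val, a.val⁆ ^ (t + 1)) =
                      φ y a.val * φ y b.val * ⁅φ y b.val, φ y a.val⁆ ^ (t + 1)
                    rw [map_mul, map_mul, map_pow, map_commutatorElement]) }
              map_one' := ?_
              map_mul' := ?_ }, fun y m => rfl⟩
    · apply MulEquiv.ext
      intro m
      show BaerCopy9.mk (φ 1 m.val) = m
      rw [map_one]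
      rfl
    · intro y y'
      apply MulEquiv.ext
      intro m
      show BaerCopy9.mk (φ (y * y') m.val) = BaerCopy9.mk (φ y (φ y' m.val))
      rw [map_mul]
      rfl
  have key := abelian_fixed9 hMp ψ A K hA hK hAK (by
    intro m hm k hk
    have h1 : ∀ a ∈ A, φ a m.val = m.val := by
      intro a ha
      have h0 := congrArg BaerCopy9.val (hm a ha)
      rwa [hψ] at h0
    have h2 := hfix m.val h1 k hk
    apply BaerCopy9.ext9
    rw [hψ]
    exact h2)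
  intro k hk w
  have h0 := congrArg BaerCopy9.val (key k hk ⟨w⟩)
  rwa [hψ] at h0

end Cfsg.Agent.Helper9
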