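import Mathlib
import Cfsg.Agent.Helper9.Ito

set_option autoImplicit false

namespace Cfsg.Agent.Helper9

section MinClass9

variable {G : Type*} [Group G]

/-- size of the orbit of `y` under conjugation by the subgroup `H` -/
theorem orbit_card9 [Finite G] (H : Subgroup G) (y : G) :
    Set.ncard {z : G | ∃ h ∈ H, z = h * y * h⁻¹} =
      (Subgroup.centralizer ({y} : Set G)).relIndex H := by
  obtain ⟨f, hf⟩ : ∃ f : ↥H ⧸ (Subgroup.centralizer ({y} : Set G)).subgroupOf H → G,
      ∀ q, f q = ((q.out : ↥H) : G) * y * ((q.out : ↥H) : G)⁻¹ :=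
    ⟨fun q => ((q.out : ↥H) : G) * y * ((q.out : ↥H) : G)⁻¹, fun _ => rfl⟩
  have hinj : Function.Injective f := by
    intro q q' h
    rw [hf, hf] at h
    have hmem : (q'.out)⁻¹ * q.out ∈ (Subgroup.centralizer ({y} : Set G)).subgroupOf H := by
      rw [Subgroup.mem_subgroupOf, Subgroup.mem_centralizer_singleton_iff]
      show ((q'.out : ↥H) : G)⁻¹ * ((q.out : ↥H) : G) * y = y * (((q'.out : ↥H) : G)⁻¹ * ((q.out : ↥H) : G))
      calc ((q'.out : ↥H) : G)⁻¹ * ((q.out : ↥H) : G) * y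
          = ((q'.out : ↥H) : G)⁻¹ * (((q.out : ↥H) : G) * y * ((q.out : ↥H) : G)⁻¹) *
              ((q.out : ↥H) : G) := by group
        _ = ((q'.out : ↥H) : G)⁻¹ * (((q'.out : ↥H) : G) * y * ((q'.out : ↥H) : G)⁻¹) *
              ((q.out : ↥H) : G) := by rw [h]
        _ = y * (((q'.out : ↥H) : G)⁻¹ * ((q.out : ↥H) : G)) := by group
    calc q = QuotientGroup.mk q.out := (QuotientGroup.out_eq' q).symm
      _ = QuotientGroup.mk q'.out := (QuotientGroup.eq.mpr hmem).symm
      _ = q' := QuotientGroup.out_eq' q'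
  have hrange : Set.range f = {z : G | ∃ h ∈ H, z = h * y * h⁻¹} := by
    ext z
    constructor
    · rintro ⟨q, rfl⟩
      exact ⟨((q.out : ↥H) : G), (q.out : ↥H).2, hf q⟩
    · rintro ⟨h, hh, rfl⟩
      obtain ⟨s, hs⟩ := QuotientGroup.mk_out_eq_mul
        ((Subgroup.centralizer ({y} : Set G)).subgroupOf H) (⟨h, hh⟩ : ↥H)
      refine ⟨QuotientGroup.mk (⟨h, hh⟩ : ↥H), ?_⟩
      rw [hf, hs]
      have hsy : ((s : ↥H) : G) * y = y * ((s : ↥H) : G) :=
        Subgroup.mem_centralizer_singleton_iff.mp (Subgroup.mem_subgroupOf.mp s.2)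
      show h * ((s : ↥H) : G) * y * (h * ((s : ↥H) : G))⁻¹ = h * y * h⁻¹
      calc h * ((s : ↥H) : G) * y * (h * ((s : ↥H) : G))⁻¹
          = h * (((s : ↥H) : G) * y) * ((s : ↥H) : G)⁻¹ * h⁻¹ := by group
        _ = h * (y * ((s : ↥H) : G)) * ((s : ↥H) : G)⁻¹ * h⁻¹ := by rw [hsy]
        _ = h * y * h⁻¹ := by group
  rw [← hrange, ← Set.image_univ, Set.ncard_image_of_injective _ hinj, Set.ncard_univ]
  rfl

/-- Isaacs' key lemma: if `K` is an abelian normal subgroup and `x` lies in a class of minimal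
non-central size (or is central), then `[x, K]` is central. -/
theorem minclass_key9 [Finite G] (K : Subgroup G) [hKn : K.Normal]
    (hK : ∀ a ∈ K, ∀ b ∈ K, a * b = b * a) (m : ℕ)
    (hmin : ∀ y : G, 1 < (Subgroup.centralizer ({y} : Set G)).index →
      m ≤ (Subgroup.centralizer ({y} : Set G)).index)
    (x : G) (hx : (Subgroup.centralizer ({x} : Set G)).index = 1 ∨
      (Subgroup.centralizer ({x} : Set G)).index = m)
    (k : G) (hk : k ∈ K) : x * k * x⁻¹ * k⁻¹ ∈ Subgroup.center G := by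
  rcases hx with hx1 | hxm
  · have hxc : x ∈ Subgroup.center G := (ito_idx_one9 x).mp hx1
    have h1 : k * x = x * k := Subgroup.mem_center_iff.mp hxc k
    have h2 : x * k * x⁻¹ * k⁻¹ = 1 := by
      rw [← h1]; group
    rw [h2]; exact Subgroup.one_mem _
  · by_contra huZ
    obtain ⟨u, hu⟩ : ∃ u : G, u = x * k * x⁻¹ * k⁻¹ := ⟨_, rfl⟩
    rw [← hu] at huZ
    obtain ⟨x', hx'⟩ : ∃ x' : G, x' = k * x * k⁻¹ := ⟨_, rfl⟩
    have hux : u = x * x'⁻¹ := by rw [hu, hx']; group
    have huK : u ∈ K := by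
      rw [hu]
      exact Subgroup.mul_mem _ (hKn.conj_mem k hk x) (Subgroup.inv_mem _ hk)
    have hu_idx : 1 < (Subgroup.centralizer ({u} : Set G)).index := by
      have h0 : (Subgroup.centralizer ({u} : Set G)).index ≠ 0 := Subgroup.index_ne_zero_of_finite
      have h1 : (Subgroup.centralizer ({u} : Set G)).index ≠ 1 := fun h =>
        huZ ((ito_idx_one9 u).mp h)
      omega
    have hm_le := hmin u hu_idx
    have hx'ne : x' ≠ x := by
      intro h
      apply huZ
      rw [hux, h, mul_inv_cancel]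
      exact Subgroup.one_mem _
    -- E ≤ C(u), K ≤ C(u)
    have hEU : Subgroup.centralizer ({x} : Set G) ⊓ Subgroup.centralizer ({x'} : Set G) ≤
        Subgroup.centralizer ({u} : Set G) := by
      intro t ht
      obtain ⟨h1, h2⟩ := Subgroup.mem_inf.mp ht
      rw [Subgroup.mem_centralizer_singleton_iff] at h1 h2 ⊢
      have c1 : Commute t x := h1
      have c2 : Commute t x' := h2
      rw [hux]
      exact (c1.mul_right c2.inv_right).eq
    have hKU : K ≤ Subgroup.centralizer ({u} : Set G) := by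
      intro t ht
      rw [Subgroup.mem_centralizer_singleton_iff]
      exact hK t ht u huK
    have hsupU : K ⊔ (Subgroup.centralizer ({x} : Set G) ⊓ Subgroup.centralizer ({x'} : Set G)) ≤
        Subgroup.centralizer ({u} : Set G) := sup_le hKU hEU
    -- K ⊓ D ≤ D'
    have hKD : ∀ t : G, t ∈ K → t ∈ Subgroup.centralizer ({x} : Set G) →
        t ∈ Subgroup.centralizer ({x'} : Set G) := by
      intro t htK htD
      rw [Subgroup.mem_centralizer_singleton_iff] at htD ⊢
      have htk : t * k = k * t := hK t htK k hk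
      have c1 : Commute t x := htD
      have c2 : Commute t k := htk
      rw [hx']
      exact ((c2.mul_right c1).mul_right c2.inv_right).eq
    -- orbit counting
    have hX := orbit_card9 K x
    have hY := orbit_card9 (Subgroup.centralizer ({x} : Set G)) x'
    have hYX : {z : G | ∃ h ∈ Subgroup.centralizer ({x} : Set G), z = h * x' * h⁻¹} ⊆
        {z : G | ∃ h ∈ K, z = h * x * h⁻¹} \ {x} := by
      rintro z ⟨h, hh, rfl⟩
      have hhx : h * x = x * h := Subgroup.mem_centralizer_singleton_iff.mp hh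
      refine ⟨⟨h * k * h⁻¹, hKn.conj_mem k hk h, ?_⟩, ?_⟩
      · rw [hx']
        calc h * (k * x * k⁻¹) * h⁻¹ = h * k * (x * h⁻¹) * h * k⁻¹ * h⁻¹ := by group
          _ = h * k * (h⁻¹ * x) * h * k⁻¹ * h⁻¹ := by
              have : x * h⁻¹ = h⁻¹ * x := ((show Commute h x from hhx).inv_left).eq.symm
              rw [this]
          _ = h * k * h⁻¹ * x * (h * k * h⁻¹)⁻¹ := by group
      · intro hz
        have hz' : h * x' * h⁻¹ = x := hz
        apply hx'ne
        have e1 : x' = h⁻¹ * (h * x' * h⁻¹) * h := by group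
        rw [e1, hz']
        have : h⁻¹ * x * h = h⁻¹ * (x * h) := by group
        rw [this, ← hhx, inv_mul_cancel_left]
    have hxX : x ∈ {z : G | ∃ h ∈ K, z = h * x * h⁻¹} := ⟨1, Subgroup.one_mem _, by simp⟩
    have hcard1 := Set.ncard_le_ncard hYX (Set.toFinite _)
    rw [Set.ncard_diff_singleton_of_mem hxX, hX, hY] at hcard1
    have hXpos : 0 < (Subgroup.centralizer ({x} : Set G)).relIndex K := by
      rw [← hX]
      exact (Set.ncard_pos (Set.toFinite _)).mpr ⟨x, hxX⟩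
    -- index bookkeeping
    obtain ⟨E, hE⟩ : ∃ E : Subgroup G, E = Subgroup.centralizer ({x} : Set G) ⊓
        Subgroup.centralizer ({x'} : Set G) := ⟨_, rfl⟩
    rw [← hE] at hsupU
    have h1 : K.relIndex (K ⊔ E) * (K ⊔ E).index = K.index :=
      Subgroup.relIndex_mul_index le_sup_left
    have h2 : K.relIndex (K ⊔ E) = K.relIndex E := Subgroup.relIndex_sup_left E K
    have h3 : (E ⊓ K).relIndex E * E.index = (E ⊓ K).index :=
      Subgroup.relIndex_mul_index inf_le_left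
    have h4 : (E ⊓ K).relIndex E = K.relIndex E := Subgroup.inf_relIndex_left E K
    have h5 : (E ⊓ K).relIndex K * K.index = (E ⊓ K).index :=
      Subgroup.relIndex_mul_index inf_le_right
    have h6 : (E ⊓ K).relIndex K = E.relIndex K := Subgroup.inf_relIndex_right E K
    have h7 : E.relIndex (Subgroup.centralizer ({x} : Set G)) *
        (Subgroup.centralizer ({x} : Set G)).index = E.index :=
      Subgroup.relIndex_mul_index (by rw [hE]; exact inf_le_left)
    have h8 : E.relIndex (Subgroup.centralizer ({x} : Set G)) =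
        (Subgroup.centralizer ({x'} : Set G)).relIndex (Subgroup.centralizer ({x} : Set G)) := by
      rw [hE]; exact Subgroup.inf_relIndex_left _ _
    have h9 : E.relIndex K = (Subgroup.centralizer ({x} : Set G)).relIndex K := by
      rw [← Subgroup.inf_relIndex_right E K,
        ← Subgroup.inf_relIndex_right (Subgroup.centralizer ({x} : Set G)) K]
      congr 1
      apply le_antisymm
      · rw [hE]
        exact inf_le_inf_right K inf_le_left
      · intro t ht
        obtain ⟨htD, htK⟩ := Subgroup.mem_inf.mp ht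
        rw [hE]
        exact Subgroup.mem_inf.mpr ⟨Subgroup.mem_inf.mpr ⟨htD, hKD t htK htD⟩, htK⟩
    have h10 : (K ⊔ E).relIndex (Subgroup.centralizer ({u} : Set G)) *
        (Subgroup.centralizer ({u} : Set G)).index = (K ⊔ E).index :=
      Subgroup.relIndex_mul_index hsupU
    have ha0 : K.relIndex E ≠ 0 := by
      show (K.subgroupOf E).index ≠ 0
      exact Subgroup.index_ne_zero_of_finite
    have hr0 : (K ⊔ E).relIndex (Subgroup.centralizer ({u} : Set G)) ≠ 0 := by
      show ((K ⊔ E).subgroupOf (Subgroup.centralizer ({u} : Set G))).index ≠ 0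
      exact Subgroup.index_ne_zero_of_finite
    have hm0 : 0 < m := by
      rw [← hxm]; exact Nat.pos_of_ne_zero Subgroup.index_ne_zero_of_finite
    -- numeric conclusion
    obtain ⟨a, haa⟩ : ∃ a : ℕ, a = K.relIndex E := ⟨_, rfl⟩
    obtain ⟨s, hss⟩ : ∃ s : ℕ, s = (K ⊔ E).index := ⟨_, rfl⟩
    obtain ⟨e, hee⟩ : ∃ e : ℕ, e = E.index := ⟨_, rfl⟩
    obtain ⟨b, hbb⟩ : ∃ b : ℕ, b = (Subgroup.centralizer ({x} : Set G)).relIndex K := ⟨_, rfl⟩
    obtain ⟨d, hdd⟩ : ∃ d : ℕ, d = (Subgroup.centralizer ({x'} : Set G)).relIndex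
        (Subgroup.centralizer ({x} : Set G)) := ⟨_, rfl⟩
    obtain ⟨κ, hκκ⟩ : ∃ κ : ℕ, κ = K.index := ⟨_, rfl⟩
    obtain ⟨r, hrr⟩ : ∃ r : ℕ, r = (K ⊔ E).relIndex (Subgroup.centralizer ({u} : Set G)) :=
      ⟨_, rfl⟩
    obtain ⟨ui, hui⟩ : ∃ ui : ℕ, ui = (Subgroup.centralizer ({u} : Set G)).index := ⟨_, rfl⟩
    rw [h2, ← haa, ← hss, ← hκκ] at h1
    rw [h4, ← haa, ← hee] at h3
    rw [h6, h9, ← hbb, ← hκκ] at h5
    rw [h8, ← hdd, hxm, ← hee] at h7
    rw [← hrr, ← hui, ← hss] at h10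
    rw [← hbb, ← hdd] at hcard1
    rw [← hbb] at hXpos
    rw [← hui] at hm_le
    rw [← haa] at ha0
    rw [← hrr] at hr0
    -- a*s = κ, a*e = (E⊓K).index = b*κ, d*m = e, r*ui = s, d ≤ b-1, b>0, m ≤ ui
    have hes : e = b * s := by
      have h11 : a * e = a * (b * s) := by
        rw [h3, ← h5, ← h1]; ring
      exact Nat.eq_of_mul_eq_mul_left (Nat.pos_of_ne_zero ha0) h11
    have hui_le : ui ≤ s := by
      rw [← h10]
      exact Nat.le_mul_of_pos_left _ (Nat.pos_of_ne_zero hr0)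
    have hdb : d < b := by omega
    have hlt : d * m < b * m := Nat.mul_lt_mul_of_pos_right hdb hm0
    have hle : b * m ≤ b * s := Nat.mul_le_mul_left b (hm_le.trans hui_le)
    rw [h7, hes] at hlt
    exact absurd hle (not_le.mpr hlt)

theorem minclass_main9 [Finite G] (A : Subgroup G) [hAn : A.Normal]
    (hA : ∀ a ∈ A, ∀ b ∈ A, a * b = b * a)
    (hCA : Subgroup.centralizer (A : Set G) ≤ A) (m : ℕ)
    (hmin : ∀ x : G, 1 < (Subgroup.centralizer ({x} : Set G)).index →
      m ≤ (Subgroup.centralizer ({x} : Set G)).index)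
    (M : Subgroup G)
    (hM : M = Subgroup.closure {x : G | (Subgroup.centralizer ({x} : Set G)).index = 1 ∨
      (Subgroup.centralizer ({x} : Set G)).index = m}) :
    ∀ g ∈ M, ∀ h ∈ M, ∀ k ∈ M,
      (g * h * g⁻¹ * h⁻¹) * k * (g * h * g⁻¹ * h⁻¹)⁻¹ * k⁻¹ ∈ Subgroup.center G := by
  have hP : ∀ g ∈ M, ∀ a ∈ A, g * a * g⁻¹ * a⁻¹ ∈ Subgroup.center G := by
    intro g hg
    rw [hM] at hg
    refine Subgroup.closure_induction
      (p := fun g _ => ∀ a ∈ A, g * a * g⁻¹ * a⁻¹ ∈ Subgroup.center G) ?_ ?_ ?_ ?_ hg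
    · intro x hx a ha
      exact minclass_key9 A hA m hmin x hx a ha
    · intro a _
      have e : (1 : G) * a * (1 : G)⁻¹ * a⁻¹ = 1 := by group
      rw [e]; exact Subgroup.one_mem _
    · intro x y _ _ hPx hPy a ha
      have hw := hPy a ha
      have hv := hPx a ha
      have e : x * y * a * (x * y)⁻¹ * a⁻¹ =
          x * (y * a * y⁻¹ * a⁻¹) * x⁻¹ * (x * a * x⁻¹ * a⁻¹) := by group
      have e2 : x * (y * a * y⁻¹ * a⁻¹) * x⁻¹ = y * a * y⁻¹ * a⁻¹ := by
        rw [Subgroup.mem_center_iff.mp hw x, mul_inv_cancel_right]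
      rw [e, e2]
      exact Subgroup.mul_mem _ hw hv
    · intro x _ hPx a ha
      have hb : x⁻¹ * a * x ∈ A := by
        have := hAn.conj_mem a ha x⁻¹
        simpa using this
      have hw := hPx _ hb
      have e : x⁻¹ * a * x⁻¹⁻¹ * a⁻¹ = (x * (x⁻¹ * a * x) * x⁻¹ * (x⁻¹ * a * x)⁻¹)⁻¹ := by group
      rw [e]
      exact Subgroup.inv_mem _ hw
  have hcomm : ∀ g ∈ M, ∀ h ∈ M, g * h * g⁻¹ * h⁻¹ ∈ A := by
    intro g hg h hh
    have hswap : ∀ a' ∈ A, g * h * a' * h⁻¹ * g⁻¹ = h * g * a' * g⁻¹ * h⁻¹ := by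
      intro a' ha'
      have hwh := hP h hh a' ha'
      have hwg := hP g hg a' ha'
      obtain ⟨wh, hwhdef⟩ : ∃ wh : G, wh = h * a' * h⁻¹ * a'⁻¹ := ⟨_, rfl⟩
      obtain ⟨wg, hwgdef⟩ : ∃ wg : G, wg = g * a' * g⁻¹ * a'⁻¹ := ⟨_, rfl⟩
      rw [← hwhdef] at hwh
      rw [← hwgdef] at hwg
      have e1 : h * a' * h⁻¹ = wh * a' := by rw [hwhdef]; group
      have e2 : g * a' * g⁻¹ = wg * a' := by rw [hwgdef]; group
      have c1 : g * wh = wh * g := Subgroup.mem_center_iff.mp hwh g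
      have c2 : h * wg = wg * h := Subgroup.mem_center_iff.mp hwg h
      have c3 : wg * wh = wh * wg := Subgroup.mem_center_iff.mp hwh wg
      have l1 : g * h * a' * h⁻¹ * g⁻¹ = wh * wg * a' := by
        calc g * h * a' * h⁻¹ * g⁻¹ = g * (h * a' * h⁻¹) * g⁻¹ := by group
          _ = g * (wh * a') * g⁻¹ := by rw [e1]
          _ = (g * wh) * a' * g⁻¹ := by group
          _ = (wh * g) * a' * g⁻¹ := by rw [c1]
          _ = wh * (g * a' * g⁻¹) := by group
          _ = wh * (wg * a') := by rw [e2]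
          _ = wh * wg * a' := by group
      have l2 : h * g * a' * g⁻¹ * h⁻¹ = wg * wh * a' := by
        calc h * g * a' * g⁻¹ * h⁻¹ = h * (g * a' * g⁻¹) * h⁻¹ := by group
          _ = h * (wg * a') * h⁻¹ := by rw [e2]
          _ = (h * wg) * a' * h⁻¹ := by group
          _ = (wg * h) * a' * h⁻¹ := by rw [c2]
          _ = wg * (h * a' * h⁻¹) := by group
          _ = wg * (wh * a') := by rw [e1]
          _ = wg * wh * a' := by group
      rw [l1, l2, c3]
    apply hCA
    rw [Subgroup.mem_centralizer_iff]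
    intro a ha
    have ha' : (h * g)⁻¹ * a * (h * g) ∈ A := by
      have := hAn.conj_mem a ha (h * g)⁻¹
      simpa using this
    have e3 : (g * h * g⁻¹ * h⁻¹) * a * (g * h * g⁻¹ * h⁻¹)⁻¹ = a := by
      have e4 : (g * h * g⁻¹ * h⁻¹) * a * (g * h * g⁻¹ * h⁻¹)⁻¹ =
          g * h * ((h * g)⁻¹ * a * (h * g)) * h⁻¹ * g⁻¹ := by group
      have e5 : h * g * ((h * g)⁻¹ * a * (h * g)) * g⁻¹ * h⁻¹ = a := by group
      rw [e4, hswap _ ha', e5]
    exact (mul_inv_eq_iff_eq_mul.mp e3).symm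
  intro g hg h hh k hk
  have hc := hcomm g hg h hh
  have hw := hP k hk _ hc
  have e : (g * h * g⁻¹ * h⁻¹) * k * (g * h * g⁻¹ * h⁻¹)⁻¹ * k⁻¹ =
      (k * (g * h * g⁻¹ * h⁻¹) * k⁻¹ * (g * h * g⁻¹ * h⁻¹)⁻¹)⁻¹ := by group
  rw [e]
  exact Subgroup.inv_mem _ hw

end MinClass9

end Cfsg.Agent.Helper9
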