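import Cfsg.Agent.Helper9.PLocal
import Cfsg.Agent.Helper9.Balance

set_option autoImplicit false
open Subgroup

namespace Cfsg.Agent.Helper9

/-- variant of `le_centralizer_of_comm_pgroups` for subgroups `M` centralizing `P` -/
theorem le_centralizer_of_comm_pgroups' {G : Type*} [Group G] [Finite G] (p : ℕ) [Fact p.Prime]
    (Q P M K : Subgroup G) (hQ : IsPGroup p ↥Q) (hP : IsPGroup p ↥P)
    (hMQ : M ≤ normalizer (Q : Set G)) (hPQ : P ≤ normalizer (Q : Set G))
    (hMP : M ≤ centralizer (P : Set G))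
    (hQM : Q ⊓ centralizer (P : Set G) ≤ M) (hKM : K ≤ M)
    (hK : ∀ A : Subgroup G, IsPGroup p ↥A → A ≤ M → M ≤ normalizer (A : Set G) →
      ∀ k ∈ K, ∀ x ∈ A, k * x = x * k)
    (hK2 : ⁅K, K⁆ = K ∨ (Nat.card ↥K).Coprime p) : K ≤ centralizer (Q : Set G) := by
  have hKP : ∀ k ∈ K, ∀ b ∈ P, k * b = b * k := by
    intro k hk b hb
    exact (Subgroup.mem_centralizer_iff.mp (hMP (hKM hk)) b hb).symm
  have hQMn : M ≤ normalizer ((Q ⊓ M : Subgroup G) : Set G) :=
    (le_inf hMQ Subgroup.le_normalizer).trans Subgroup.inf_normalizer_le_normalizer_inf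
  have hKQM : ∀ k ∈ K, ∀ x ∈ Q ⊓ M, k * x = x * k :=
    hK (Q ⊓ M) (hQ.to_le inf_le_left) inf_le_right hQMn
  have key : ∀ a ∈ K, (orderOf a).Coprime p → a ∈ centralizer (Q : Set G) := by
    intro a haK hac
    rw [Subgroup.mem_centralizer_iff]
    intro x hx
    exact (thompson_AxB_elt p a hac P Q hP hQ (hKP a haK) hPQ (hMQ (hKM haK))
      (fun y hy => hKQM a haK y ⟨hy.1, hQM hy⟩) x hx).symm
  rcases hK2 with hperf | hcop
  · exact perfect_le_centralizer_of_pPrime_elts p K Q hperf (hKM.trans hMQ) key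
  · intro a haK
    apply key a haK
    have h1 : orderOf (⟨a, haK⟩ : ↥K) ∣ Nat.card ↥K := orderOf_dvd_natCard _
    rw [Subgroup.orderOf_mk] at h1
    exact Nat.Coprime.coprime_dvd_left h1 hcop

/-- variant of `pPrimeCore_layer_eq_bot_of_AxB` for subgroups `M` centralizing `P` -/
theorem pPrimeCore_layer_eq_bot_of_AxB' {G : Type*} [Group G] [Finite G] (p : ℕ) [Fact p.Prime]
    (Q P M : Subgroup G) (hQ : IsPGroup p ↥Q) (hP : IsPGroup p ↥P)
    (hMQ : M ≤ normalizer (Q : Set G)) (hPQ : P ≤ normalizer (Q : Set G))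
    (hMP : M ≤ centralizer (P : Set G))
    (hQM : Q ⊓ centralizer (P : Set G) ≤ M) (hC : centralizer (Q : Set G) ⊓ M ≤ Q) :
    Cfsg.pPrimeCore p ↥M = ⊥ ∧ Cfsg.layer ↥M = ⊥ := by
  constructor
  · have h1 : (Cfsg.pPrimeCore p ↥M).map M.subtype ≤ centralizer (Q : Set G) :=
      le_centralizer_of_comm_pgroups' p Q P M _ hQ hP hMQ hPQ hMP hQM (Subgroup.map_subtype_le _)
        (comm_pgroups_of_comm_pCore p M _ (pPrimeCore_comm_pCore p))
        (Or.inr (ppcOf_coprime p M))
    have h2 : (Cfsg.pPrimeCore p ↥M).map M.subtype ≤ Q :=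
      (le_inf h1 (Subgroup.map_subtype_le _)).trans hC
    have h3 : (Cfsg.pPrimeCore p ↥M).map M.subtype ⊓ Q = ⊥ := by
      refine (Subgroup.disjoint_of_coprime_natCard ?_).eq_bot
      obtain ⟨k, hk⟩ := (IsPGroup.iff_card).mp hQ
      rw [hk]
      exact Nat.Coprime.pow_right k (ppcOf_coprime p M)
    have h4 : (Cfsg.pPrimeCore p ↥M).map M.subtype = ⊥ := by
      rw [← h3]; exact (inf_eq_left.mpr h2).symm
    exact (Subgroup.map_eq_bot_iff_of_injective _ M.subtype_injective).mp h4
  · by_contra hne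
    obtain ⟨L, hL⟩ := exists_component_of_layer_ne_bot hne
    have hLF : ∀ w ∈ L, ∀ y ∈ Cfsg.pCore p ↥M, w * y = y * w := by
      intro w hw y hy
      exact (comm_eq_bot_iff _ _).mp (component_comm_fitting hL) w hw y (pCore_le_fitting p hy)
    have hperf : ⁅L.map M.subtype, L.map M.subtype⁆ = L.map M.subtype := by
      rw [← Subgroup.map_commutator, component_perfect hL]
    have h1 : L.map M.subtype ≤ centralizer (Q : Set G) :=
      le_centralizer_of_comm_pgroups' p Q P M _ hQ hP hMQ hPQ hMP hQM (Subgroup.map_subtype_le _)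
        (comm_pgroups_of_comm_pCore p M L hLF) (Or.inl hperf)
    have h2 : L.map M.subtype ≤ Q := (le_inf h1 (Subgroup.map_subtype_le _)).trans hC
    have hpg : IsPGroup p ↥(L.map M.subtype) := hQ.to_le h2
    have hnil : Group.IsNilpotent ↥(L.map M.subtype) := hpg.isNilpotent
    have hsolv : Group.IsSolvable ↥(L.map M.subtype) := inferInstance
    exact quasi_not_solvable ((quasi_map_subtype_iff M L).mpr hL.2) hsolv

/-- centralizers of `p`-subgroups in groups with trivial `p`-layer have trivial `p`-layer -/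
theorem centralizer_pLayer_eq_bot {G : Type*} [Group G] [Finite G] (p : ℕ) [Fact p.Prime]
    (hL : Cfsg.pLayer p G = ⊥) (P : Subgroup G) (hP : IsPGroup p ↥P) :
    Cfsg.pLayer p ↥(centralizer (P : Set G)) = ⊥ := by
  have h1 : Cfsg.pPrimeCore p (G ⧸ Cfsg.pPrimeCore p G) = ⊥ := pPrimeCore_quotient_eq_bot p
  have h2 : Cfsg.layer (G ⧸ Cfsg.pPrimeCore p G) = ⊥ := by
    rw [← pLayer_map_eq p, hL, Subgroup.map_bot]
  have h3 := (layer_eq_bot_iff_centralizer_pCore_le p h1).mp h2
  have hOc : (Nat.card ↥(Cfsg.pPrimeCore p G)).Coprime p := pPrimeCore_coprime p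
  have hcent := centralizer_map_le_map_centralizer p (Cfsg.pPrimeCore p G) hOc P hP
  have hAB := pPrimeCore_layer_eq_bot_of_AxB' p (Cfsg.pCore p (G ⧸ Cfsg.pPrimeCore p G))
    (P.map (QuotientGroup.mk' (Cfsg.pPrimeCore p G)))
    ((centralizer (P : Set G)).map (QuotientGroup.mk' (Cfsg.pPrimeCore p G)))
    (pCore_isPGroup p) (hP.map _)
    (by rw [Subgroup.normalizer_eq_top_iff.mpr (Cfsg.pCore_normal p _)]; exact le_top)
    (by rw [Subgroup.normalizer_eq_top_iff.mpr (Cfsg.pCore_normal p _)]; exact le_top)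
    (by
      rintro _ ⟨c, hc, rfl⟩
      rw [Subgroup.mem_centralizer_iff]
      rintro _ ⟨x, hx, rfl⟩
      rw [← map_mul, ← map_mul, Subgroup.mem_centralizer_iff.mp hc x hx])
    (inf_le_right.trans hcent)
    (inf_le_left.trans h3)
  have hker := pPrimeCore_eq_ker_of_image p (Cfsg.pPrimeCore p G) hOc (centralizer (P : Set G))
    hAB.1
  exact pLayer_eq_bot_of_surj p _ (MonoidHom.subgroupMap_surjective _ _) hker hAB.2

/-- in a homomorphic image of a `p`-solvable group, every `p`-element of a quasisimple subgroup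
is central in that subgroup -/
theorem psolvable_image_pelt_central {D Y : Type*} [Group D] [Group Y] [Finite Y] (p : ℕ)
    [Fact p.Prime] (hD : Cfsg.IsPSolvable p D) (f : D →* Y) (K : Subgroup Y) (hK : K ≤ f.range)
    (hq : Cfsg.IsQuasisimple ↥K) (l : Y) (hl : l ∈ K) (hlp : IsPGroup p ↥(zpowers l)) :
    l ∈ centralizer (K : Set Y) := by
  classical
  by_contra hlc
  obtain ⟨n, H, h0, hlast, hmono, hnorm, hfac⟩ := hD
  have key : ∀ i : Fin (n + 1), ∀ x ∈ H i, f x ∈ K → f x ∈ centralizer (K : Set Y) := by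
    intro i
    induction i using Fin.induction with
    | zero =>
      intro x hx _
      rw [h0, Subgroup.mem_bot] at hx
      rw [hx, map_one]
      exact Subgroup.one_mem _
    | succ i ih =>
      intro x hx hfx
      haveI := hnorm i.castSucc
      haveI := hnorm i.succ
      obtain ⟨N, hN⟩ : ∃ N : Subgroup ↥K, N = ((H i.succ).map f).subgroupOf K := ⟨_, rfl⟩
      have hNn : N.Normal := by
        rw [hN]
        constructor
        intro a ha b
        rw [Subgroup.mem_subgroupOf] at ha ⊢
        obtain ⟨y, hy, hya⟩ := ha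
        obtain ⟨d, hd⟩ := hK b.2
        refine ⟨d * y * d⁻¹, (hnorm i.succ).conj_mem y hy d, ?_⟩
        show f (d * y * d⁻¹) = (b : Y) * (a : Y) * (b : Y)⁻¹
        rw [map_mul, map_mul, map_inv, hya, hd]
      by_cases hNtop : N = ⊤
      · exfalso
        have hall : ∀ k ∈ K, ∃ y ∈ H i.succ, f y = k := by
          intro k hk
          have h1 : (⟨k, hk⟩ : ↥K) ∈ N := by rw [hNtop]; exact Subgroup.mem_top _
          rw [hN, Subgroup.mem_subgroupOf] at h1
          exact h1
        have hpow : ∀ k ∈ K,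
            k ^ (H i.castSucc).relIndex (H i.succ) ∈ centralizer (K : Set Y) := by
          intro k hk
          obtain ⟨y, hy, rfl⟩ := hall k hk
          rw [← map_pow]
          apply ih _ (Subgroup.pow_relIndex_mem (H i.castSucc) hy)
          rw [map_pow]
          exact K.pow_mem hk _
        rcases hfac i with ⟨m, hm⟩ | hcop
        · rw [hm] at hpow
          have hpg : IsPGroup p (↥K ⧸ center ↥K) := by
            intro g
            obtain ⟨k, rfl⟩ := QuotientGroup.mk_surjective g
            refine ⟨m, ?_⟩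
            rw [← QuotientGroup.mk_pow, QuotientGroup.eq_one_iff, Subgroup.mem_center_iff]
            intro a
            apply Subtype.ext
            have h2 := Subgroup.mem_centralizer_iff.mp (hpow (k : Y) k.2) (a : Y) a.2
            rw [Subgroup.coe_mul, Subgroup.coe_mul, Subgroup.coe_pow]
            exact h2
          have htop := perfect_quotient_pgroup_top p hq.1 (center ↥K) hpg
          haveI := hq.2
          obtain ⟨a, b, hab⟩ := exists_pair_ne (↥K ⧸ center ↥K)
          apply hab
          obtain ⟨a', rfl⟩ := QuotientGroup.mk_surjective a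
          obtain ⟨b', rfl⟩ := QuotientGroup.mk_surjective b
          rw [QuotientGroup.eq, htop]
          exact Subgroup.mem_top _
        · apply hlc
          have h1 := hpow l hl
          obtain ⟨a, ha⟩ := hlp ⟨l, Subgroup.mem_zpowers l⟩
          have ha' : l ^ p ^ a = 1 := congrArg Subtype.val ha
          have hord : orderOf l ∣ p ^ a := orderOf_dvd_of_pow_eq_one ha'
          have hc : ((H i.castSucc).relIndex (H i.succ)).Coprime (orderOf l) :=
            Nat.Coprime.coprime_dvd_right hord (Nat.Coprime.pow_right a hcop)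
          obtain ⟨m, hm⟩ := exists_pow_eq_self_of_coprime hc
          rw [← hm]
          exact Subgroup.pow_mem _ h1 m
      · have hle := quasi_normal_le_center hq N hNn hNtop
        have h1 : (⟨f x, hfx⟩ : ↥K) ∈ N := by
          rw [hN, Subgroup.mem_subgroupOf]
          exact Subgroup.mem_map_of_mem f hx
        have h2 := hle h1
        rw [Subgroup.mem_centralizer_iff]
        intro k hk
        have h3 := Subgroup.mem_center_iff.mp h2 ⟨k, hk⟩
        exact congrArg Subtype.val h3
  apply hlc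
  obtain ⟨d, hd⟩ := hK hl
  rw [← hd]
  apply key (Fin.last n) d (by rw [hlast]; exact Subgroup.mem_top d)
  rw [hd]; exact hl

end Cfsg.Agent.Helper9
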