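import Mathlib
import Cfsg.Prelude.Def_Local
import Cfsg.Agent.Helper9.Baer
import Cfsg.Agent.Helper9.ABLemma
import Cfsg.Agent.Helper9.Layer
import Cfsg.Agent.Helper9.Fitting
import Cfsg.Agent.Helper9.PConstr
import Cfsg.Agent.Helper9.PLocal
import Cfsg.Agent.S0093
import Cfsg.Agent.S0096
import Cfsg.Agent.S0120
import Cfsg.Agent.S0121

set_option autoImplicit false

namespace Cfsg.Agent.Helper9

open Subgroup
open scoped commutatorElement

universe u

theorem pprime_inter_pgroup9 {Y : Type*} [Group Y] {p : ℕ} {P K : Subgroup Y}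
    (hP : IsPGroup p ↥P) (hK : (Nat.card K).Coprime p) : ∀ x, x ∈ K → x ∈ P → x = 1 := by
  intro x hxK hxP
  obtain ⟨j, hj⟩ := hP ⟨x, hxP⟩
  have hj' : x ^ p ^ j = 1 := by
    have h0 := congrArg Subtype.val hj
    rw [Subgroup.coe_pow, Subgroup.coe_one] at h0
    exact h0
  have h1 : orderOf x ∣ Nat.card K := K.orderOf_dvd_natCard hxK
  have h2 : orderOf x ∣ p ^ j := orderOf_dvd_of_pow_eq_one hj'
  exact orderOf_eq_one_iff.mp (Nat.eq_one_of_dvd_coprimes (Nat.Coprime.pow_right j hK) h1 h2)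

/-- Let `P` be a normal self-centralizing `p`-subgroup, `p` odd, `A` a `p`-subgroup containing
every element of order `p` of `C_P(A)`. Then every `A`-invariant `p'`-subgroup is trivial. -/
theorem inv_pprime_trivial_odd9 {Y : Type u} [Group Y] [Finite Y] {p : ℕ} [Fact p.Prime]
    (hp2 : p ≠ 2) (P : Subgroup Y) [hPn : P.Normal] (hP : IsPGroup p ↥P)
    (hCP : centralizer (P : Set Y) ≤ P)
    (A K : Subgroup Y) (hA : IsPGroup p ↥A) (hK : (Nat.card K).Coprime p)
    (hAK : A ≤ normalizer (K : Set Y))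
    (hΩ : ∀ x ∈ P, (∀ a ∈ A, a * x = x * a) → x ^ p = 1 → x ∈ A) :
    K = ⊥ := by
  have hKP : ∀ x, x ∈ K → x ∈ P → x = 1 := pprime_inter_pgroup9 hP hK
  obtain ⟨D, hDchar, hD1, hD2, hD3⟩ := Cfsg.Agent.S0093.result (P := ↥P) hP
  obtain ⟨D', hD'⟩ : ∃ D' : Subgroup Y, D' = D.map P.subtype := ⟨_, rfl⟩
  have hD'P : D' ≤ P := by rw [hD']; exact Subgroup.map_subtype_le _
  have hD'n : D'.Normal := by
    haveI := hDchar
    have h1 : normalizer (P : Set Y) ≤ normalizer ((D.map P.subtype : Subgroup Y) : Set Y) :=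
      char_map_normalizer P D
    rw [Subgroup.normalizer_eq_top_iff.mpr hPn] at h1
    rw [hD']
    exact Subgroup.normalizer_eq_top_iff.mp (top_le_iff.mp h1)
  have hD'p : IsPGroup p ↥D' := hP.to_le hD'P
  have hcl : ∀ x ∈ D', ∀ y ∈ D', ∀ z ∈ D', ⁅x, y⁆ * z = z * ⁅x, y⁆ := by
    intro x hx y hy z hz
    rw [hD'] at hx hy hz
    obtain ⟨x', hx', rfl⟩ := hx
    obtain ⟨y', hy', rfl⟩ := hy
    obtain ⟨z', hz', rfl⟩ := hz
    have h1 : ⁅x', y'⁆ ∈ D ⊓ centralizer (D : Set ↥P) :=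
      hD2 (Subgroup.commutator_mem_commutator hx' (Subgroup.mem_top y'))
    have h2 := Subgroup.mem_centralizer_iff.mp (Subgroup.mem_inf.mp h1).2 z' hz'
    have h3 := congrArg (P.subtype) h2
    rw [map_mul, map_mul, map_commutatorElement] at h3
    exact h3.symm
  obtain ⟨W, hW⟩ : ∃ W : Subgroup Y, W = closure {x : Y | x ∈ D' ∧ x ^ p = 1} := ⟨_, rfl⟩
  have hWD : W ≤ D' := by
    rw [hW, Subgroup.closure_le]
    intro x hx
    exact hx.1
  have hWn : W.Normal := by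
    constructor
    intro w hw g
    have h1 : W ≤ W.comap (MulAut.conj g).toMonoidHom := by
      rw [hW, Subgroup.closure_le]
      intro x hx
      rw [SetLike.mem_coe, Subgroup.mem_comap]
      apply Subgroup.subset_closure
      refine ⟨hD'n.conj_mem x hx.1 g, ?_⟩
      show (g * x * g⁻¹) ^ p = 1
      rw [conj_pow, hx.2, mul_one, mul_inv_cancel]
    exact h1 hw
  have hWexp : ∀ w ∈ W, w ^ p = 1 := by
    have hcl2 : ⁅commutator ↥D', (⊤ : Subgroup ↥D')⁆ = ⊥ := by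
      rw [eq_bot_iff, Subgroup.commutator_le]
      intro c hc z _
      have hcc : c ∈ Subgroup.center ↥D' := by
        have hle : commutator ↥D' ≤ Subgroup.center ↥D' := by
          rw [_root_.commutator_def, Subgroup.commutator_le]
          intro x _ y _
          rw [Subgroup.mem_center_iff]
          intro g
          apply Subtype.ext
          have e : ((⁅x, y⁆ : ↥D') : Y) = ⁅(x : Y), (y : Y)⁆ :=
            map_commutatorElement D'.subtype x y
          show (g : Y) * ((⁅x, y⁆ : ↥D') : Y) = ((⁅x, y⁆ : ↥D') : Y) * (g : Y)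
          rw [e]
          exact (hcl x x.2 y y.2 g g.2).symm
        exact hle hc
      rw [Subgroup.mem_bot, commutatorElement_eq_one_iff_mul_comm]
      exact (Subgroup.mem_center_iff.mp hcc z).symm
    intro w hw
    have h1 : W = (closure {x : ↥D' | x ^ p = 1}).map D'.subtype := by
      rw [MonoidHom.map_closure, hW]
      congr 1
      ext x
      constructor
      · rintro ⟨hx1, hx2⟩
        refine ⟨⟨x, hx1⟩, ?_, rfl⟩
        apply Subtype.ext
        rw [Subgroup.coe_pow, Subgroup.coe_one]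
        exact hx2
      · rintro ⟨y, hy, rfl⟩
        have hy' : y ^ p = 1 := hy
        have h0 := congrArg Subtype.val hy'
        rw [Subgroup.coe_pow, Subgroup.coe_one] at h0
        exact ⟨y.2, h0⟩
    rw [h1] at hw
    obtain ⟨g, hg, rfl⟩ := hw
    have h2 := Cfsg.Agent.S0096.result hp2 hD'p hcl2 g hg
    have h3 := congrArg Subtype.val h2
    rw [Subgroup.coe_pow, Subgroup.coe_one] at h3
    exact h3
  have hWp : IsPGroup p ↥W := hD'p.to_le hWD
  have hclW : ∀ x y z : ↥W, ⁅⁅x, y⁆, z⁆ = 1 := by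
    intro x y z
    rw [commutatorElement_eq_one_iff_mul_comm]
    apply Subtype.ext
    have e : ((⁅x, y⁆ : ↥W) : Y) = ⁅(x : Y), (y : Y)⁆ := map_commutatorElement W.subtype x y
    show ((⁅x, y⁆ : ↥W) : Y) * (z : Y) = (z : Y) * ((⁅x, y⁆ : ↥W) : Y)
    rw [e]
    exact hcl x (hWD x.2) y (hWD y.2) z (hWD z.2)
  haveI := hWn
  have hB := baer_fixed9 hp2 hWp hclW (MulAut.conjNormal (H := W)) A K hA hK hAK (by
    intro w hw k hk
    have hwA : (w : Y) ∈ A := by
      refine hΩ (w : Y) (hD'P (hWD w.2)) ?_ (hWexp w w.2)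
      intro a ha
      have h0 := congrArg Subtype.val (hw a ha)
      rw [MulAut.conjNormal_apply] at h0
      exact mul_inv_eq_iff_eq_mul.mp h0
    apply Subtype.ext
    rw [MulAut.conjNormal_apply]
    have h1 : k * (w : Y) * k⁻¹ * (w : Y)⁻¹ ∈ K := by
      have h2 : (w : Y) * k⁻¹ * (w : Y)⁻¹ ∈ K :=
        (Subgroup.mem_normalizer_iff.mp (hAK hwA) k⁻¹).mp (K.inv_mem hk)
      have h3 := K.mul_mem hk h2
      have e : k * (w : Y) * k⁻¹ * (w : Y)⁻¹ = k * ((w : Y) * k⁻¹ * (w : Y)⁻¹) := by group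
      rw [e]; exact h3
    have h4 : k * (w : Y) * k⁻¹ * (w : Y)⁻¹ ∈ P :=
      P.mul_mem (hPn.conj_mem _ (hD'P (hWD w.2)) k) (P.inv_mem (hD'P (hWD w.2)))
    exact mul_inv_eq_one.mp (hKP _ h1 h4))
  haveI := hD'n
  have hKD : ∀ k ∈ K, ∀ x ∈ D', k * x * k⁻¹ = x := by
    intro k hk x hx
    have hord : (orderOf (MulAut.conjNormal (H := D') k)).Coprime p := by
      have h1 : orderOf (MulAut.conjNormal (H := D') k) ∣ orderOf k := orderOf_map_dvd _ k
      exact Nat.Coprime.coprime_dvd_left (h1.trans (K.orderOf_dvd_natCard hk)) hK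
    have h3 := Cfsg.Agent.S0120.result hp2 hD'p (MulAut.conjNormal (H := D') k) hord (by
      intro y hy
      apply Subtype.ext
      rw [MulAut.conjNormal_apply]
      have hyW : (y : Y) ∈ W := by
        rw [hW]
        apply Subgroup.subset_closure
        refine ⟨y.2, ?_⟩
        have h0 := congrArg Subtype.val hy
        rw [Subgroup.coe_pow, Subgroup.coe_one] at h0
        exact h0
      have h4 := congrArg Subtype.val (hB k hk ⟨(y : Y), hyW⟩)
      rw [MulAut.conjNormal_apply] at h4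
      exact h4)
    have h5 : (MulAut.conjNormal (H := D') k) ⟨x, hx⟩ = ⟨x, hx⟩ := by rw [h3]; rfl
    have h6 := congrArg Subtype.val h5
    rw [MulAut.conjNormal_apply] at h6
    exact h6
  rw [eq_bot_iff]
  intro k hk
  rw [Subgroup.mem_bot]
  have hord : (orderOf (MulAut.conjNormal (H := P) k)).Coprime p := by
    have h1 : orderOf (MulAut.conjNormal (H := P) k) ∣ orderOf k := orderOf_map_dvd _ k
    exact Nat.Coprime.coprime_dvd_left (h1.trans (K.orderOf_dvd_natCard hk)) hK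
  have h3 := Cfsg.Agent.S0121.result hP D hDchar hD1 hD2 hD3 (MulAut.conjNormal (H := P) k) hord (by
    intro x hx
    apply Subtype.ext
    rw [MulAut.conjNormal_apply]
    exact hKD k hk (x : Y) (by rw [hD']; exact Subgroup.mem_map_of_mem _ hx))
  have hkc : k ∈ centralizer (P : Set Y) := by
    rw [Subgroup.mem_centralizer_iff]
    intro x hx
    have h5 : (MulAut.conjNormal (H := P) k) ⟨x, hx⟩ = ⟨x, hx⟩ := by rw [h3]; rfl
    have h6 := congrArg Subtype.val h5
    rw [MulAut.conjNormal_apply] at h6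
    exact (mul_inv_eq_iff_eq_mul.mp h6).symm
  exact hKP k hk (hCP hkc)

/-- The class-two variant (any prime): `P` normal self-centralizing `p`-subgroup, `A` a
`p`-subgroup containing `C_P(A)` with `[P, A] ≤ C(A)`. Then every `A`-invariant
`p'`-subgroup is trivial. -/
theorem inv_pprime_trivial_cl2_9 {Y : Type u} [Group Y] [Finite Y] {p : ℕ} [Fact p.Prime]
    (P : Subgroup Y) [hPn : P.Normal] (hP : IsPGroup p ↥P)
    (hCP : centralizer (P : Set Y) ≤ P)
    (A K : Subgroup Y) (hA : IsPGroup p ↥A) (hK : (Nat.card K).Coprime p)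
    (hAK : A ≤ normalizer (K : Set Y))
    (hΩ : ∀ x ∈ P, (∀ a ∈ A, a * x = x * a) → x ∈ A)
    (hcl : ∀ x ∈ P, ∀ a ∈ A, ∀ b ∈ A, b * ⁅x, a⁆ = ⁅x, a⁆ * b) :
    K = ⊥ := by
  have hKP : ∀ x, x ∈ K → x ∈ P → x = 1 := pprime_inter_pgroup9 hP hK
  obtain ⟨E₀, hE₀⟩ : ∃ E₀ : Subgroup Y, E₀ = P ⊓ centralizer (A : Set Y) := ⟨_, rfl⟩
  have hE₀A : ∀ e ∈ E₀, e ∈ A := by
    intro e he
    rw [hE₀] at he
    obtain ⟨heP, heC⟩ := Subgroup.mem_inf.mp he
    exact hΩ e heP (fun a ha => Subgroup.mem_centralizer_iff.mp heC a ha)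
  have hKE : ∀ k ∈ K, ∀ e ∈ E₀, k * e * k⁻¹ = e := by
    intro k hk e he
    have heA := hE₀A e he
    have heP : e ∈ P := by rw [hE₀] at he; exact (Subgroup.mem_inf.mp he).1
    have h1 : k * e * k⁻¹ * e⁻¹ ∈ K := by
      have h2 : e * k⁻¹ * e⁻¹ ∈ K :=
        (Subgroup.mem_normalizer_iff.mp (hAK heA) k⁻¹).mp (K.inv_mem hk)
      have e' : k * e * k⁻¹ * e⁻¹ = k * (e * k⁻¹ * e⁻¹) := by group
      rw [e']; exact K.mul_mem hk h2
    have h4 : k * e * k⁻¹ * e⁻¹ ∈ P := P.mul_mem (hPn.conj_mem _ heP k) (P.inv_mem heP)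
    exact mul_inv_eq_one.mp (hKP _ h1 h4)
  have hPA : ∀ x ∈ P, ∀ a ∈ A, a * x * a⁻¹ * x⁻¹ ∈ E₀ := by
    intro x hx a ha
    have e1 : a * x * a⁻¹ * x⁻¹ = (⁅x, a⁆)⁻¹ := by
      rw [commutatorElement_inv, commutatorElement_def]
    rw [e1]
    apply E₀.inv_mem
    rw [hE₀]
    refine Subgroup.mem_inf.mpr
      ⟨?_, Subgroup.mem_centralizer_iff.mpr (fun b hb => hcl x hx a ha b hb)⟩
    rw [commutatorElement_def]
    have e2 : x * a * x⁻¹ * a⁻¹ = x * (a * x⁻¹ * a⁻¹) := by group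
    rw [e2]
    exact P.mul_mem hx (hPn.conj_mem _ (P.inv_mem hx) a)
  have hKA : ∀ k ∈ K, ∀ a ∈ A, k * a = a * k := by
    intro k hk a ha
    obtain ⟨g, hg⟩ : ∃ g : Y, g = k * a * k⁻¹ * a⁻¹ := ⟨_, rfl⟩
    have hgK : g ∈ K := by
      have h2 : a * k⁻¹ * a⁻¹ ∈ K :=
        (Subgroup.mem_normalizer_iff.mp (hAK ha) k⁻¹).mp (K.inv_mem hk)
      have e' : g = k * (a * k⁻¹ * a⁻¹) := by rw [hg]; group
      rw [e']; exact K.mul_mem hk h2
    have hmove : ∀ x ∈ P, g * x * g⁻¹ * x⁻¹ ∈ E₀ := by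
      intro x hx
      have h1 : a⁻¹ * x * a * x⁻¹ ∈ E₀ := by
        have h0 := hPA x hx a⁻¹ (A.inv_mem ha)
        rwa [inv_inv] at h0
      have hx' : k⁻¹ * x * k ∈ P := by
        have h0 := hPn.conj_mem x hx k⁻¹
        rwa [inv_inv] at h0
      have h2 : a * (k⁻¹ * x * k) * a⁻¹ * (k⁻¹ * x * k)⁻¹ ∈ E₀ := hPA _ hx' a ha
      have h3 := hKE k hk _ h2
      have h4 : (k * a * k⁻¹) * x * (k * a * k⁻¹)⁻¹ * x⁻¹ ∈ E₀ := by
        have e : (k * a * k⁻¹) * x * (k * a * k⁻¹)⁻¹ * x⁻¹ =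
            k * (a * (k⁻¹ * x * k) * a⁻¹ * (k⁻¹ * x * k)⁻¹) * k⁻¹ := by group
        rw [e, h3]; exact h2
      have h5 : (k * a * k⁻¹) * (a⁻¹ * x * a * x⁻¹) * (k * a * k⁻¹)⁻¹ =
          a⁻¹ * x * a * x⁻¹ := by
        obtain ⟨e₁, he₁⟩ : ∃ e₁ : Y, e₁ = a⁻¹ * x * a * x⁻¹ := ⟨_, rfl⟩
        rw [← he₁] at h1 ⊢
        have hk0 := hKE k hk e₁ h1
        have hk1 : k⁻¹ * e₁ * k = e₁ := by
          calc k⁻¹ * e₁ * k = k⁻¹ * (k * e₁ * k⁻¹) * k := by rw [hk0]
            _ = e₁ := by group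
        have ha1 : a * e₁ * a⁻¹ = e₁ := by
          have he₁A : e₁ ∈ centralizer (A : Set Y) := by
            rw [hE₀] at h1; exact (Subgroup.mem_inf.mp h1).2
          have h0 := Subgroup.mem_centralizer_iff.mp he₁A a ha
          rw [h0]; group
        calc (k * a * k⁻¹) * e₁ * (k * a * k⁻¹)⁻¹
            = k * (a * (k⁻¹ * e₁ * k) * a⁻¹) * k⁻¹ := by group
          _ = k * (a * e₁ * a⁻¹) * k⁻¹ := by rw [hk1]
          _ = k * e₁ * k⁻¹ := by rw [ha1]
          _ = e₁ := hk0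
      have e : g * x * g⁻¹ * x⁻¹ =
          ((k * a * k⁻¹) * (a⁻¹ * x * a * x⁻¹) * (k * a * k⁻¹)⁻¹) *
          ((k * a * k⁻¹) * x * (k * a * k⁻¹)⁻¹ * x⁻¹) := by rw [hg]; group
      rw [e, h5]
      exact E₀.mul_mem h1 h4
    have hgP : ∀ x ∈ P, g * x * g⁻¹ = x := by
      intro x hx
      obtain ⟨e, he⟩ : ∃ e : Y, e = g * x * g⁻¹ * x⁻¹ := ⟨_, rfl⟩
      have heE : e ∈ E₀ := by rw [he]; exact hmove x hx
      have hge : g * e * g⁻¹ = e := hKE g hgK e heE
      have hgx : g * x * g⁻¹ = e * x := by rw [he]; group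
      have hpow : ∀ n : ℕ, g ^ n * x * (g ^ n)⁻¹ = e ^ n * x := by
        intro n
        induction n with
        | zero => simp
        | succ n ih =>
          have e1 : g ^ (n + 1) * x * (g ^ (n + 1))⁻¹ = g * (g ^ n * x * (g ^ n)⁻¹) * g⁻¹ := by
            rw [pow_succ']; group
          have e2 : g * (e ^ n * x) * g⁻¹ = (g * e * g⁻¹) ^ n * (g * x * g⁻¹) := by
            rw [conj_pow]; group
          rw [e1, ih, e2, hge, hgx, pow_succ, mul_assoc]
      have h1 := hpow (orderOf g)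
      rw [pow_orderOf_eq_one, one_mul, inv_one, mul_one] at h1
      have h2 : e ^ orderOf g = 1 :=
        (mul_right_cancel (show 1 * x = e ^ orderOf g * x by rw [one_mul]; exact h1)).symm
      have heP : e ∈ P := by rw [hE₀] at heE; exact (Subgroup.mem_inf.mp heE).1
      have he1 : e = 1 := by
        obtain ⟨j, hj⟩ := hP ⟨e, heP⟩
        have hj' : e ^ p ^ j = 1 := by
          have h0 := congrArg Subtype.val hj
          rw [Subgroup.coe_pow, Subgroup.coe_one] at h0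
          exact h0
        have d1 : orderOf e ∣ orderOf g := orderOf_dvd_of_pow_eq_one h2
        have d2 : orderOf e ∣ p ^ j := orderOf_dvd_of_pow_eq_one hj'
        have d3 : orderOf g ∣ Nat.card K := K.orderOf_dvd_natCard hgK
        exact orderOf_eq_one_iff.mp
          (Nat.eq_one_of_dvd_coprimes (Nat.Coprime.pow_right j hK) (d1.trans d3) d2)
      rw [hgx, he1, one_mul]
    have hgc : g ∈ centralizer (P : Set Y) := by
      rw [Subgroup.mem_centralizer_iff]
      intro x hx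
      exact (mul_inv_eq_iff_eq_mul.mp (hgP x hx)).symm
    have hg1 : g = 1 := hKP g hgK (hCP hgc)
    rw [hg] at hg1
    exact mul_inv_eq_iff_eq_mul.mp (mul_inv_eq_one.mp hg1)
  rw [eq_bot_iff]
  intro k hk
  rw [Subgroup.mem_bot]
  have hord : (orderOf k).Coprime p :=
    Nat.Coprime.coprime_dvd_left (K.orderOf_dvd_natCard hk) hK
  have hAP : A ≤ normalizer (P : Set Y) := by
    rw [Subgroup.normalizer_eq_top_iff.mpr hPn]; exact le_top
  have hkP : k ∈ normalizer (P : Set Y) := by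
    rw [Subgroup.normalizer_eq_top_iff.mpr hPn]; exact Subgroup.mem_top k
  have hcent : ∀ x ∈ P ⊓ centralizer (A : Set Y), k * x = x * k := by
    intro x hx
    have h0 := hKE k hk x (by rw [hE₀]; exact hx)
    exact mul_inv_eq_iff_eq_mul.mp h0
  have hall := thompson_AxB_elt p k hord A P hA hP (fun b hb => hKA k hk b hb) hAP hkP hcent
  have hkc : k ∈ centralizer (P : Set Y) := by
    rw [Subgroup.mem_centralizer_iff]
    intro x hx
    exact (hall x hx).symm
  exact hKP k hk (hCP hkc)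

/-- lifting `p`-elements of centralizers of `p`-subgroups modulo a normal `p'`-subgroup -/
theorem lift_pelt_centralizer9 {X : Type u} [Group X] [Finite X] {p : ℕ} [Fact p.Prime]
    (N : Subgroup X) [hN : N.Normal] (hNc : (Nat.card ↥N).Coprime p)
    (A : Subgroup X) (hA : IsPGroup p ↥A) (y : X ⧸ N) (j : ℕ)
    (hy : y ∈ centralizer ((A.map (QuotientGroup.mk' N) : Subgroup (X ⧸ N)) : Set (X ⧸ N)))
    (hyp : y ^ p ^ j = 1) :
    ∃ c ∈ centralizer (A : Set X), c ^ p ^ j = 1 ∧ QuotientGroup.mk' N c = y := by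
  obtain ⟨c, hc, rfl⟩ := centralizer_map_le_map_centralizer p N hNc A hA hy
  have hcN : c ^ p ^ j ∈ N := by
    have h0 : QuotientGroup.mk' N (c ^ p ^ j) = 1 := by rw [map_pow]; exact hyp
    exact (QuotientGroup.eq_one_iff _).mp h0
  have hm : (c ^ p ^ j) ^ Nat.card ↥N = 1 := by
    have h0 : (⟨c ^ p ^ j, hcN⟩ : ↥N) ^ Nat.card ↥N = 1 := pow_card_eq_one'
    have h1 := congrArg Subtype.val h0
    rw [Subgroup.coe_pow, Subgroup.coe_one] at h1
    exact h1
  rcases Nat.eq_zero_or_pos j with hj0 | hjpos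
  · refine ⟨1, Subgroup.one_mem _, one_pow _, ?_⟩
    rw [hj0, pow_zero, pow_one] at hyp
    rw [map_one, hyp]
  · have hp : p.Prime := Fact.out
    have h1lt : 1 < p ^ j := Nat.one_lt_pow hjpos.ne' hp.one_lt
    obtain ⟨v, -, hv⟩ := Nat.exists_mul_mod_eq_one_of_coprime (Nat.Coprime.pow_right j hNc) h1lt
    have hdm := Nat.div_add_mod (Nat.card ↥N * v) (p ^ j)
    rw [hv] at hdm
    obtain ⟨s, hs⟩ : ∃ s : ℕ, Nat.card ↥N * v = p ^ j * s + 1 := ⟨_, hdm.symm⟩
    refine ⟨c ^ (Nat.card ↥N * v), Subgroup.pow_mem _ hc _, ?_, ?_⟩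
    · have e : Nat.card ↥N * v * p ^ j = p ^ j * Nat.card ↥N * v := by ring
      rw [← pow_mul, e, pow_mul, pow_mul, hm, one_pow]
    · rw [map_pow, hs, pow_succ, pow_mul, hyp, one_pow, one_mul]

/-- Invariant `p'`-subgroups of a `p`-constrained group lie in the `p'`-core (`p` odd, `A`
containing the elements of order `p` of its centralizer). -/
theorem inv_pprime_le_core_odd9 {X : Type u} [Group X] [Finite X] {p : ℕ} [Fact p.Prime]
    (hp2 : p ≠ 2) (hX : Cfsg.IsPConstrained p X) (A : Subgroup X) (hA : IsPGroup p ↥A)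
    (hΩ : ∀ x ∈ centralizer (A : Set X), x ^ p = 1 → x ∈ A)
    (Q : Subgroup X) (hQ : (Nat.card ↥Q).Coprime p) (hAQ : A ≤ normalizer (Q : Set X)) :
    Q ≤ Cfsg.pPrimeCore p X := by
  have hNc : (Nat.card ↥(Cfsg.pPrimeCore p X)).Coprime p := pPrimeCore_coprime p
  have hCP := (pConstrained_iff_centralizer_pCore p).mp hX
  have hPp : IsPGroup p ↥(Cfsg.pCore p (X ⧸ Cfsg.pPrimeCore p X)) := pCore_isPGroup p
  have hAbar : IsPGroup p ↥(A.map (QuotientGroup.mk' (Cfsg.pPrimeCore p X))) := hA.map _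
  have hKbar : (Nat.card ↥(Q.map (QuotientGroup.mk' (Cfsg.pPrimeCore p X)))).Coprime p :=
    Nat.Coprime.coprime_dvd_left (Subgroup.card_map_dvd _ _) hQ
  have hnorm : A.map (QuotientGroup.mk' (Cfsg.pPrimeCore p X)) ≤
      normalizer ((Q.map (QuotientGroup.mk' (Cfsg.pPrimeCore p X)) :
        Subgroup (X ⧸ Cfsg.pPrimeCore p X)) : Set (X ⧸ Cfsg.pPrimeCore p X)) :=
    (Subgroup.map_mono hAQ).trans (Subgroup.le_normalizer_map _)
  have hbot := inv_pprime_trivial_odd9 hp2 (Cfsg.pCore p (X ⧸ Cfsg.pPrimeCore p X)) hPp hCP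
    (A.map (QuotientGroup.mk' (Cfsg.pPrimeCore p X)))
    (Q.map (QuotientGroup.mk' (Cfsg.pPrimeCore p X))) hAbar hKbar hnorm (by
      intro y _ hyc hyp
      have hy : y ∈ centralizer ((A.map (QuotientGroup.mk' (Cfsg.pPrimeCore p X)) :
          Subgroup (X ⧸ Cfsg.pPrimeCore p X)) : Set (X ⧸ Cfsg.pPrimeCore p X)) :=
        Subgroup.mem_centralizer_iff.mpr (fun a ha => hyc a ha)
      obtain ⟨c, hc, hcp, rfl⟩ := lift_pelt_centralizer9 (Cfsg.pPrimeCore p X) hNc A hA y 1 hy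
        (by rw [pow_one]; exact hyp)
      rw [pow_one] at hcp
      exact Subgroup.mem_map_of_mem _ (hΩ c hc hcp))
  have h1 : Q ≤ (QuotientGroup.mk' (Cfsg.pPrimeCore p X)).ker :=
    (Subgroup.map_eq_bot_iff _).mp hbot
  rw [QuotientGroup.ker_mk'] at h1
  exact h1

/-- every normal `p`-subgroup of a quotient is covered by a `p`-subgroup containing a given
`p`-subgroup -/
theorem exists_pgroup_cover9 {X : Type u} [Group X] [Finite X] {p : ℕ} [Fact p.Prime]
    (N : Subgroup X) [N.Normal] (A : Subgroup X) (hA : IsPGroup p ↥A)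
    (Pb : Subgroup (X ⧸ N)) [Pb.Normal] (hPb : IsPGroup p ↥Pb) :
    ∃ T : Subgroup X, IsPGroup p ↥T ∧ A ≤ T ∧ Pb ≤ T.map (QuotientGroup.mk' N) := by
  obtain ⟨H, hH⟩ : ∃ H : Subgroup X, H = Pb.comap (QuotientGroup.mk' N) ⊔ A := ⟨_, rfl⟩
  have hAH : A ≤ H := by rw [hH]; exact le_sup_right
  have hmapH : H.map (QuotientGroup.mk' N) = Pb ⊔ A.map (QuotientGroup.mk' N) := by
    rw [hH, Subgroup.map_sup,
      Subgroup.map_comap_eq_self_of_surjective (QuotientGroup.mk'_surjective N)]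
  have hHp : IsPGroup p ↥(H.map (QuotientGroup.mk' N)) := by
    rw [hmapH]
    exact IsPGroup.to_sup_of_normal_left hPb (hA.map _)
  obtain ⟨S, hS⟩ := (hA.comap_subtype (K := H)).exists_le_sylow
  have hrange : ((QuotientGroup.mk' N).comp H.subtype).range = H.map (QuotientGroup.mk' N) := by
    rw [MonoidHom.range_comp, Subgroup.range_subtype]
  have hr : IsPGroup p ↥((QuotientGroup.mk' N).comp H.subtype).range := by
    rw [hrange]; exact hHp
  have h0 := sylow_map_eq_range p _ hr S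
  refine ⟨(S : Subgroup ↥H).map H.subtype, S.isPGroup'.map _, ?_, ?_⟩
  · have h1 : (A.subgroupOf H).map H.subtype ≤ (S : Subgroup ↥H).map H.subtype :=
      Subgroup.map_mono hS
    rwa [Subgroup.map_subgroupOf_eq_of_le hAH] at h1
  · rw [Subgroup.map_map, h0, hrange, hmapH]
    exact le_sup_left

/-- Invariant `p'`-subgroups of a `p`-constrained group lie in the `p'`-core (any `p`, the
`p`-subgroups having class at most two, `A` containing the `p`-elements of its centralizer). -/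
theorem inv_pprime_le_core_cl2_9 {X : Type u} [Group X] [Finite X] {p : ℕ} [Fact p.Prime]
    (hX : Cfsg.IsPConstrained p X) (A : Subgroup X) (hA : IsPGroup p ↥A)
    (hΩ : ∀ x ∈ centralizer (A : Set X), (∃ j : ℕ, x ^ p ^ j = 1) → x ∈ A)
    (hcl : ∀ T : Subgroup X, IsPGroup p ↥T → ∀ x ∈ T, ∀ y ∈ T, ∀ z ∈ T,
      z * ⁅x, y⁆ = ⁅x, y⁆ * z)
    (Q : Subgroup X) (hQ : (Nat.card ↥Q).Coprime p) (hAQ : A ≤ normalizer (Q : Set X)) :
    Q ≤ Cfsg.pPrimeCore p X := by
  have hNc : (Nat.card ↥(Cfsg.pPrimeCore p X)).Coprime p := pPrimeCore_coprime p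
  have hCP := (pConstrained_iff_centralizer_pCore p).mp hX
  have hPp : IsPGroup p ↥(Cfsg.pCore p (X ⧸ Cfsg.pPrimeCore p X)) := pCore_isPGroup p
  have hAbar : IsPGroup p ↥(A.map (QuotientGroup.mk' (Cfsg.pPrimeCore p X))) := hA.map _
  have hKbar : (Nat.card ↥(Q.map (QuotientGroup.mk' (Cfsg.pPrimeCore p X)))).Coprime p :=
    Nat.Coprime.coprime_dvd_left (Subgroup.card_map_dvd _ _) hQ
  have hnorm : A.map (QuotientGroup.mk' (Cfsg.pPrimeCore p X)) ≤
      normalizer ((Q.map (QuotientGroup.mk' (Cfsg.pPrimeCore p X)) :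
        Subgroup (X ⧸ Cfsg.pPrimeCore p X)) : Set (X ⧸ Cfsg.pPrimeCore p X)) :=
    (Subgroup.map_mono hAQ).trans (Subgroup.le_normalizer_map _)
  obtain ⟨T, hTp, hAT, hPT⟩ := exists_pgroup_cover9 (Cfsg.pPrimeCore p X) A hA
    (Cfsg.pCore p (X ⧸ Cfsg.pPrimeCore p X)) hPp
  have hbot := inv_pprime_trivial_cl2_9 (Cfsg.pCore p (X ⧸ Cfsg.pPrimeCore p X)) hPp hCP
    (A.map (QuotientGroup.mk' (Cfsg.pPrimeCore p X)))
    (Q.map (QuotientGroup.mk' (Cfsg.pPrimeCore p X))) hAbar hKbar hnorm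
    (by
      intro y hyP hyc
      have hy : y ∈ centralizer ((A.map (QuotientGroup.mk' (Cfsg.pPrimeCore p X)) :
          Subgroup (X ⧸ Cfsg.pPrimeCore p X)) : Set (X ⧸ Cfsg.pPrimeCore p X)) :=
        Subgroup.mem_centralizer_iff.mpr (fun a ha => hyc a ha)
      obtain ⟨j, hj⟩ := hPp ⟨y, hyP⟩
      have hj' : y ^ p ^ j = 1 := by
        have h0 := congrArg Subtype.val hj
        rw [Subgroup.coe_pow, Subgroup.coe_one] at h0
        exact h0
      obtain ⟨c, hc, hcp, rfl⟩ :=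
        lift_pelt_centralizer9 (Cfsg.pPrimeCore p X) hNc A hA y j hy hj'
      exact Subgroup.mem_map_of_mem _ (hΩ c hc ⟨j, hcp⟩))
    (by
      intro x hx a ha b hb
      obtain ⟨x', hx', rfl⟩ := hPT hx
      obtain ⟨a', ha', rfl⟩ := ha
      obtain ⟨b', hb', rfl⟩ := hb
      have h0 := hcl T hTp x' hx' a' (hAT ha') b' (hAT hb')
      have h1 := congrArg (QuotientGroup.mk' (Cfsg.pPrimeCore p X)) h0
      rw [map_mul, map_mul, map_commutatorElement] at h1
      exact h1)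
  have h1 : Q ≤ (QuotientGroup.mk' (Cfsg.pPrimeCore p X)).ker :=
    (Subgroup.map_eq_bot_iff _).mp hbot
  rw [QuotientGroup.ker_mk'] at h1
  exact h1

end Cfsg.Agent.Helper9
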