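import Mathlib
import Cfsg.Agent.Helper9.Ito
import Cfsg.Agent.Helper9.MinClass
import Cfsg.Agent.Helper9.CMax
import Cfsg.Agent.Helper24.NormalCenter

set_option autoImplicit false

namespace Cfsg.Agent.Helper9

section Rel29

variable {G : Type*} [Group G]

/-- the relative two-class-size setting: `N` normal, all noncentral elements of `N` have
centralizers of index `m`, `N` contains every `r`-element and a noncentral `r`-element. -/
def RS9 (N : Subgroup G) (m r : ℕ) : Prop :=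
  (∀ w ∈ N, w ∉ Subgroup.center G → (Subgroup.centralizer ({w} : Set G)).index = m) ∧
  (∀ g : G, (∃ k : ℕ, g ^ r ^ k = 1) → g ∈ N) ∧
  (∃ x ∈ N, x ∉ Subgroup.center G ∧ ∃ k : ℕ, orderOf x = r ^ k) ∧
  N.Normal

/-- `C` is the centralizer of each of its noncentral elements lying in `N`. -/
def RG9 (N C : Subgroup G) : Prop :=
  Subgroup.center G ≤ C ∧
    ∀ w ∈ N, w ∈ C → w ∉ Subgroup.center G → ∀ g : G, (g * w = w * g ↔ g ∈ C)

theorem rs_cent_eq9 [Finite G] {N : Subgroup G} {m : ℕ}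
    (hT : ∀ w ∈ N, w ∉ Subgroup.center G → (Subgroup.centralizer ({w} : Set G)).index = m)
    {x y : G} (hxN : x ∈ N) (hx : x ∉ Subgroup.center G) (hyN : y ∈ N)
    (hy : y ∉ Subgroup.center G)
    (hle : ∀ g : G, g * x = x * g → g * y = y * g) :
    ∀ g : G, g * y = y * g → g * x = x * g := by
  have hle' : Subgroup.centralizer ({x} : Set G) ≤ Subgroup.centralizer ({y} : Set G) := by
    intro g hg
    rw [Subgroup.mem_centralizer_singleton_iff] at hg ⊢
    exact hle g hg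
  have h1 := Subgroup.relIndex_mul_index hle'
  rw [hT x hxN hx, hT y hyN hy] at h1
  have hn : 0 < m := by
    rw [← hT x hxN hx]; exact Nat.pos_of_ne_zero Subgroup.index_ne_zero_of_finite
  have h2 : (Subgroup.centralizer ({x} : Set G)).relIndex
      (Subgroup.centralizer ({y} : Set G)) = 1 := by
    have h3 : (Subgroup.centralizer ({x} : Set G)).relIndex
        (Subgroup.centralizer ({y} : Set G)) * m = 1 * m := by
      rw [h1, one_mul]
    exact Nat.eq_of_mul_eq_mul_right hn h3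
  rw [Subgroup.relIndex_eq_one] at h2
  intro g hg
  have h4 := h2 (Subgroup.mem_centralizer_singleton_iff.mpr hg)
  exact Subgroup.mem_centralizer_singleton_iff.mp h4

theorem rs_card9 [Finite G] {N : Subgroup G} {m : ℕ}
    (hT : ∀ w ∈ N, w ∉ Subgroup.center G → (Subgroup.centralizer ({w} : Set G)).index = m)
    {x y : G} (hxN : x ∈ N) (hx : x ∉ Subgroup.center G) (hyN : y ∈ N)
    (hy : y ∉ Subgroup.center G) :
    Nat.card (Subgroup.centralizer ({x} : Set G)) =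
      Nat.card (Subgroup.centralizer ({y} : Set G)) := by
  have h1 := Subgroup.card_mul_index (H := Subgroup.centralizer ({x} : Set G))
  have h2 := Subgroup.card_mul_index (H := Subgroup.centralizer ({y} : Set G))
  rw [hT x hxN hx] at h1
  rw [hT y hyN hy] at h2
  have hn : 0 < m := by
    rw [← hT x hxN hx]; exact Nat.pos_of_ne_zero Subgroup.index_ne_zero_of_finite
  exact Nat.eq_of_mul_eq_mul_right hn (h1.trans h2.symm)

theorem rs_coprime9 [Finite G] {N : Subgroup G} {m : ℕ}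
    (hT : ∀ w ∈ N, w ∉ Subgroup.center G → (Subgroup.centralizer ({w} : Set G)).index = m)
    {x y : G} (hxN : x ∈ N) (hx : x ∉ Subgroup.center G) (hyN : y ∈ N) (hxy : x * y = y * x)
    (hcop : (orderOf x).Coprime (orderOf y)) :
    ∀ g : G, g * x = x * g → g * y = y * g := by
  obtain ⟨k, hk⟩ := exists_pow_eq_self_of_coprime (x := x) (n := orderOf y) hcop.symm
  have hcomm : Commute x y := hxy
  have hpow : ((x * y) ^ orderOf y) ^ k = x := by
    rw [hcomm.mul_pow, pow_orderOf_eq_one, mul_one]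
    exact hk
  have hw : x * y ∉ Subgroup.center G := by
    intro h
    apply hx
    rw [← hpow]
    exact Subgroup.pow_mem _ (Subgroup.pow_mem _ h _) _
  have hwx : ∀ g : G, g * (x * y) = (x * y) * g → g * x = x * g := by
    intro g hg
    have h0 : Commute g (x * y) := hg
    have h1 : Commute g (((x * y) ^ orderOf y) ^ k) := (h0.pow_right _).pow_right _
    rw [hpow] at h1
    exact h1
  have hxw := rs_cent_eq9 hT (N.mul_mem hxN hyN) hw hxN hx hwx
  intro g hg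
  have h1 : g * (x * y) = (x * y) * g := hxw g hg
  have h2 : x * (g * y) = x * (y * g) := by
    calc x * (g * y) = (x * g) * y := by rw [mul_assoc]
      _ = (g * x) * y := by rw [hg]
      _ = g * (x * y) := by rw [mul_assoc]
      _ = (x * y) * g := h1
      _ = x * (y * g) := by rw [mul_assoc]
  exact mul_left_cancel h2

theorem rs_exists_r9 [Finite G] {N : Subgroup G} {m r : ℕ} [Fact r.Prime] (S : RS9 N m r)
    {y : G} (hyN : y ∈ N) (hy : y ∉ Subgroup.center G) :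
    ∃ x ∈ N, x ∉ Subgroup.center G ∧ (∃ i : ℕ, orderOf x = r ^ i) ∧ x * y = y * x := by
  have hr : r.Prime := Fact.out
  obtain ⟨hT, hrN, ⟨x₁, hx₁N, hx₁Z, j, hx₁o⟩, hnor⟩ := S
  obtain ⟨R⟩ : Nonempty (Sylow r ↥(Subgroup.centralizer ({y} : Set G))) := inferInstance
  obtain ⟨R0, hR0C, hR0p, hR0card⟩ : ∃ R0 : Subgroup G,
      R0 ≤ Subgroup.centralizer ({y} : Set G) ∧ IsPGroup r R0 ∧
      Nat.card R0 = r ^ (Nat.card (Subgroup.centralizer ({y} : Set G))).factorization r :=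
    ⟨(R : Subgroup ↥(Subgroup.centralizer ({y} : Set G))).map
        (Subgroup.centralizer ({y} : Set G)).subtype,
      Subgroup.map_subtype_le _, R.2.map _, by
        rw [Subgroup.card_map_of_injective (Subgroup.subtype_injective _)]
        exact R.card_eq_multiplicity⟩
  have hord : ∀ w ∈ R0, ∃ i : ℕ, orderOf w = r ^ i := by
    intro w hw
    obtain ⟨i, hi⟩ := hR0p ⟨w, hw⟩
    have hi' : w ^ r ^ i = 1 := by
      have := congrArg Subtype.val hi
      simpa using this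
    obtain ⟨i', -, hi''⟩ := (Nat.dvd_prime_pow hr).1 (orderOf_dvd_of_pow_eq_one hi')
    exact ⟨i', hi''⟩
  by_cases hex : ∃ w ∈ R0, w ∉ Subgroup.center G
  · obtain ⟨w, hw, hwZ⟩ := hex
    obtain ⟨i, hi⟩ := hord w hw
    refine ⟨w, hrN w ⟨i, ?_⟩, hwZ, ⟨i, hi⟩,
      Subgroup.mem_centralizer_singleton_iff.mp (hR0C hw)⟩
    rw [← hi]; exact pow_orderOf_eq_one w
  · exfalso
    push_neg at hex
    haveI hRn : R0.Normal := ⟨fun a ha g => by
      rw [(Subgroup.mem_center_iff.mp (hex a ha)) g, mul_inv_cancel_right]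
      exact ha⟩
    have hzy : IsPGroup r (Subgroup.zpowers x₁) :=
      IsPGroup.of_card (by rw [Nat.card_zpowers]; exact hx₁o)
    have hKp : IsPGroup r (Subgroup.zpowers x₁ ⊔ R0 : Subgroup G) :=
      IsPGroup.to_sup_of_normal_right hzy hR0p
    have hKC : Subgroup.zpowers x₁ ⊔ R0 ≤ Subgroup.centralizer ({x₁} : Set G) := by
      refine sup_le ?_ ?_
      · rw [Subgroup.zpowers_le]
        exact Subgroup.mem_centralizer_singleton_iff.mpr rfl
      · intro a ha
        exact Subgroup.mem_centralizer_singleton_iff.mpr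
          ((Subgroup.mem_center_iff.mp (hex a ha)) x₁).symm
    obtain ⟨e, he⟩ := IsPGroup.iff_card.mp hKp
    have hdvd : Nat.card (Subgroup.zpowers x₁ ⊔ R0 : Subgroup G) ∣
        Nat.card (Subgroup.centralizer ({y} : Set G)) := by
      rw [rs_card9 hT hyN hy hx₁N hx₁Z]
      exact Subgroup.card_dvd_of_le hKC
    rw [he] at hdvd
    have hle : e ≤ (Nat.card (Subgroup.centralizer ({y} : Set G))).factorization r :=
      (Nat.Prime.pow_dvd_iff_le_factorization hr Nat.card_pos.ne').mp hdvd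
    have hcard : Nat.card (Subgroup.zpowers x₁ ⊔ R0 : Subgroup G) ≤ Nat.card R0 := by
      rw [he, hR0card]
      exact Nat.pow_le_pow_right hr.pos hle
    have hEq : R0 = Subgroup.zpowers x₁ ⊔ R0 := Subgroup.eq_of_le_of_card_ge le_sup_right hcard
    have hyK : x₁ ∈ Subgroup.zpowers x₁ ⊔ R0 :=
      (le_sup_left : Subgroup.zpowers x₁ ≤ Subgroup.zpowers x₁ ⊔ R0) (Subgroup.mem_zpowers x₁)
    rw [← hEq] at hyK
    exact hx₁Z (hex x₁ hyK)

theorem rs_good9 [Finite G] {N : Subgroup G} {m r : ℕ} [Fact r.Prime] (S : RS9 N m r)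
    {y : G} (hyN : y ∈ N) (hy : y ∉ Subgroup.center G) (hcop : (orderOf y).Coprime r) :
    RG9 N (Subgroup.centralizer ({y} : Set G)) := by
  have hr : r.Prime := Fact.out
  obtain ⟨x, hxN, hxZ, ⟨i, hxo⟩, hxy⟩ := rs_exists_r9 S hyN hy
  obtain ⟨hT, hrN, -, hnor⟩ := S
  have hcop1 : (orderOf y).Coprime (orderOf x) := by
    rw [hxo]; exact Nat.Coprime.pow_right _ hcop
  have hyx : ∀ g : G, g * y = y * g → g * x = x * g :=
    rs_coprime9 hT hyN hy hxN hxy.symm hcop1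
  have key : ∀ w ∈ N, w * y = y * w → ∀ g : G, g * y = y * g → g * w = w * g := by
    intro w hwN hwy
    obtain ⟨k, t, ht, hkt⟩ := Nat.exists_eq_pow_mul_and_not_dvd (orderOf_pos w).ne' r hr.ne_one
    have hrt : r.Coprime t := (Nat.Prime.coprime_iff_not_dvd hr).mpr ht
    have htcop : (r ^ k).Coprime t := Nat.Coprime.pow_left _ hrt
    have hmem : w ∈ Subgroup.centralizer
        ((Subgroup.centralizer ({y} : Set G) : Subgroup G) : Set G) := by
      refine mem_of_pow_coprime9 _ w htcop ?_ ?_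
      · rw [Subgroup.mem_centralizer_iff]
        intro b hb
        have hby : b * y = y * b := Subgroup.mem_centralizer_singleton_iff.mp hb
        have hbx : b * x = x * b := hyx b hby
        have hwx : w * x = x * w := hyx w hwy
        have h0 : Commute x w := hwx.symm
        have hxw' : x * w ^ r ^ k = w ^ r ^ k * x := h0.pow_right _
        have hd : orderOf (w ^ r ^ k) ∣ t := by
          apply orderOf_dvd_of_pow_eq_one
          rw [← pow_mul, ← hkt]
          exact pow_orderOf_eq_one w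
        have hc : (orderOf x).Coprime (orderOf (w ^ r ^ k)) := by
          rw [hxo]
          exact Nat.Coprime.coprime_dvd_right hd (Nat.Coprime.pow_left _ hrt)
        exact rs_coprime9 hT hxN hxZ (N.pow_mem hwN _) hxw' hc b hbx
      · rw [Subgroup.mem_centralizer_iff]
        intro b hb
        have hby : b * y = y * b := Subgroup.mem_centralizer_singleton_iff.mp hb
        have h0 : Commute y w := hwy.symm
        have hyw' : y * w ^ t = w ^ t * y := h0.pow_right _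
        have hd : orderOf (w ^ t) ∣ r ^ k := by
          apply orderOf_dvd_of_pow_eq_one
          rw [← pow_mul, mul_comm, ← hkt]
          exact pow_orderOf_eq_one w
        have hc : (orderOf y).Coprime (orderOf (w ^ t)) :=
          Nat.Coprime.coprime_dvd_right hd (Nat.Coprime.pow_right _ hcop)
        exact rs_coprime9 hT hyN hy (N.pow_mem hwN _) hyw' hc b hby
    rw [Subgroup.mem_centralizer_iff] at hmem
    intro g hg
    exact hmem g (Subgroup.mem_centralizer_singleton_iff.mpr hg)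
  refine ⟨Subgroup.center_le_centralizer _, ?_⟩
  intro w hwN hwC hwZ g
  have hwy : w * y = y * w := Subgroup.mem_centralizer_singleton_iff.mp hwC
  have h1 := key w hwN hwy
  have h2 := rs_cent_eq9 hT hyN hy hwN hwZ h1
  constructor
  · intro hg
    exact Subgroup.mem_centralizer_singleton_iff.mpr (h2 g hg)
  · intro hg
    exact h1 g (Subgroup.mem_centralizer_singleton_iff.mp hg)

theorem rg_abel9 {N C : Subgroup G} (hC : RG9 N C) :
    ∀ a ∈ C ⊓ N, ∀ b ∈ C ⊓ N, a * b = b * a := by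
  intro a ha b hb
  by_cases haZ : a ∈ Subgroup.center G
  · exact ((Subgroup.mem_center_iff.mp haZ) b).symm
  · exact (((hC.2 a ha.2 ha.1 haZ) b).mpr hb.1).symm

theorem rs_special9 [Finite G] (N : Subgroup G) [N.Normal] {p : ℕ} [Fact p.Prime]
    (P : Sylow p G) (hPZ : ∃ v ∈ (P : Subgroup G), v ∈ N ∧ v ∉ Subgroup.center G) :
    ∃ u ∈ (P : Subgroup G), u ∈ N ∧ u ∉ Subgroup.center G ∧
      ∀ g ∈ (P : Subgroup G), u⁻¹ * g⁻¹ * u * g ∈ Subgroup.center G := by
  haveI hNn : ((Subgroup.center G).subgroupOf (P : Subgroup G)).Normal :=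
    Subgroup.normal_subgroupOf
  have hQ : IsPGroup p (↥(P : Subgroup G) ⧸ (Subgroup.center G).subgroupOf (P : Subgroup G)) :=
    P.2.to_quotient _
  haveI : Group.IsNilpotent
      (↥(P : Subgroup G) ⧸ (Subgroup.center G).subgroupOf (P : Subgroup G)) := hQ.isNilpotent
  obtain ⟨v, hvP, hvN, hvZ⟩ := hPZ
  haveI hN2 : (N.subgroupOf (P : Subgroup G)).Normal := Subgroup.normal_subgroupOf
  obtain ⟨M, hM⟩ : ∃ M : Subgroup
      (↥(P : Subgroup G) ⧸ (Subgroup.center G).subgroupOf (P : Subgroup G)),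
      M = (N.subgroupOf (P : Subgroup G)).map
        (QuotientGroup.mk' ((Subgroup.center G).subgroupOf (P : Subgroup G))) := ⟨_, rfl⟩
  haveI hMn : M.Normal := by
    rw [hM]
    exact Subgroup.Normal.map hN2 _ (QuotientGroup.mk'_surjective _)
  have hMne : M ≠ ⊥ := by
    intro h
    have h1 : (QuotientGroup.mk' ((Subgroup.center G).subgroupOf (P : Subgroup G)))
        ⟨v, hvP⟩ ∈ M := by
      rw [hM]
      exact Subgroup.mem_map_of_mem _ (Subgroup.mem_subgroupOf.mpr hvN)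
    rw [h, Subgroup.mem_bot] at h1
    have h2 : (QuotientGroup.mk (⟨v, hvP⟩ : ↥(P : Subgroup G)) :
        ↥(P : Subgroup G) ⧸ (Subgroup.center G).subgroupOf (P : Subgroup G)) = 1 := h1
    rw [QuotientGroup.eq_one_iff] at h2
    exact hvZ (Subgroup.mem_subgroupOf.mp h2)
  obtain ⟨zb, hzbM, hzb1, hzbZ⟩ := Cfsg.Agent.Helper24.exists_mem_center_of_normal M hMne
  rw [hM] at hzbM
  obtain ⟨u', hu'N, rfl⟩ := Subgroup.mem_map.mp hzbM
  refine ⟨(u' : G), u'.2, Subgroup.mem_subgroupOf.mp hu'N, ?_, ?_⟩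
  · intro hu
    apply hzb1
    show (QuotientGroup.mk u' :
      ↥(P : Subgroup G) ⧸ (Subgroup.center G).subgroupOf (P : Subgroup G)) = 1
    rw [QuotientGroup.eq_one_iff]
    exact Subgroup.mem_subgroupOf.mpr hu
  · intro g hg
    have h1 := (Subgroup.mem_center_iff.mp hzbZ) (QuotientGroup.mk (⟨g, hg⟩ : ↥(P : Subgroup G)))
    have h1' : (QuotientGroup.mk ((⟨g, hg⟩ : ↥(P : Subgroup G)) * u') :
        ↥(P : Subgroup G) ⧸ (Subgroup.center G).subgroupOf (P : Subgroup G)) =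
        QuotientGroup.mk (u' * (⟨g, hg⟩ : ↥(P : Subgroup G))) := h1
    rw [QuotientGroup.eq] at h1'
    have h2 := Subgroup.mem_subgroupOf.mp h1'
    simpa [mul_assoc] using h2

theorem special_norm9 {u g : G} (hz : u⁻¹ * g⁻¹ * u * g ∈ Subgroup.center G)
    {w : G} (hw : w ∈ Subgroup.centralizer ({u} : Set G)) :
    g * w * g⁻¹ ∈ Subgroup.centralizer ({u} : Set G) := by
  rw [Subgroup.mem_centralizer_singleton_iff] at hw ⊢
  obtain ⟨z, hzdef⟩ : ∃ z : G, z = u⁻¹ * g⁻¹ * u * g := ⟨_, rfl⟩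
  rw [← hzdef] at hz
  have hzc : ∀ t : G, t * z = z * t := Subgroup.mem_center_iff.mp hz
  have e1 : g⁻¹ * u * g = u * z := by rw [hzdef]; group
  calc g * w * g⁻¹ * u = g * w * (g⁻¹ * u * g) * g⁻¹ := by group
    _ = g * w * (u * z) * g⁻¹ := by rw [e1]
    _ = g * (w * u) * z * g⁻¹ := by group
    _ = g * (u * w) * z * g⁻¹ := by rw [hw]
    _ = g * u * (w * z) * g⁻¹ := by group
    _ = g * u * (z * w) * g⁻¹ := by rw [hzc w]
    _ = g * (u * z) * w * g⁻¹ := by group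
    _ = g * (g⁻¹ * u * g) * w * g⁻¹ := by rw [e1]
    _ = u * (g * w * g⁻¹) := by group

theorem rg_orbit9 [Finite G] {N C : Subgroup G} [N.Normal] (hC : RG9 N C) (V : Subgroup G)
    (hV : ∀ g ∈ V, ∀ w ∈ C, g * w * g⁻¹ ∈ C) (t : ℕ) [Fact t.Prime] :
    (Nat.card ↥(Subgroup.center G ⊓ N)).factorization t ≤
        (Nat.card ↥(C ⊓ N)).factorization t ∧
    (V ⊓ C).relIndex V ∣ t ^ (Nat.card ↥(Subgroup.center G ⊓ N)).factorization t *
      (t ^ ((Nat.card ↥(C ⊓ N)).factorization t -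
        (Nat.card ↥(Subgroup.center G ⊓ N)).factorization t) - 1) := by
  have ht : t.Prime := Fact.out
  have hCab := rg_abel9 hC
  have hZab : ∀ a ∈ Subgroup.center G ⊓ N, ∀ b ∈ Subgroup.center G ⊓ N, a * b = b * a :=
    fun a _ b hb => (Subgroup.mem_center_iff.mp hb.1) a
  obtain ⟨X, hXC, hXp, hXcard, hXmem⟩ := ito_rpart9 (C ⊓ N) hCab t
  obtain ⟨T, hTZ, hTp, hTcard, hTmem⟩ := ito_rpart9 (Subgroup.center G ⊓ N) hZab t
  have hXr : ∀ w ∈ X, ∃ k : ℕ, w ^ t ^ k = 1 := by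
    intro w hw
    obtain ⟨k, hk⟩ := hXp ⟨w, hw⟩
    exact ⟨k, by have := congrArg Subtype.val hk; simpa using this⟩
  have hTr : ∀ w ∈ T, ∃ k : ℕ, w ^ t ^ k = 1 := by
    intro w hw
    obtain ⟨k, hk⟩ := hTp ⟨w, hw⟩
    exact ⟨k, by have := congrArg Subtype.val hk; simpa using this⟩
  have hTX : T ≤ X := fun w hw =>
    hXmem w ⟨hC.1 (hTZ hw).1, (hTZ hw).2⟩ (hTr w hw)
  have hXT : ∀ w ∈ X, w ∈ Subgroup.center G → w ∈ T := fun w hw hwZ =>
    hTmem w ⟨hwZ, (hXC hw).2⟩ (hXr w hw)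
  have hinv : ∀ g ∈ V, ∀ y ∈ ((X : Set G) \ (T : Set G)),
      g * y * g⁻¹ ∈ ((X : Set G) \ (T : Set G)) := by
    intro g hg y hy
    obtain ⟨hyX, hyT⟩ := hy
    have hyX' : y ∈ X := hyX
    refine ⟨?_, ?_⟩
    · obtain ⟨k, hk⟩ := hXr y hyX'
      refine hXmem _ ⟨hV g hg y (hXC hyX').1,
        (inferInstance : N.Normal).conj_mem y (hXC hyX').2 g⟩ ⟨k, ?_⟩
      rw [conj_pow, hk]; group
    · intro hcT
      have hcZ : g * y * g⁻¹ ∈ Subgroup.center G := (hTZ hcT).1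
      have h1 := (inferInstance : (Subgroup.center G).Normal).conj_mem _ hcZ g⁻¹
      have e : g⁻¹ * (g * y * g⁻¹) * g⁻¹⁻¹ = y := by group
      rw [e] at h1
      exact hyT (hXT y hyX' h1)
  have hstab : ∀ g ∈ V, ∀ y ∈ ((X : Set G) \ (T : Set G)),
      (g * y * g⁻¹ = y ↔ g ∈ V ⊓ C) := by
    intro g hg y hy
    obtain ⟨hyX, hyT⟩ := hy
    have hyX' : y ∈ X := hyX
    have hyZ : y ∉ Subgroup.center G := fun h => hyT (hXT y hyX' h)
    have hgood := hC.2 y (hXC hyX').2 (hXC hyX').1 hyZ g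
    constructor
    · intro h
      have h1 : g * y = y * g := mul_inv_eq_iff_eq_mul.mp h
      exact ⟨hg, hgood.mp h1⟩
    · intro h
      exact mul_inv_eq_iff_eq_mul.mpr (hgood.mpr h.2)
  have horb := orbit_dvd9 V (V ⊓ C) ((X : Set G) \ (T : Set G)) hinv hstab
  have hYcard : ((X : Set G) \ (T : Set G)).ncard = Nat.card X - Nat.card T := by
    rw [Set.ncard_diff (show (T : Set G) ⊆ (X : Set G) from hTX)]
    rw [← Nat.card_coe_set_eq, ← Nat.card_coe_set_eq]
    rfl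
  obtain ⟨α, hα⟩ : ∃ α : ℕ, (Nat.card ↥(C ⊓ N)).factorization t = α := ⟨_, rfl⟩
  obtain ⟨β, hβ⟩ : ∃ β : ℕ, (Nat.card ↥(Subgroup.center G ⊓ N)).factorization t = β :=
    ⟨_, rfl⟩
  rw [hα] at hXcard
  rw [hβ] at hTcard
  have hβα : β ≤ α := by
    have h1 : Nat.card T ≤ Nat.card X := Subgroup.card_le_of_le hTX
    rw [hTcard, hXcard] at h1
    exact (Nat.pow_le_pow_iff_right ht.one_lt).mp h1
  have hY2 : ((X : Set G) \ (T : Set G)).ncard = t ^ β * (t ^ (α - β) - 1) := by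
    rw [hYcard, hXcard, hTcard, Nat.mul_sub, mul_one, ← pow_add, Nat.add_sub_of_le hβα]
  rw [hY2] at horb
  rw [hα, hβ]
  exact ⟨hβα, horb⟩

theorem sylow_relindex9 [Finite G] {p : ℕ} [Fact p.Prime] (P : Sylow p G) (C : Subgroup G) :
    ∃ γ : ℕ, ((P : Subgroup G) ⊓ C).relIndex (P : Subgroup G) = p ^ γ ∧
      C.index.factorization p ≤ γ := by
  have hp : p.Prime := Fact.out
  have hS : (P : Subgroup G) ⊓ C ≤ (P : Subgroup G) := inf_le_left
  have hPc : Nat.card ↥(P : Subgroup G) = p ^ (Nat.card G).factorization p :=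
    P.card_eq_multiplicity
  obtain ⟨γ, -, hγ⟩ := (Nat.dvd_prime_pow hp).1
    (show ((P : Subgroup G) ⊓ C).relIndex (P : Subgroup G) ∣
        p ^ (Nat.card G).factorization p from by
      rw [← hPc]
      exact Subgroup.relIndex_dvd_card (H := _) (K := (P : Subgroup G)))
  refine ⟨γ, hγ, ?_⟩
  have h1 := Subgroup.card_mul_index
    (H := ((P : Subgroup G) ⊓ C).subgroupOf (P : Subgroup G))
  have h2 : Nat.card ↥(((P : Subgroup G) ⊓ C).subgroupOf (P : Subgroup G)) =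
      Nat.card ↥((P : Subgroup G) ⊓ C) :=
    Nat.card_congr (Subgroup.subgroupOfEquivOfLe hS).toEquiv
  have h3 : (((P : Subgroup G) ⊓ C).subgroupOf (P : Subgroup G)).index = p ^ γ := hγ
  rw [h2, h3] at h1
  have hSp : IsPGroup p ↥((P : Subgroup G) ⊓ C) := P.2.to_le hS
  obtain ⟨σ, hσ⟩ := IsPGroup.iff_card.mp hSp
  have hSC : Nat.card ↥((P : Subgroup G) ⊓ C) ∣ Nat.card C :=
    Subgroup.card_dvd_of_le inf_le_right
  rw [hσ] at hSC h1
  have hσle : σ ≤ (Nat.card C).factorization p :=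
    (Nat.Prime.pow_dvd_iff_le_factorization hp Nat.card_pos.ne').mp hSC
  rw [hPc, ← pow_add] at h1
  have h4 : σ + γ = (Nat.card G).factorization p := Nat.pow_right_injective hp.two_le h1
  have h5 : Nat.card C * C.index = Nat.card G := Subgroup.card_mul_index C
  have hn0 : C.index ≠ 0 := Subgroup.index_ne_zero_of_finite
  have h6 : (Nat.card G).factorization p =
      (Nat.card C).factorization p + C.index.factorization p := by
    rw [← h5, Nat.factorization_mul Nat.card_pos.ne' hn0, Finsupp.add_apply]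
  omega

theorem rg_pw9 [Finite G] {N C : Subgroup G} [N.Normal] (hC : RG9 N C)
    {p : ℕ} [Fact p.Prime] (P : Sylow p G)
    (hP : ∀ g ∈ (P : Subgroup G), ∀ w ∈ C, g * w * g⁻¹ ∈ C) (t : ℕ) [Fact t.Prime]
    (hpt : p ≠ t) :
    p ^ C.index.factorization p ∣ t ^ ((Nat.card ↥(C ⊓ N)).factorization t -
        (Nat.card ↥(Subgroup.center G ⊓ N)).factorization t) - 1 := by
  have hp : p.Prime := Fact.out
  have ht : t.Prime := Fact.out
  obtain ⟨-, horb⟩ := rg_orbit9 hC (P : Subgroup G) hP t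
  obtain ⟨γ, hγ, hle⟩ := sylow_relindex9 P C
  rw [hγ] at horb
  have hcop : (p ^ γ).Coprime (t ^ (Nat.card ↥(Subgroup.center G ⊓ N)).factorization t) :=
    Nat.Coprime.pow _ _ ((Nat.coprime_primes hp ht).mpr hpt)
  exact (pow_dvd_pow p hle).trans (hcop.dvd_of_dvd_mul_left horb)

theorem rs_sigma_aux9 [Finite G] {N : Subgroup G} {r : ℕ} [Fact r.Prime]
    (hrN : ∀ g : G, (∃ k : ℕ, g ^ r ^ k = 1) → g ∈ N) (C : Subgroup G) :
    (Nat.card ↥(C ⊓ N)).factorization r = (Nat.card C).factorization r := by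
  have hr : r.Prime := Fact.out
  obtain ⟨R⟩ : Nonempty (Sylow r ↥C) := inferInstance
  have hle : (R : Subgroup ↥C).map C.subtype ≤ C ⊓ N := by
    intro w hw
    obtain ⟨w', hw', rfl⟩ := Subgroup.mem_map.mp hw
    refine ⟨w'.2, hrN _ ?_⟩
    obtain ⟨k, hk⟩ := R.2 ⟨w', hw'⟩
    refine ⟨k, ?_⟩
    have := congrArg (fun z : ↥(R : Subgroup ↥C) => ((z : ↥C) : G)) hk
    simpa using this
  have hcard : Nat.card ↥((R : Subgroup ↥C).map C.subtype) =
      r ^ (Nat.card C).factorization r := by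
    rw [Subgroup.card_map_of_injective (Subgroup.subtype_injective _)]
    exact R.card_eq_multiplicity
  have h1 : r ^ (Nat.card C).factorization r ∣ Nat.card ↥(C ⊓ N) := by
    rw [← hcard]; exact Subgroup.card_dvd_of_le hle
  have h2 : Nat.card ↥(C ⊓ N) ∣ Nat.card C := Subgroup.card_dvd_of_le inf_le_left
  have h3 : (Nat.card C).factorization r ≤ (Nat.card ↥(C ⊓ N)).factorization r :=
    (Nat.Prime.pow_dvd_iff_le_factorization hr Nat.card_pos.ne').mp h1
  have h4 : (Nat.card ↥(C ⊓ N)).factorization r ≤ (Nat.card C).factorization r :=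
    (Nat.factorization_le_iff_dvd Nat.card_pos.ne' Nat.card_pos.ne').mpr h2 r
  omega

theorem rs_sigma9 [Finite G] {N : Subgroup G} {r : ℕ} [Fact r.Prime]
    (hrN : ∀ g : G, (∃ k : ℕ, g ^ r ^ k = 1) → g ∈ N) (C₁ C₂ : Subgroup G)
    (h : C₁.index = C₂.index) :
    (Nat.card ↥(C₁ ⊓ N)).factorization r = (Nat.card ↥(C₂ ⊓ N)).factorization r := by
  rw [rs_sigma_aux9 hrN C₁, rs_sigma_aux9 hrN C₂]
  have h1 := Subgroup.card_mul_index C₁
  have h2 := Subgroup.card_mul_index C₂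
  rw [h] at h1
  have hn : 0 < C₂.index := Nat.pos_of_ne_zero Subgroup.index_ne_zero_of_finite
  rw [Nat.eq_of_mul_eq_mul_right hn (h1.trans h2.symm)]

theorem rs_arith9 {n q r eq er : ℕ} (hn : 0 < n) (hq : q.Prime) (hr : r.Prime)
    (heq1 : 1 ≤ eq) (her1 : 1 ≤ er)
    (hA : r ^ n.factorization r ∣ q ^ eq - 1)
    (hB : ∀ s : ℕ, s.Prime → s ≠ r → s ^ n.factorization s ∣ r ^ er - 1) :
    n < q ^ eq * r ^ er := by
  have hn0 : n ≠ 0 := by omega
  have hB' : n / r ^ n.factorization r ∣ r ^ er - 1 := by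
    rw [Nat.dvd_iff_prime_pow_dvd_dvd]
    intro s t hs hst
    by_cases ht : t = 0
    · rw [ht, pow_zero]; exact one_dvd _
    · have hsr : s ≠ r := by
        intro hsr'
        rw [hsr'] at hst
        exact Nat.not_dvd_ordCompl hr hn0 ((dvd_pow_self r ht).trans hst)
      have hst' : s ^ t ∣ n := hst.trans (Nat.div_dvd_of_dvd (Nat.ordProj_dvd n r))
      have hle : t ≤ n.factorization s :=
        (Nat.Prime.pow_dvd_iff_le_factorization hs hn0).mp hst'
      exact (pow_dvd_pow s hle).trans (hB s hs hsr)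
  have hqe : 2 ≤ q ^ eq := by
    calc 2 ≤ q := hq.two_le
      _ = q ^ 1 := (pow_one q).symm
      _ ≤ q ^ eq := Nat.pow_le_pow_right hq.pos heq1
  have hre : 2 ≤ r ^ er := by
    calc 2 ≤ r := hr.two_le
      _ = r ^ 1 := (pow_one r).symm
      _ ≤ r ^ er := Nat.pow_le_pow_right hr.pos her1
  have hAle : r ^ n.factorization r ≤ q ^ eq - 1 := Nat.le_of_dvd (by omega) hA
  have hBle : n / r ^ n.factorization r ≤ r ^ er - 1 := Nat.le_of_dvd (by omega) hB'
  have hnfac : r ^ n.factorization r * (n / r ^ n.factorization r) = n :=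
    Nat.ordProj_mul_ordCompl_eq_self n r
  calc n = r ^ n.factorization r * (n / r ^ n.factorization r) := hnfac.symm
    _ ≤ (q ^ eq - 1) * (r ^ er - 1) := Nat.mul_le_mul hAle hBle
    _ < q ^ eq * r ^ er := by
      have h1 : q ^ eq - 1 < q ^ eq := by omega
      have h2 : r ^ er - 1 < r ^ er := by omega
      exact Nat.mul_lt_mul'' h1 h2

theorem rg_index_ge9 [Finite G] {N C : Subgroup G} (hZC : Subgroup.center G ≤ C)
    {q r : ℕ} (hq : q.Prime) (hr : r.Prime) (hqr : q ≠ r) :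
    q ^ ((Nat.card ↥(C ⊓ N)).factorization q -
        (Nat.card ↥(Subgroup.center G ⊓ N)).factorization q) *
      r ^ ((Nat.card ↥(C ⊓ N)).factorization r -
        (Nat.card ↥(Subgroup.center G ⊓ N)).factorization r)
      ≤ (Subgroup.center G ⊓ N).relIndex (C ⊓ N) := by
  have hle : Subgroup.center G ⊓ N ≤ C ⊓ N := inf_le_inf_right N hZC
  have h1 := Subgroup.relIndex_mul_relIndex ⊥ (Subgroup.center G ⊓ N) (C ⊓ N) bot_le hle
  rw [Subgroup.relIndex_bot_left, Subgroup.relIndex_bot_left] at h1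
  obtain ⟨cZ, hcZ⟩ : ∃ cZ : ℕ, Nat.card ↥(Subgroup.center G ⊓ N) = cZ := ⟨_, rfl⟩
  obtain ⟨cC, hcC⟩ : ∃ cC : ℕ, Nat.card ↥(C ⊓ N) = cC := ⟨_, rfl⟩
  obtain ⟨I, hI⟩ : ∃ I : ℕ, (Subgroup.center G ⊓ N).relIndex (C ⊓ N) = I := ⟨_, rfl⟩
  rw [hcZ, hcC, hI] at h1
  rw [hcZ, hcC, hI]
  have hcZpos : 0 < cZ := by rw [← hcZ]; exact Nat.card_pos
  have hcCpos : 0 < cC := by rw [← hcC]; exact Nat.card_pos
  have hIpos : 0 < I := by
    rcases Nat.eq_zero_or_pos I with h | h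
    · rw [h, mul_zero] at h1; omega
    · exact h
  have hfac : ∀ s : ℕ, cC.factorization s - cZ.factorization s = I.factorization s := by
    intro s
    rw [← h1, Nat.factorization_mul hcZpos.ne' hIpos.ne', Finsupp.add_apply]
    omega
  rw [hfac q, hfac r]
  have hdq : q ^ I.factorization q ∣ I := Nat.ordProj_dvd I q
  have hdr : r ^ I.factorization r ∣ I := Nat.ordProj_dvd I r
  have hcop : (q ^ I.factorization q).Coprime (r ^ I.factorization r) :=
    Nat.Coprime.pow _ _ ((Nat.coprime_primes hq hr).mpr hqr)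
  exact Nat.le_of_dvd hIpos (Nat.Coprime.mul_dvd_of_dvd_of_dvd hcop hdq hdr)

theorem rg_fact_lt9 [Finite G] {N C : Subgroup G} (hC : RG9 N C) (t : ℕ) [Fact t.Prime]
    {u : G} (huC : u ∈ C) (huN : u ∈ N) (hu : u ∉ Subgroup.center G) {i : ℕ}
    (huo : orderOf u = t ^ i) :
    (Nat.card ↥(Subgroup.center G ⊓ N)).factorization t <
      (Nat.card ↥(C ⊓ N)).factorization t := by
  have ht : t.Prime := Fact.out
  have hCab := rg_abel9 hC
  have hZab : ∀ a ∈ Subgroup.center G ⊓ N, ∀ b ∈ Subgroup.center G ⊓ N, a * b = b * a :=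
    fun a _ b hb => (Subgroup.mem_center_iff.mp hb.1) a
  obtain ⟨X, hXC, hXp, hXcard, hXmem⟩ := ito_rpart9 (C ⊓ N) hCab t
  obtain ⟨T, hTZ, hTp, hTcard, hTmem⟩ := ito_rpart9 (Subgroup.center G ⊓ N) hZab t
  have hTX : T ≤ X := by
    intro w hw
    obtain ⟨k, hk⟩ := hTp ⟨w, hw⟩
    refine hXmem w ⟨hC.1 (hTZ hw).1, (hTZ hw).2⟩ ⟨k, ?_⟩
    have := congrArg Subtype.val hk
    simpa using this
  have huX : u ∈ X := by
    refine hXmem u ⟨huC, huN⟩ ⟨i, ?_⟩
    rw [← huo]; exact pow_orderOf_eq_one u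
  have hlt : Nat.card T < Nat.card X := by
    by_contra hcon
    push_neg at hcon
    have hEq : T = X := Subgroup.eq_of_le_of_card_ge hTX hcon
    apply hu
    have huT : u ∈ T := by rw [hEq]; exact huX
    exact (hTZ huT).1
  rw [hTcard, hXcard] at hlt
  exact (Nat.pow_lt_pow_iff_right ht.one_lt).mp hlt

theorem rg_norm_of_mem9 {N C : Subgroup G} [N.Normal] (hC : RG9 N C) {x : G} (hxC : x ∈ C)
    (hxN : x ∈ N) (hxZ : x ∉ Subgroup.center G) {h : G} (hh : h * x * h⁻¹ ∈ C) :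
    ∀ w ∈ C, h * w * h⁻¹ ∈ C := by
  intro w hw
  have hwx : w * x = x * w := (hC.2 x hxN hxC hxZ w).mpr hw
  have hcN : h * x * h⁻¹ ∈ N := (inferInstance : N.Normal).conj_mem x hxN h
  have hcZ : h * x * h⁻¹ ∉ Subgroup.center G := by
    intro hc
    have h1 := (inferInstance : (Subgroup.center G).Normal).conj_mem _ hc h⁻¹
    have e : h⁻¹ * (h * x * h⁻¹) * h⁻¹⁻¹ = x := by group
    rw [e] at h1
    exact hxZ h1
  refine (hC.2 (h * x * h⁻¹) hcN hh hcZ (h * w * h⁻¹)).mp ?_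
  calc h * w * h⁻¹ * (h * x * h⁻¹) = h * (w * x) * h⁻¹ := by group
    _ = h * (x * w) * h⁻¹ := by rw [hwx]
    _ = h * x * h⁻¹ * (h * w * h⁻¹) := by group

theorem relIndex_dvd_index_normal9 [Finite G] (C N : Subgroup G) [N.Normal] :
    C.relIndex N ∣ C.index := by
  have h1 : N.relIndex (C ⊔ N) = N.relIndex C := Subgroup.relIndex_sup_right C N
  have hN : Nat.card N * N.relIndex (C ⊔ N) = Nat.card ↥(C ⊔ N) := by
    have := Subgroup.relIndex_mul_relIndex ⊥ N (C ⊔ N) bot_le le_sup_right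
    rwa [Subgroup.relIndex_bot_left, Subgroup.relIndex_bot_left] at this
  have hC : Nat.card C * C.relIndex (C ⊔ N) = Nat.card ↥(C ⊔ N) := by
    have := Subgroup.relIndex_mul_relIndex ⊥ C (C ⊔ N) bot_le le_sup_left
    rwa [Subgroup.relIndex_bot_left, Subgroup.relIndex_bot_left] at this
  have hI1 : Nat.card ↥(C ⊓ N) * C.relIndex N = Nat.card N := by
    have := Subgroup.relIndex_mul_relIndex ⊥ (C ⊓ N) N bot_le inf_le_right
    rwa [Subgroup.relIndex_bot_left, Subgroup.relIndex_bot_left,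
      Subgroup.inf_relIndex_right] at this
  have hI2 : Nat.card ↥(C ⊓ N) * N.relIndex C = Nat.card C := by
    have := Subgroup.relIndex_mul_relIndex ⊥ (C ⊓ N) C bot_le inf_le_left
    rwa [Subgroup.relIndex_bot_left, Subgroup.relIndex_bot_left,
      Subgroup.inf_relIndex_left] at this
  have hEq : C.relIndex (C ⊔ N) = C.relIndex N := by
    have hpos : 0 < Nat.card C := Nat.card_pos
    have e1 : Nat.card C * C.relIndex (C ⊔ N) = Nat.card C * C.relIndex N := by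
      rw [hC, ← hN, h1, ← hI1, ← hI2]; ring
    exact Nat.eq_of_mul_eq_mul_left hpos e1
  rw [← hEq]
  exact Subgroup.relIndex_dvd_index_of_le le_sup_left

theorem rs_caseI9 [Finite G] {N : Subgroup G} {m r : ℕ} [Fact r.Prime] (S : RS9 N m r)
    (hnab : ¬ ∀ a ∈ N, ∀ b ∈ N, a * b = b * a)
    {y : G} (hyN : y ∈ N) (hyZ : y ∉ Subgroup.center G) {q j : ℕ} (hq : q.Prime) (hqr : q ≠ r)
    (hyo : orderOf y = q ^ j) (R₁ : Sylow r G)
    (hR₁ : ∀ g ∈ (R₁ : Subgroup G), ∀ w ∈ Subgroup.centralizer ({y} : Set G),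
      g * w * g⁻¹ ∈ Subgroup.centralizer ({y} : Set G)) : False := by
  have hr : r.Prime := Fact.out
  haveI : Fact q.Prime := ⟨hq⟩
  have hcopy : (orderOf y).Coprime r := by
    rw [hyo]; exact Nat.Coprime.pow_left _ ((Nat.coprime_primes hq hr).mpr hqr)
  have hG := rs_good9 S hyN hyZ hcopy
  obtain ⟨x, hxN, hxZ, ⟨i, hxo⟩, hxy⟩ := rs_exists_r9 S hyN hyZ
  have S' := S
  obtain ⟨hT, hrN, -, hnor⟩ := S
  haveI := hnor
  obtain ⟨C, hCdef⟩ : ∃ C : Subgroup G, C = Subgroup.centralizer ({y} : Set G) := ⟨_, rfl⟩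
  rw [← hCdef] at hG hR₁
  have hidx : C.index = m := by rw [hCdef]; exact hT y hyN hyZ
  have hyC : y ∈ C := by rw [hCdef]; exact Subgroup.mem_centralizer_singleton_iff.mpr rfl
  have hxC : x ∈ C := by rw [hCdef]; exact Subgroup.mem_centralizer_singleton_iff.mpr hxy
  have hm0 : 0 < m := by
    rw [← hidx]; exact Nat.pos_of_ne_zero Subgroup.index_ne_zero_of_finite
  have hEq := rg_fact_lt9 hG q hyC hyN hyZ hyo
  have hEr := rg_fact_lt9 hG r hxC hxN hxZ hxo
  obtain ⟨eq, heq⟩ : ∃ eq : ℕ, (Nat.card ↥(C ⊓ N)).factorization q -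
      (Nat.card ↥(Subgroup.center G ⊓ N)).factorization q = eq := ⟨_, rfl⟩
  obtain ⟨er, her⟩ : ∃ er : ℕ, (Nat.card ↥(C ⊓ N)).factorization r -
      (Nat.card ↥(Subgroup.center G ⊓ N)).factorization r = er := ⟨_, rfl⟩
  have heq1 : 1 ≤ eq := by omega
  have her1 : 1 ≤ er := by omega
  have hIge := rg_index_ge9 (N := N) hG.1 hq hr hqr
  rw [heq, her] at hIge
  -- (I.1)
  have h1 : r ^ m.factorization r ∣ q ^ eq - 1 := by
    have := rg_pw9 hG R₁ hR₁ q (Ne.symm hqr)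
    rwa [hidx, heq] at this
  have hpw : ∀ (s : ℕ), s.Prime → s ≠ r → ∀ (C' : Subgroup G), RG9 N C' → C'.index = m →
      ∀ P : Sylow s G, (∀ g ∈ (P : Subgroup G), ∀ w ∈ C', g * w * g⁻¹ ∈ C') →
      s ^ m.factorization s ∣ r ^ er - 1 := by
    intro s hs hsr C' hG' hidx' P hP
    haveI : Fact s.Prime := ⟨hs⟩
    have := rg_pw9 hG' P hP r hsr
    rw [hidx', rs_sigma9 hrN C' C (hidx'.trans hidx.symm), her] at this
    exact this
  -- (I.2)
  obtain ⟨aC, haC⟩ : ∃ aC : ℕ, C.relIndex N = aC := ⟨_, rfl⟩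
  have haCm : aC ∣ m := by
    rw [← haC, ← hidx]
    exact relIndex_dvd_index_normal9 C N
  have haC0 : aC ≠ 0 := fun h => by
    rw [h] at haCm; exact hm0.ne' (Nat.eq_zero_of_zero_dvd haCm)
  have hd2 : Nat.card ↥(C ⊓ N) * aC = Nat.card N := by
    rw [← haC]
    have := Subgroup.relIndex_mul_relIndex ⊥ (C ⊓ N) N bot_le inf_le_right
    rwa [Subgroup.relIndex_bot_left, Subgroup.relIndex_bot_left,
      Subgroup.inf_relIndex_right] at this
  have h2 : ∀ s : ℕ, s.Prime → s ≠ r → s ^ aC.factorization s ∣ r ^ er - 1 := by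
    intro s hs hsr
    haveI : Fact s.Prime := ⟨hs⟩
    by_cases hsd : s ∣ aC
    swap
    · rw [Nat.factorization_eq_zero_of_not_dvd hsd, pow_zero]; exact one_dvd _
    have hex : ∃ u ∈ N, u ∉ Subgroup.center G ∧ ∃ k : ℕ, u ^ s ^ k = 1 := by
      by_contra hcon
      obtain ⟨Q⟩ : Nonempty (Sylow s ↥N) := inferInstance
      have hle : (Q : Subgroup ↥N).map N.subtype ≤ C ⊓ N := by
        intro w hw
        obtain ⟨w', hw', rfl⟩ := Subgroup.mem_map.mp hw
        obtain ⟨k, hk⟩ := Q.2 ⟨w', hw'⟩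
        have hk' : ((w' : ↥N) : G) ^ s ^ k = 1 := by
          have := congrArg (fun z : ↥(Q : Subgroup ↥N) => ((z : ↥N) : G)) hk
          simpa using this
        have hZ : ((w' : ↥N) : G) ∈ Subgroup.center G := by
          by_contra hnz
          exact hcon ⟨_, w'.2, hnz, k, hk'⟩
        exact ⟨hG.1 hZ, w'.2⟩
      have hcard : Nat.card ↥((Q : Subgroup ↥N).map N.subtype) =
          s ^ (Nat.card N).factorization s := by
        rw [Subgroup.card_map_of_injective (Subgroup.subtype_injective _)]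
        exact Q.card_eq_multiplicity
      have hd1 : s ^ (Nat.card N).factorization s ∣ Nat.card ↥(C ⊓ N) := by
        rw [← hcard]; exact Subgroup.card_dvd_of_le hle
      have hf : (Nat.card N).factorization s =
          (Nat.card ↥(C ⊓ N)).factorization s + aC.factorization s := by
        rw [← hd2, Nat.factorization_mul Nat.card_pos.ne' haC0, Finsupp.add_apply]
      have hf2 : (Nat.card N).factorization s ≤ (Nat.card ↥(C ⊓ N)).factorization s :=
        (Nat.Prime.pow_dvd_iff_le_factorization hs Nat.card_pos.ne').mp hd1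
      have hf4 : 1 ≤ aC.factorization s :=
        (Nat.Prime.dvd_iff_one_le_factorization hs haC0).mp hsd
      omega
    obtain ⟨u, huN, huZ, k, huk⟩ := hex
    have hpz : IsPGroup s (Subgroup.zpowers u) := by
      obtain ⟨j', -, hj'⟩ := (Nat.dvd_prime_pow hs).1 (orderOf_dvd_of_pow_eq_one huk)
      exact IsPGroup.of_card (by rw [Nat.card_zpowers]; exact hj')
    obtain ⟨P, hP⟩ := hpz.exists_le_sylow
    obtain ⟨v, hvP, hvN, hvZ, hvc⟩ :=
      rs_special9 N P ⟨u, hP (Subgroup.mem_zpowers u), huN, huZ⟩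
    obtain ⟨i', hvo⟩ : ∃ i' : ℕ, orderOf v = s ^ i' := by
      obtain ⟨k', hk'⟩ := P.2 ⟨v, hvP⟩
      have hk'' : v ^ s ^ k' = 1 := by
        have := congrArg Subtype.val hk'
        simpa using this
      obtain ⟨i', -, hi'⟩ := (Nat.dvd_prime_pow hs).1 (orderOf_dvd_of_pow_eq_one hk'')
      exact ⟨i', hi'⟩
    have hcopv : (orderOf v).Coprime r := by
      rw [hvo]; exact Nat.Coprime.pow_left _ ((Nat.coprime_primes hs hr).mpr hsr)
    have hGv := rs_good9 S' hvN hvZ hcopv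
    have h3 := hpw s hs hsr _ hGv (hT v hvN hvZ) P
      (fun g hg w hw => special_norm9 (hvc g hg) hw)
    have h4 : aC.factorization s ≤ m.factorization s :=
      (Nat.factorization_le_iff_dvd haC0 hm0.ne').mpr haCm s
    exact (pow_dvd_pow s h4).trans h3
  -- (I.3)
  have h1' : r ^ aC.factorization r ∣ q ^ eq - 1 :=
    (pow_dvd_pow r ((Nat.factorization_le_iff_dvd haC0 hm0.ne').mpr haCm r)).trans h1
  have h3 : aC < q ^ eq * r ^ er :=
    rs_arith9 (Nat.pos_of_ne_zero haC0) hq hr heq1 her1 h1' h2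
  -- (I.4)
  have h4 : ∀ n ∈ N, n * y * n⁻¹ ∈ C := by
    by_contra hcon
    push_neg at hcon
    obtain ⟨n₀, hn₀N, hn₀⟩ := hcon
    obtain ⟨Ξ, hΞ⟩ : ∃ Ξ : Set G, Ξ = {z : G | (∃ n ∈ N, z = n * y * n⁻¹) ∧ z ∉ C} :=
      ⟨_, rfl⟩
    have hinv : ∀ g ∈ C ⊓ N, ∀ z ∈ Ξ, g * z * g⁻¹ ∈ Ξ := by
      intro g hg z hz
      rw [hΞ] at hz ⊢
      obtain ⟨⟨n, hnN, rfl⟩, hzC⟩ := hz
      refine ⟨⟨g * n, N.mul_mem hg.2 hnN, by group⟩, ?_⟩
      intro hc
      apply hzC
      have h5 := C.mul_mem (C.mul_mem (C.inv_mem hg.1) hc) hg.1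
      have e : g⁻¹ * (g * (n * y * n⁻¹) * g⁻¹) * g = n * y * n⁻¹ := by group
      rwa [e] at h5
    have hstab : ∀ g ∈ C ⊓ N, ∀ z ∈ Ξ,
        (g * z * g⁻¹ = z ↔ g ∈ Subgroup.center G ⊓ N) := by
      intro g hg z hz
      rw [hΞ] at hz
      obtain ⟨-, hzC⟩ := hz
      constructor
      · intro h
        have h5 : g * z = z * g := mul_inv_eq_iff_eq_mul.mp h
        refine ⟨?_, hg.2⟩
        by_contra hgZ
        exact hzC ((hG.2 g hg.2 hg.1 hgZ z).mp h5.symm)
      · intro h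
        have h5 : z * g = g * z := (Subgroup.mem_center_iff.mp h.1) z
        exact mul_inv_eq_iff_eq_mul.mpr h5.symm
    have horb := orbit_dvd9 (C ⊓ N) (Subgroup.center G ⊓ N) Ξ hinv hstab
    have hsub : Ξ ⊆ {z : G | ∃ h ∈ N, z = h * y * h⁻¹} := by
      intro z hz
      rw [hΞ] at hz
      exact hz.1
    have hcard := orbit_card9 N y
    rw [← hCdef, haC] at hcard
    have hle1 : Ξ.ncard ≤ aC := by
      rw [← hcard]
      exact Set.ncard_le_ncard hsub (Set.toFinite _)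
    have hpos : 0 < Ξ.ncard := by
      rw [Set.ncard_pos (Set.toFinite _)]
      exact ⟨n₀ * y * n₀⁻¹, by rw [hΞ]; exact ⟨⟨n₀, hn₀N, rfl⟩, hn₀⟩⟩
    have hle2 := Nat.le_of_dvd hpos horb
    exact absurd (lt_of_lt_of_le h3 (hIge.trans (hle2.trans hle1))) (lt_irrefl _)
  -- (I.5)
  have hNnorm : ∀ n ∈ N, ∀ w ∈ C, n * w * n⁻¹ ∈ C :=
    fun n hn => rg_norm_of_mem9 hG hyC hyN hyZ (h4 n hn)
  have hx'all : ∀ g : G, g * x * g⁻¹ ∈ C := by
    intro g
    obtain ⟨x', hx'⟩ : ∃ x' : G, x' = g * x * g⁻¹ := ⟨_, rfl⟩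
    rw [← hx']
    have hx'N : x' ∈ N := by rw [hx']; exact hnor.conj_mem x hxN g
    have hx'pow : x' ^ r ^ i = 1 := by
      rw [hx', conj_pow, ← hxo, pow_orderOf_eq_one]; group
    have hA : (y * x' * y⁻¹) * x' = x' * (y * x' * y⁻¹) := by
      have hn₁ : g⁻¹ * y * g ∈ N := by
        have := hnor.conj_mem y hyN g⁻¹
        rwa [inv_inv] at this
      have h5 := hNnorm _ hn₁ x hxC
      have h5N : (g⁻¹ * y * g) * x * (g⁻¹ * y * g)⁻¹ ∈ N := hnor.conj_mem x hxN _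
      have h6 := rg_abel9 hG _ ⟨h5, h5N⟩ x ⟨hxC, hxN⟩
      rw [hx']
      calc y * (g * x * g⁻¹) * y⁻¹ * (g * x * g⁻¹)
          = g * ((g⁻¹ * y * g) * x * (g⁻¹ * y * g)⁻¹ * x) * g⁻¹ := by group
        _ = g * (x * ((g⁻¹ * y * g) * x * (g⁻¹ * y * g)⁻¹)) * g⁻¹ := by rw [h6]
        _ = g * x * g⁻¹ * (y * (g * x * g⁻¹) * y⁻¹) := by group
    have hB : (x' * y * x'⁻¹) * y = y * (x' * y * x'⁻¹) := by
      have h5 := h4 x' hx'N
      rw [hCdef] at h5
      exact Subgroup.mem_centralizer_singleton_iff.mp h5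
    obtain ⟨c, hc⟩ : ∃ c : G, c = y * x' * y⁻¹ * x'⁻¹ := ⟨_, rfl⟩
    have hcx : c * x' = x' * c := by
      rw [hc]
      calc y * x' * y⁻¹ * x'⁻¹ * x' = (y * x' * y⁻¹ * x') * x'⁻¹ := by group
        _ = (x' * (y * x' * y⁻¹)) * x'⁻¹ := by rw [hA]
        _ = x' * (y * x' * y⁻¹ * x'⁻¹) := by group
    have hcy : c * y = y * c := by
      have hB' : (x' * y * x'⁻¹)⁻¹ * y = y * (x' * y * x'⁻¹)⁻¹ := by
        have h0 : Commute (x' * y * x'⁻¹) y := hB
        exact h0.inv_left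
      rw [hc]
      calc y * x' * y⁻¹ * x'⁻¹ * y = y * ((x' * y * x'⁻¹)⁻¹ * y) := by group
        _ = y * (y * (x' * y * x'⁻¹)⁻¹) := by rw [hB']
        _ = y * (y * x' * y⁻¹ * x'⁻¹) := by group
    have hcN : c ∈ N := by
      rw [hc]
      have h5 : x' * y⁻¹ * x'⁻¹ ∈ N := hnor.conj_mem _ (N.inv_mem hyN) x'
      have e : y * x' * y⁻¹ * x'⁻¹ = y * (x' * y⁻¹ * x'⁻¹) := by group
      rw [e]; exact N.mul_mem hyN h5
    have hcC : c ∈ C := by
      rw [hCdef]; exact Subgroup.mem_centralizer_singleton_iff.mpr hcy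
    by_cases hcZ : c ∈ Subgroup.center G
    · have hcc : ∀ t : G, t * c = c * t := Subgroup.mem_center_iff.mp hcZ
      have e1 : y * x' * y⁻¹ = c * x' := by rw [hc]; group
      have e2 : x' * y⁻¹ * x'⁻¹ = y⁻¹ * c := by rw [hc]; group
      have hc1 : c ^ r ^ i = 1 := by
        have h5 : (y * x' * y⁻¹) ^ r ^ i = 1 := by rw [conj_pow, hx'pow]; group
        rw [e1] at h5
        have h0 : Commute c x' := (hcc x').symm
        rw [h0.mul_pow, hx'pow, mul_one] at h5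
        exact h5
      have hc2 : c ^ q ^ j = 1 := by
        have hy1 : y⁻¹ ^ q ^ j = 1 := by rw [inv_pow, ← hyo, pow_orderOf_eq_one, inv_one]
        have h5 : (x' * y⁻¹ * x'⁻¹) ^ q ^ j = 1 := by rw [conj_pow, hy1]; group
        rw [e2] at h5
        have h0 : Commute y⁻¹ c := hcc y⁻¹
        rw [h0.mul_pow, hy1, one_mul] at h5
        exact h5
      have hd : orderOf c ∣ Nat.gcd (r ^ i) (q ^ j) :=
        Nat.dvd_gcd (orderOf_dvd_of_pow_eq_one hc1) (orderOf_dvd_of_pow_eq_one hc2)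
      have hg1 : Nat.gcd (r ^ i) (q ^ j) = 1 :=
        Nat.Coprime.pow _ _ ((Nat.coprime_primes hr hq).mpr (Ne.symm hqr))
      rw [hg1, Nat.dvd_one, orderOf_eq_one_iff] at hd
      rw [hCdef, Subgroup.mem_centralizer_singleton_iff]
      have h5 : y * x' * y⁻¹ * x'⁻¹ = 1 := by rw [← hc]; exact hd
      have h6 : y * x' = x' * y := mul_inv_eq_iff_eq_mul.mp (mul_inv_eq_one.mp h5)
      exact h6.symm
    · exact (hG.2 c hcN hcC hcZ x').mp hcx.symm
  have hCnor : ∀ g : G, ∀ w ∈ C, g * w * g⁻¹ ∈ C :=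
    fun g => rg_norm_of_mem9 hG hxC hxN hxZ (hx'all g)
  -- (I.6)
  have h6 : ∀ s : ℕ, s.Prime → s ≠ r → s ^ m.factorization s ∣ r ^ er - 1 := by
    intro s hs hsr
    haveI : Fact s.Prime := ⟨hs⟩
    obtain ⟨P⟩ : Nonempty (Sylow s G) := inferInstance
    exact hpw s hs hsr C hG hidx P (fun g _ w hw => hCnor g w hw)
  have h7 : m < q ^ eq * r ^ er := rs_arith9 hm0 hq hr heq1 her1 h1 h6
  -- (I.7)
  obtain ⟨g, hgN, hgC⟩ : ∃ g ∈ N, g ∉ C := by
    by_contra hcon
    push_neg at hcon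
    exact hnab (fun a ha b hb => rg_abel9 hG a ⟨hcon a ha, ha⟩ b ⟨hcon b hb, hb⟩)
  have hgZ : g ∉ Subgroup.center G := fun h => hgC (hG.1 h)
  have hinf : Subgroup.centralizer ({g} : Set G) ⊓ (C ⊓ N) ≤ Subgroup.center G ⊓ N := by
    intro w hw
    refine ⟨?_, hw.2.2⟩
    by_contra hwZ
    have hwg : w * g = g * w := Subgroup.mem_centralizer_singleton_iff.mp hw.1
    exact hgC ((hG.2 w hw.2.2 hw.2.1 hwZ g).mp hwg.symm)
  have h8 : (Subgroup.center G ⊓ N).relIndex (C ⊓ N) ∣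
      (Subgroup.centralizer ({g} : Set G)).relIndex (C ⊓ N) := by
    have := Subgroup.relIndex_dvd_of_le_left (C ⊓ N) hinf
    rwa [Subgroup.inf_relIndex_right] at this
  have h9 : (Subgroup.centralizer ({g} : Set G)).relIndex (C ⊓ N) ≤ m := by
    rw [← hT g hgN hgZ]
    have h10 := Subgroup.relIndex_le_of_le_right (H := Subgroup.centralizer ({g} : Set G))
      (K := C ⊓ N) (L := ⊤) le_top
      (by rw [Subgroup.relIndex_top_right]; exact Subgroup.index_ne_zero_of_finite)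
    rwa [Subgroup.relIndex_top_right] at h10
  have h10 : 0 < (Subgroup.centralizer ({g} : Set G)).relIndex (C ⊓ N) :=
    Nat.pos_of_ne_zero
      (show ((Subgroup.centralizer ({g} : Set G)).subgroupOf (C ⊓ N)).index ≠ 0 from
        Subgroup.index_ne_zero_of_finite)
  have h11 := Nat.le_of_dvd h10 h8
  exact absurd (lt_of_lt_of_le h7 (hIge.trans (h11.trans h9))) (lt_irrefl _)

theorem rs_caseII9 [Finite G] {N : Subgroup G} {m r : ℕ} [Fact r.Prime] (S : RS9 N m r)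
    (hI : ∀ y' ∈ N, y' ∉ Subgroup.center G → ∀ q' j' : ℕ, q'.Prime → q' ≠ r →
      orderOf y' = q' ^ j' → ∀ R₁ : Sylow r G,
      ¬ (∀ g ∈ (R₁ : Subgroup G), ∀ w ∈ Subgroup.centralizer ({y'} : Set G),
        g * w * g⁻¹ ∈ Subgroup.centralizer ({y'} : Set G)))
    {y : G} (hyN : y ∈ N) (hyZ : y ∉ Subgroup.center G) {q j : ℕ} (hq : q.Prime) (hqr : q ≠ r)
    (hyo : orderOf y = q ^ j) : False := by
  have hr : r.Prime := Fact.out
  haveI : Fact q.Prime := ⟨hq⟩
  have hcopy : (orderOf y).Coprime r := by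
    rw [hyo]; exact Nat.Coprime.pow_left _ ((Nat.coprime_primes hq hr).mpr hqr)
  have hG := rs_good9 S hyN hyZ hcopy
  obtain ⟨x, hxN, hxZ, ⟨i, hxo⟩, hxy⟩ := rs_exists_r9 S hyN hyZ
  have S' := S
  obtain ⟨hT, hrN, ⟨x₁, hx₁N, hx₁Z, j₁, hx₁o⟩, hnor⟩ := S
  haveI := hnor
  obtain ⟨C, hCdef⟩ : ∃ C : Subgroup G, C = Subgroup.centralizer ({y} : Set G) := ⟨_, rfl⟩
  rw [← hCdef] at hG
  have hidx : C.index = m := by rw [hCdef]; exact hT y hyN hyZ
  have hyC : y ∈ C := by rw [hCdef]; exact Subgroup.mem_centralizer_singleton_iff.mpr rfl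
  have hxC : x ∈ C := by rw [hCdef]; exact Subgroup.mem_centralizer_singleton_iff.mpr hxy
  have hm0 : 0 < m := by
    rw [← hidx]; exact Nat.pos_of_ne_zero Subgroup.index_ne_zero_of_finite
  have hEq := rg_fact_lt9 hG q hyC hyN hyZ hyo
  have hEr := rg_fact_lt9 hG r hxC hxN hxZ hxo
  obtain ⟨ζq, hζq⟩ : ∃ ζq : ℕ,
      (Nat.card ↥(Subgroup.center G ⊓ N)).factorization q = ζq := ⟨_, rfl⟩
  obtain ⟨ζr, hζr⟩ : ∃ ζr : ℕ,
      (Nat.card ↥(Subgroup.center G ⊓ N)).factorization r = ζr := ⟨_, rfl⟩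
  obtain ⟨αq, hαq⟩ : ∃ αq : ℕ, (Nat.card ↥(C ⊓ N)).factorization q = αq := ⟨_, rfl⟩
  obtain ⟨σ, hσ⟩ : ∃ σ : ℕ, (Nat.card ↥(C ⊓ N)).factorization r = σ := ⟨_, rfl⟩
  rw [hζq, hαq] at hEq
  rw [hζr, hσ] at hEr
  -- (II.1)
  have hpz₁ : IsPGroup r (Subgroup.zpowers x₁) :=
    IsPGroup.of_card (by rw [Nat.card_zpowers]; exact hx₁o)
  obtain ⟨R₀, hR₀⟩ := hpz₁.exists_le_sylow
  obtain ⟨x₀, hx₀R, hx₀N, hx₀Z, hx₀c⟩ :=
    rs_special9 N R₀ ⟨x₁, hR₀ (Subgroup.mem_zpowers x₁), hx₁N, hx₁Z⟩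
  obtain ⟨i₀, hx₀o⟩ : ∃ i₀ : ℕ, orderOf x₀ = r ^ i₀ := by
    obtain ⟨k', hk'⟩ := R₀.2 ⟨x₀, hx₀R⟩
    have hk'' : x₀ ^ r ^ k' = 1 := by
      have := congrArg Subtype.val hk'
      simpa using this
    obtain ⟨i', -, hi'⟩ := (Nat.dvd_prime_pow hr).1 (orderOf_dvd_of_pow_eq_one hk'')
    exact ⟨i', hi'⟩
  -- (II.2)
  have h2 : ∀ w ∈ N, w * x₀ = x₀ * w → ∀ s k : ℕ, s.Prime → s ≠ r → orderOf w = s ^ k →
      w ∈ Subgroup.center G := by
    intro w hwN hwx s k hs hsr hwo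
    by_contra hwZ
    have hcop : (orderOf w).Coprime (orderOf x₀) := by
      rw [hwo, hx₀o]; exact Nat.Coprime.pow _ _ ((Nat.coprime_primes hs hr).mpr hsr)
    have hle := rs_coprime9 hT hwN hwZ hx₀N hwx hcop
    have hge := rs_cent_eq9 hT hwN hwZ hx₀N hx₀Z hle
    refine hI w hwN hwZ s k hs hsr hwo R₀ ?_
    intro g hg a ha
    rw [Subgroup.mem_centralizer_singleton_iff] at ha ⊢
    have h5 : a ∈ Subgroup.centralizer ({x₀} : Set G) :=
      Subgroup.mem_centralizer_singleton_iff.mpr (hle a ha)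
    have h6 := special_norm9 (hx₀c g hg) h5
    exact hge _ (Subgroup.mem_centralizer_singleton_iff.mp h6)
  obtain ⟨D, hDdef⟩ : ∃ D : Subgroup G, D = Subgroup.centralizer ({x₀} : Set G) ⊓ N :=
    ⟨_, rfl⟩
  have h2a : (Nat.card ↥D).factorization q ≤ ζq := by
    obtain ⟨Q⟩ : Nonempty (Sylow q ↥D) := inferInstance
    have hle : (Q : Subgroup ↥D).map D.subtype ≤ Subgroup.center G ⊓ N := by
      intro w hw
      obtain ⟨w', hw', rfl⟩ := Subgroup.mem_map.mp hw
      obtain ⟨k, hk⟩ := Q.2 ⟨w', hw'⟩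
      have hk' : ((w' : ↥D) : G) ^ q ^ k = 1 := by
        have := congrArg (fun z : ↥(Q : Subgroup ↥D) => ((z : ↥D) : G)) hk
        simpa using this
      have hwD : ((w' : ↥D) : G) ∈ Subgroup.centralizer ({x₀} : Set G) ⊓ N := by
        rw [← hDdef]; exact w'.2
      obtain ⟨k', -, hk''⟩ := (Nat.dvd_prime_pow hq).1 (orderOf_dvd_of_pow_eq_one hk')
      exact ⟨h2 _ hwD.2 (Subgroup.mem_centralizer_singleton_iff.mp hwD.1) q k' hq hqr hk'',
        hwD.2⟩
    have hcard : Nat.card ↥((Q : Subgroup ↥D).map D.subtype) =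
        q ^ (Nat.card D).factorization q := by
      rw [Subgroup.card_map_of_injective (Subgroup.subtype_injective _)]
      exact Q.card_eq_multiplicity
    have hd1 : q ^ (Nat.card D).factorization q ∣ Nat.card ↥(Subgroup.center G ⊓ N) := by
      rw [← hcard]; exact Subgroup.card_dvd_of_le hle
    rw [← hζq]
    exact (Nat.Prime.pow_dvd_iff_le_factorization hq Nat.card_pos.ne').mp hd1
  have h2b : (Nat.card N).factorization q ≤ ζq + m.factorization q := by
    have hd2 : Nat.card ↥D * (Subgroup.centralizer ({x₀} : Set G)).relIndex N =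
        Nat.card N := by
      have := Subgroup.relIndex_mul_relIndex ⊥
        (Subgroup.centralizer ({x₀} : Set G) ⊓ N) N bot_le inf_le_right
      rw [Subgroup.relIndex_bot_left, Subgroup.relIndex_bot_left,
        Subgroup.inf_relIndex_right] at this
      rw [hDdef]; exact this
    have hdvd : (Subgroup.centralizer ({x₀} : Set G)).relIndex N ∣ m := by
      rw [← hT x₀ hx₀N hx₀Z]; exact relIndex_dvd_index_normal9 _ N
    have hne : (Subgroup.centralizer ({x₀} : Set G)).relIndex N ≠ 0 := fun h => by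
      rw [h] at hdvd; exact hm0.ne' (Nat.eq_zero_of_zero_dvd hdvd)
    have hf : (Nat.card N).factorization q = (Nat.card ↥D).factorization q +
        ((Subgroup.centralizer ({x₀} : Set G)).relIndex N).factorization q := by
      rw [← hd2, Nat.factorization_mul Nat.card_pos.ne' hne, Finsupp.add_apply]
    have hf2 : ((Subgroup.centralizer ({x₀} : Set G)).relIndex N).factorization q ≤
        m.factorization q :=
      (Nat.factorization_le_iff_dvd hne hm0.ne').mpr hdvd q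
    omega
  have h2c : αq ≤ ζq + m.factorization q := by
    have h5 : (Nat.card ↥(C ⊓ N)).factorization q ≤ (Nat.card N).factorization q :=
      (Nat.factorization_le_iff_dvd Nat.card_pos.ne' Nat.card_pos.ne').mpr
        (Subgroup.card_dvd_of_le inf_le_right) q
    rw [hαq] at h5
    omega
  -- (II.3)
  have h3 : q ^ m.factorization q ∣ r ^ (σ - ζr) - 1 := by
    have hpz : IsPGroup q (Subgroup.zpowers y) :=
      IsPGroup.of_card (by rw [Nat.card_zpowers]; exact hyo)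
    obtain ⟨P, hP⟩ := hpz.exists_le_sylow
    obtain ⟨v, hvP, hvN, hvZ, hvc⟩ :=
      rs_special9 N P ⟨y, hP (Subgroup.mem_zpowers y), hyN, hyZ⟩
    obtain ⟨i', hvo⟩ : ∃ i' : ℕ, orderOf v = q ^ i' := by
      obtain ⟨k', hk'⟩ := P.2 ⟨v, hvP⟩
      have hk'' : v ^ q ^ k' = 1 := by
        have := congrArg Subtype.val hk'
        simpa using this
      obtain ⟨i', -, hi'⟩ := (Nat.dvd_prime_pow hq).1 (orderOf_dvd_of_pow_eq_one hk'')
      exact ⟨i', hi'⟩
    have hcopv : (orderOf v).Coprime r := by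
      rw [hvo]; exact Nat.Coprime.pow_left _ ((Nat.coprime_primes hq hr).mpr hqr)
    have hGv := rs_good9 S' hvN hvZ hcopv
    have h5 := rg_pw9 hGv P (fun g hg w hw => special_norm9 (hvc g hg) hw) r hqr
    rw [hT v hvN hvZ, rs_sigma9 hrN _ C ((hT v hvN hvZ).trans hidx.symm), hσ, hζr] at h5
    exact h5
  -- (II.4)
  have hCab := rg_abel9 hG
  obtain ⟨S₀, hS₀A, hS₀p, hS₀card, hS₀mem⟩ := ito_rpart9 (C ⊓ N) hCab r
  rw [hσ] at hS₀card
  obtain ⟨R₁, hR₁⟩ := hS₀p.exists_le_sylow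
  have hxS₀ : x ∈ S₀ :=
    hS₀mem x ⟨hxC, hxN⟩ ⟨i, by rw [← hxo]; exact pow_orderOf_eq_one x⟩
  have hnormC : ∀ h : G, h * x * h⁻¹ ∈ S₀ → ∀ w ∈ C, h * w * h⁻¹ ∈ C :=
    fun h hh => rg_norm_of_mem9 hG hxC hxN hxZ (hS₀A hh).1
  have hS₀r : ∀ w ∈ S₀, ∃ k : ℕ, w ^ r ^ k = 1 := by
    intro w hw
    obtain ⟨k, hk⟩ := hS₀p ⟨w, hw⟩
    exact ⟨k, by have := congrArg Subtype.val hk; simpa using this⟩
  have hnormS : ∀ h : G, (∀ w ∈ C, h * w * h⁻¹ ∈ C) → ∀ w ∈ S₀, h * w * h⁻¹ ∈ S₀ := by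
    intro h hh w hw
    obtain ⟨k, hk⟩ := hS₀r w hw
    refine hS₀mem _ ⟨hh w (hS₀A hw).1, hnor.conj_mem w (hS₀A hw).2 h⟩ ⟨k, ?_⟩
    rw [conj_pow, hk]; group
  have hnot : ¬ ∀ g ∈ (R₁ : Subgroup G), ∀ w ∈ S₀, g * w * g⁻¹ ∈ S₀ := by
    intro hall
    refine hI y hyN hyZ q j hq hqr hyo R₁ ?_
    rw [← hCdef]
    exact fun g hg => hnormC g (hall g hg x hxS₀)
  haveI : Group.IsNilpotent ↥(R₁ : Subgroup G) := R₁.2.isNilpotent
  obtain ⟨M, hMdef⟩ : ∃ M : Subgroup ↥(R₁ : Subgroup G),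
      M = Subgroup.normalizer ((S₀.subgroupOf (R₁ : Subgroup G) :
        Subgroup ↥(R₁ : Subgroup G)) : Set ↥(R₁ : Subgroup G)) := ⟨_, rfl⟩
  have hMtop : M < ⊤ := by
    rw [lt_top_iff_ne_top]
    intro hM
    apply hnot
    intro g hg w hw
    have h5 : (⟨g, hg⟩ : ↥(R₁ : Subgroup G)) ∈ M := by rw [hM]; exact Subgroup.mem_top _
    rw [hMdef, Subgroup.mem_normalizer_iff] at h5
    have h6 := (h5 ⟨w, hR₁ hw⟩).mp (Subgroup.mem_subgroupOf.mpr hw)
    exact Subgroup.mem_subgroupOf.mp h6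
  have hNC := Group.normalizerCondition_of_isNilpotent (G := ↥(R₁ : Subgroup G)) M hMtop
  obtain ⟨g, hgNM, hgM⟩ := SetLike.exists_of_lt hNC
  have hS₀M : ∀ w (hw : w ∈ S₀), (⟨w, hR₁ hw⟩ : ↥(R₁ : Subgroup G)) ∈ M := by
    intro w hw
    rw [hMdef]
    exact Subgroup.le_normalizer (Subgroup.mem_subgroupOf.mpr hw)
  have hV1 : ∀ s ∈ S₀, ∀ w ∈ S₀,
      ((g : G) * s * (g : G)⁻¹) * w * ((g : G) * s * (g : G)⁻¹)⁻¹ ∈ S₀ := by
    intro s hs w hw
    have h5 := (Subgroup.mem_normalizer_iff.mp hgNM ⟨s, hR₁ hs⟩).mp (hS₀M s hs)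
    rw [hMdef, Subgroup.mem_normalizer_iff] at h5
    have h6 := (h5 ⟨w, hR₁ hw⟩).mp (Subgroup.mem_subgroupOf.mpr hw)
    exact Subgroup.mem_subgroupOf.mp h6
  obtain ⟨V, hVdef⟩ : ∃ V : Subgroup G, V = S₀.map (MulAut.conj (g : G)).toMonoidHom :=
    ⟨_, rfl⟩
  have hVmem : ∀ v ∈ V, ∃ s ∈ S₀, v = (g : G) * s * (g : G)⁻¹ := by
    intro v hv
    rw [hVdef] at hv
    obtain ⟨s, hs, rfl⟩ := Subgroup.mem_map.mp hv
    exact ⟨s, hs, by simp⟩
  have hVcard : Nat.card V = r ^ σ := by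
    rw [hVdef, Subgroup.card_map_of_injective (MulAut.conj (g : G)).injective]
    exact hS₀card
  have hVnorm : ∀ v ∈ V, ∀ w ∈ C, v * w * v⁻¹ ∈ C := by
    intro v hv
    obtain ⟨s, hs, rfl⟩ := hVmem v hv
    exact hnormC _ (hV1 s hs x hxS₀)
  have hVC : V ⊓ C ≤ Subgroup.center G ⊓ N := by
    intro v hv
    obtain ⟨s, hs, hvs⟩ := hVmem v hv.1
    have hsN : s ∈ N := (hS₀A hs).2
    have hsC : s ∈ C := (hS₀A hs).1
    have hvN : v ∈ N := by rw [hvs]; exact hnor.conj_mem s hsN _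
    refine ⟨?_, hvN⟩
    by_contra hvZ
    have hsZ : s ∉ Subgroup.center G := by
      intro hc
      apply hvZ
      rw [hvs]
      exact (inferInstance : (Subgroup.center G).Normal).conj_mem s hc _
    have hg1 : ∀ w ∈ C, (g : G) * w * (g : G)⁻¹ ∈ C := by
      have h5 : (g : G) * s * (g : G)⁻¹ ∈ C := by rw [← hvs]; exact hv.2
      exact rg_norm_of_mem9 hG hsC hsN hsZ h5
    have hg2 : ∀ w ∈ C, (g : G)⁻¹ * w * (g : G)⁻¹⁻¹ ∈ C := by
      have h5 : (g : G)⁻¹ * v * (g : G)⁻¹⁻¹ ∈ C := by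
        rw [hvs]
        have e : (g : G)⁻¹ * ((g : G) * s * (g : G)⁻¹) * (g : G)⁻¹⁻¹ = s := by group
        rw [e]; exact hsC
      exact rg_norm_of_mem9 hG hv.2 hvN hvZ h5
    apply hgM
    rw [hMdef, Subgroup.mem_normalizer_iff]
    intro h
    constructor
    · intro hh
      have h5 := hnormS (g : G) hg1 (h : G) (Subgroup.mem_subgroupOf.mp hh)
      exact Subgroup.mem_subgroupOf.mpr h5
    · intro hh
      have h5 := hnormS (g : G)⁻¹ hg2 _ (Subgroup.mem_subgroupOf.mp hh)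
      have e : (g : G)⁻¹ * (((g * h * g⁻¹ : ↥(R₁ : Subgroup G)) : G)) * (g : G)⁻¹⁻¹ =
          (h : G) := by
        simp [mul_assoc]
      rw [e] at h5
      exact Subgroup.mem_subgroupOf.mpr h5
  obtain ⟨-, horb⟩ := rg_orbit9 hG V hVnorm q
  rw [hζq, hαq] at horb
  have hVp : IsPGroup r V := IsPGroup.of_card hVcard
  have hVCp : IsPGroup r ↥(V ⊓ C) := hVp.to_le inf_le_left
  obtain ⟨e, he⟩ := IsPGroup.iff_card.mp hVCp
  have hele : e ≤ ζr := by
    have hd : Nat.card ↥(V ⊓ C) ∣ Nat.card ↥(Subgroup.center G ⊓ N) :=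
      Subgroup.card_dvd_of_le hVC
    rw [he] at hd
    rw [← hζr]
    exact (Nat.Prime.pow_dvd_iff_le_factorization hr Nat.card_pos.ne').mp hd
  have hrel : Nat.card ↥(V ⊓ C) * (V ⊓ C).relIndex V = Nat.card V := by
    have := Subgroup.relIndex_mul_relIndex ⊥ (V ⊓ C) V bot_le inf_le_left
    rwa [Subgroup.relIndex_bot_left, Subgroup.relIndex_bot_left] at this
  rw [he, hVcard] at hrel
  have heσ : e ≤ σ := by
    have h5 : r ^ e ∣ r ^ σ := Dvd.intro _ hrel
    exact (Nat.pow_dvd_pow_iff_le_right hr.one_lt).mp h5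
  have hrel2 : (V ⊓ C).relIndex V = r ^ (σ - e) := by
    have h5 : r ^ e * r ^ (σ - e) = r ^ σ := by rw [← pow_add, Nat.add_sub_of_le heσ]
    exact Nat.eq_of_mul_eq_mul_left (pow_pos hr.pos e) (hrel.trans h5.symm)
  rw [hrel2] at horb
  have hcop : (r ^ (σ - e)).Coprime (q ^ ζq) :=
    Nat.Coprime.pow _ _ ((Nat.coprime_primes hr hq).mpr (Ne.symm hqr))
  have h4 : r ^ (σ - e) ∣ q ^ (αq - ζq) - 1 := hcop.dvd_of_dvd_mul_left horb
  have h4' : r ^ (σ - ζr) ∣ q ^ (αq - ζq) - 1 := (pow_dvd_pow r (by omega)).trans h4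
  -- (II.5)
  have hq1 : 2 ≤ q ^ (αq - ζq) := by
    calc 2 ≤ q := hq.two_le
      _ = q ^ 1 := (pow_one q).symm
      _ ≤ q ^ (αq - ζq) := Nat.pow_le_pow_right hq.pos (by omega)
  have hr1 : 2 ≤ r ^ (σ - ζr) := by
    calc 2 ≤ r := hr.two_le
      _ = r ^ 1 := (pow_one r).symm
      _ ≤ r ^ (σ - ζr) := Nat.pow_le_pow_right hr.pos (by omega)
  have hA : r ^ (σ - ζr) ≤ q ^ (αq - ζq) - 1 := Nat.le_of_dvd (by omega) h4'
  have hB : q ^ m.factorization q ≤ r ^ (σ - ζr) - 1 := Nat.le_of_dvd (by omega) h3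
  have hC' : q ^ (αq - ζq) ≤ q ^ m.factorization q :=
    Nat.pow_le_pow_right hq.pos (by omega)
  omega

/-- Relative Ito: a normal subgroup containing a noncentral Sylow subgroup, all of whose
elements have class size `1` or `m` in `G`, is nilpotent. -/
theorem rel_ito9 [Finite G] (r : ℕ) [Fact r.Prime] (R : Sylow r G)
    (hR : ¬ (R : Subgroup G) ≤ Subgroup.center G) (N : Subgroup G) [N.Normal]
    (hRN : (R : Subgroup G) ≤ N) (m : ℕ)
    (h : ∀ x ∈ N, (Subgroup.centralizer ({x} : Set G)).index = 1 ∨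
      (Subgroup.centralizer ({x} : Set G)).index = m) : Group.IsNilpotent N := by
  have hr : r.Prime := Fact.out
  have hT : ∀ w ∈ N, w ∉ Subgroup.center G →
      (Subgroup.centralizer ({w} : Set G)).index = m := by
    intro w hw hwZ
    rcases h w hw with h1 | h1
    · exact absurd ((ito_idx_one9 w).mp h1) hwZ
    · exact h1
  have hrN : ∀ g : G, (∃ k : ℕ, g ^ r ^ k = 1) → g ∈ N := by
    intro g ⟨k, hk⟩
    have hpz : IsPGroup r (Subgroup.zpowers g) := by
      obtain ⟨j', -, hj'⟩ := (Nat.dvd_prime_pow hr).1 (orderOf_dvd_of_pow_eq_one hk)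
      exact IsPGroup.of_card (by rw [Nat.card_zpowers]; exact hj')
    obtain ⟨Q, hQ⟩ := hpz.exists_le_sylow
    obtain ⟨a, ha⟩ := MulAction.exists_smul_eq G R Q
    have hgQ : g ∈ (Q : Subgroup G) := hQ (Subgroup.mem_zpowers g)
    rw [← ha, Sylow.coe_subgroup_smul, Subgroup.mem_pointwise_smul_iff_inv_smul_mem] at hgQ
    have h2 := hRN hgQ
    have h3 := (inferInstance : N.Normal).conj_mem _ h2 a
    have e : a * ((MulAut.conj a)⁻¹ • g) * a⁻¹ = g := by
      simp [MulAut.smul_def, mul_assoc]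
    rwa [e] at h3
  obtain ⟨x₁, hx₁R, hx₁Z⟩ := SetLike.not_le_iff_exists.mp hR
  obtain ⟨k₁, hx₁o⟩ : ∃ k₁ : ℕ, orderOf x₁ = r ^ k₁ := by
    obtain ⟨k', hk'⟩ := R.2 ⟨x₁, hx₁R⟩
    have hk'' : x₁ ^ r ^ k' = 1 := by
      have := congrArg Subtype.val hk'
      simpa using this
    obtain ⟨i', -, hi'⟩ := (Nat.dvd_prime_pow hr).1 (orderOf_dvd_of_pow_eq_one hk'')
    exact ⟨i', hi'⟩
  have S : RS9 N m r := ⟨hT, hrN, ⟨x₁, hRN hx₁R, hx₁Z, k₁, hx₁o⟩, inferInstance⟩
  by_contra hnil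
  have hex : ∃ y ∈ N, y ∉ Subgroup.center G ∧
      ∃ q j : ℕ, q.Prime ∧ q ≠ r ∧ orderOf y = q ^ j := by
    by_contra hcon
    apply hnil
    haveI hZn : ((Subgroup.center G).subgroupOf N).Normal := Subgroup.normal_subgroupOf
    have hQ : IsPGroup r (↥N ⧸ (Subgroup.center G).subgroupOf N) := by
      intro gb
      obtain ⟨g, rfl⟩ := QuotientGroup.mk_surjective gb
      obtain ⟨k, t, ht, hkt⟩ :=
        Nat.exists_eq_pow_mul_and_not_dvd (orderOf_pos (g : G)).ne' r hr.ne_one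
      refine ⟨k, ?_⟩
      rw [← QuotientGroup.mk_pow, QuotientGroup.eq_one_iff, Subgroup.mem_subgroupOf]
      have hgoal : (g : G) ^ r ^ k ∈ Subgroup.center G := by
        refine mem_of_prime_pow_parts9 (Subgroup.center G) _ ((g : G) ^ r ^ k) rfl
          (orderOf_pos _) ?_
        intro e s k' hs hord
        by_contra hnz
        have hmemN : ((g : G) ^ r ^ k) ^ e ∈ N := N.pow_mem (N.pow_mem g.2 _) _
        by_cases hsr : s = r
        · have h1 : (((g : G) ^ r ^ k) ^ e) ^ t = 1 := by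
            rw [← pow_mul, ← pow_mul, show r ^ k * (e * t) = (r ^ k * t) * e by ring, pow_mul,
              ← hkt, pow_orderOf_eq_one, one_pow]
          have h2 : orderOf (((g : G) ^ r ^ k) ^ e) ∣ t := orderOf_dvd_of_pow_eq_one h1
          rw [hord, hsr] at h2
          have hk0 : k' = 0 := by
            by_contra hk0
            exact ht ((dvd_pow_self r hk0).trans h2)
          rw [hk0, pow_zero, orderOf_eq_one_iff] at hord
          apply hnz
          rw [hord]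
          exact Subgroup.one_mem _
        · exact hcon ⟨_, hmemN, hnz, s, k', hs, hsr, hord⟩
      simpa using hgoal
    haveI : Group.IsNilpotent (↥N ⧸ (Subgroup.center G).subgroupOf N) := hQ.isNilpotent
    refine Subgroup.isNilpotent_of_ker_le_center
      (QuotientGroup.mk' ((Subgroup.center G).subgroupOf N)) ?_
    rw [QuotientGroup.ker_mk']
    intro a ha
    rw [Subgroup.mem_center_iff]
    intro b
    apply Subtype.ext
    have h5 := Subgroup.mem_center_iff.mp (Subgroup.mem_subgroupOf.mp ha) (b : G)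
    simpa using h5
  obtain ⟨y, hyN, hyZ, q, j, hq, hqr, hyo⟩ := hex
  have hnab : ¬ ∀ a ∈ N, ∀ b ∈ N, a * b = b * a := by
    intro hab
    apply hnil
    refine Subgroup.isNilpotent_of_ker_le_center (1 : ↥N →* Unit) ?_
    intro a _
    rw [Subgroup.mem_center_iff]
    intro b
    exact Subtype.ext (hab b b.2 a a.2)
  exact rs_caseII9 S (fun y' hy'N hy'Z q' j' hq' hq'r hy'o R₁ hR₁ =>
    rs_caseI9 S hnab hy'N hy'Z hq' hq'r hy'o R₁ hR₁) hyN hyZ hq hqr hyo

end Rel29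

end Cfsg.Agent.Helper9
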