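import Mathlib
import Cfsg.Prelude.Def_Local
import Cfsg.Prelude.Def_Transfer
import Cfsg.Agent.Helper9.PInv
import Cfsg.Agent.Helper9.Factor
import Cfsg.Agent.Helper9.Layer3
import Cfsg.Agent.Helper1.Coprime3
import Cfsg.Agent.S1324

set_option autoImplicit false

namespace Cfsg.Agent.Helper9

open Subgroup
open scoped commutatorElement

universe u

/-- `Q` is a maximal `E`-invariant `q`-subgroup. -/
def IsMaxInv9 {G : Type*} [Group G] (E : Subgroup G) (q : ℕ) (Q : Subgroup G) : Prop :=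
  IsPGroup q ↥Q ∧ E ≤ normalizer (Q : Set G) ∧
    ∀ R : Subgroup G, IsPGroup q ↥R → E ≤ normalizer (R : Set G) → Q ≤ R → R = Q

theorem exists_maxInv_ge9 {G : Type u} [Group G] [Finite G] (E : Subgroup G) (q : ℕ)
    (R : Subgroup G) (hR : IsPGroup q ↥R) (hER : E ≤ normalizer (R : Set G)) :
    ∃ Q : Subgroup G, IsMaxInv9 E q Q ∧ R ≤ Q := by
  obtain ⟨𝒮, h𝒮⟩ : ∃ 𝒮 : Set (Subgroup G),
      𝒮 = {V | R ≤ V ∧ IsPGroup q ↥V ∧ E ≤ normalizer (V : Set G)} := ⟨_, rfl⟩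
  have hfin : 𝒮.Finite := Set.toFinite 𝒮
  have hR𝒮 : R ∈ 𝒮 := by rw [h𝒮]; exact ⟨le_rfl, hR, hER⟩
  obtain ⟨V, hRV, hVmax⟩ := hfin.exists_le_maximal hR𝒮
  have hV𝒮 : V ∈ 𝒮 := hVmax.prop
  rw [h𝒮] at hV𝒮
  obtain ⟨-, hVq, hVE⟩ := hV𝒮
  refine ⟨V, ⟨hVq, hVE, ?_⟩, hRV⟩
  intro R' hR'q hR'E hVR'
  have hR'𝒮 : R' ∈ 𝒮 := by rw [h𝒮]; exact ⟨hRV.trans hVR', hR'q, hR'E⟩
  exact le_antisymm (hVmax.le_of_ge hR'𝒮 hVR') hVR'

theorem normalizer_conj_of_centralizer9 {G : Type*} [Group G] (E S : Subgroup G) (d : G)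
    (hd : d ∈ centralizer (E : Set G)) (hES : E ≤ normalizer (S : Set G)) :
    E ≤ normalizer ((S.map (MulAut.conj d).toMonoidHom : Subgroup G) : Set G) := by
  intro e he
  have hed : e * d = d * e := Subgroup.mem_centralizer_iff.mp hd e he
  rw [Cfsg.Agent.Helper1.mem_normalizer_iff_conj_smul, ← Cfsg.Agent.Helper1.conj_smul_eq_map,
    Cfsg.Agent.Helper1.conj_smul_smul, hed, ← Cfsg.Agent.Helper1.conj_smul_smul,
    Cfsg.Agent.Helper1.mem_normalizer_iff_conj_smul.mp (hES he)]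

theorem map_conj_inv_map_conj9 {G : Type*} [Group G] (S : Subgroup G) (c : G) :
    (S.map (MulAut.conj c).toMonoidHom).map (MulAut.conj c⁻¹).toMonoidHom = S := by
  rw [← Cfsg.Agent.Helper1.conj_smul_eq_map, ← Cfsg.Agent.Helper1.conj_smul_eq_map,
    Cfsg.Agent.Helper1.conj_smul_smul, inv_mul_cancel, map_one, one_smul]

theorem map_conj_map_conj_inv9 {G : Type*} [Group G] (S : Subgroup G) (c : G) :
    (S.map (MulAut.conj c⁻¹).toMonoidHom).map (MulAut.conj c).toMonoidHom = S := by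
  rw [← Cfsg.Agent.Helper1.conj_smul_eq_map, ← Cfsg.Agent.Helper1.conj_smul_eq_map,
    Cfsg.Agent.Helper1.conj_smul_smul, mul_inv_cancel, map_one, one_smul]

theorem maxInv_conj9 {G : Type u} [Group G] (E : Subgroup G) (q : ℕ) (Q : Subgroup G)
    (hQ : IsMaxInv9 E q Q) (c : G) (hc : c ∈ centralizer (E : Set G)) :
    IsMaxInv9 E q (Q.map (MulAut.conj c).toMonoidHom) := by
  obtain ⟨hQq, hQE, hQmax⟩ := hQ
  refine ⟨hQq.map _, normalizer_conj_of_centralizer9 E Q c hc hQE, ?_⟩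
  intro R hRq hRE hQR
  have hc' : c⁻¹ ∈ centralizer (E : Set G) := inv_mem hc
  have h1 := hQmax (R.map (MulAut.conj c⁻¹).toMonoidHom) (hRq.map _)
    (normalizer_conj_of_centralizer9 E R c⁻¹ hc' hRE) (by
      have h2 : (Q.map (MulAut.conj c).toMonoidHom).map (MulAut.conj c⁻¹).toMonoidHom ≤
          R.map (MulAut.conj c⁻¹).toMonoidHom := Subgroup.map_mono hQR
      rwa [map_conj_inv_map_conj9] at h2)
  rw [← map_conj_map_conj_inv9 R c, h1]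

theorem le_normalizer_sup9 {G : Type*} [Group G] (E X Y : Subgroup G)
    (hX : E ≤ normalizer (X : Set G)) (hY : E ≤ normalizer (Y : Set G)) :
    E ≤ normalizer ((X ⊔ Y : Subgroup G) : Set G) := by
  intro e he
  rw [Cfsg.Agent.Helper1.mem_normalizer_iff_conj_smul, Subgroup.smul_sup,
    Cfsg.Agent.Helper1.mem_normalizer_iff_conj_smul.mp (hX he),
    Cfsg.Agent.Helper1.mem_normalizer_iff_conj_smul.mp (hY he)]

theorem le_normalizer_inf9 {G : Type*} [Group G] (E X Y : Subgroup G)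
    (hX : E ≤ normalizer (X : Set G)) (hY : E ≤ normalizer (Y : Set G)) :
    E ≤ normalizer ((X ⊓ Y : Subgroup G) : Set G) := by
  intro e he
  rw [Cfsg.Agent.Helper1.mem_normalizer_iff_conj_smul, Subgroup.smul_inf,
    Cfsg.Agent.Helper1.mem_normalizer_iff_conj_smul.mp (hX he),
    Cfsg.Agent.Helper1.mem_normalizer_iff_conj_smul.mp (hY he)]

theorem normalizer_grow9 {G : Type*} [Group G] [Finite G] {q : ℕ} [Fact q.Prime]
    {Q D : Subgroup G} (hQ : IsPGroup q ↥Q) (hlt : D < Q) :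
    ¬ Q ⊓ normalizer (D : Set G) ≤ D := by
  intro hle
  have hDQ : D ≤ Q := hlt.le
  haveI : Group.IsNilpotent ↥Q := hQ.isNilpotent
  have hlt' : D.subgroupOf Q < ⊤ := by
    rw [lt_top_iff_ne_top]
    intro h
    rw [Subgroup.subgroupOf_eq_top] at h
    exact (not_le_of_gt hlt) h
  have hnc := Group.normalizerCondition_of_isNilpotent (G := ↥Q) (D.subgroupOf Q) hlt'
  obtain ⟨y, hyN, hyD⟩ := SetLike.exists_of_lt hnc
  apply hyD
  rw [Subgroup.mem_subgroupOf]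
  apply hle
  refine Subgroup.mem_inf.mpr ⟨y.2, ?_⟩
  rw [Subgroup.mem_normalizer_iff]
  intro t
  have hy' := Subgroup.mem_normalizer_iff.mp hyN
  constructor
  · intro ht
    have h3 := (hy' ⟨t, hDQ ht⟩).mp (by rw [Subgroup.mem_subgroupOf]; exact ht)
    rw [Subgroup.mem_subgroupOf] at h3
    exact h3
  · intro ht
    have htQ : t ∈ Q := by
      have e : t = (y : G)⁻¹ * ((y : G) * t * (y : G)⁻¹) * (y : G) := by group
      rw [e]
      exact Q.mul_mem (Q.mul_mem (Q.inv_mem y.2) (hDQ ht)) y.2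
    have h3 := (hy' ⟨t, htQ⟩).mpr (by rw [Subgroup.mem_subgroupOf]; exact ht)
    rw [Subgroup.mem_subgroupOf] at h3
    exact h3

theorem coprime_card_qgroup9 {G : Type*} [Group G] [Finite G] {p q : ℕ} [Fact p.Prime]
    [Fact q.Prime] (hqp : q ≠ p) {S : Subgroup G} (hS : IsPGroup q ↥S) :
    (Nat.card ↥S).Coprime p := by
  obtain ⟨k, hk⟩ := IsPGroup.iff_card.mp hS
  rw [hk]
  exact Nat.Coprime.pow_left k ((Nat.coprime_primes Fact.out Fact.out).mpr hqp)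

/-- The transitivity theorem in abstract form. -/
theorem transitivity9 {G : Type u} [Group G] [Finite G] {p q : ℕ} [Fact p.Prime] [Fact q.Prime]
    (hqp : q ≠ p) (E E₁ C : Subgroup G) (hEp : IsPGroup p ↥E)
    (hEc : ∀ x ∈ E, ∀ y ∈ E, x * y = y * x) (hE₁E : E₁ ≤ E) (hE₁exp : ∀ e ∈ E₁, e ^ p = 1)
    (hE₁card : p ^ 3 ≤ Nat.card ↥E₁)
    (hC : ∀ L : Subgroup G, (Nat.card ↥L).Coprime p → E ≤ normalizer (L : Set G) →
      L ⊓ centralizer (E : Set G) ≤ C)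
    (hloc : ∀ a ∈ E₁, a ≠ 1 → ∃ O : Subgroup G, (Nat.card ↥O).Coprime p ∧
      E ≤ normalizer (O : Set G) ∧ ∀ K : Subgroup G, K ≤ centralizer ({a} : Set G) →
        (Nat.card ↥K).Coprime p → E ≤ normalizer (K : Set G) → K ≤ O) :
    ∀ (n : ℕ) (Q₁ Q₂ : Subgroup G), IsMaxInv9 E q Q₁ → IsMaxInv9 E q Q₂ →
      Nat.card G - Nat.card ↥(Q₁ ⊓ Q₂) = n →
      ∃ c ∈ C, Q₂ = Q₁.map (MulAut.conj c).toMonoidHom := by
  intro n
  induction n using Nat.strong_induction_on with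
  | _ n ih =>
  intro Q₁ Q₂ hQ₁ hQ₂ hn
  have hp : p.Prime := Fact.out
  have hq : q.Prime := Fact.out
  obtain ⟨hQ₁q, hQ₁E, hQ₁max⟩ := hQ₁
  obtain ⟨hQ₂q, hQ₂E, hQ₂max⟩ := hQ₂
  by_cases h12 : Q₁ ≤ Q₂
  · have h0 := hQ₁max Q₂ hQ₂q hQ₂E h12
    refine ⟨1, C.one_mem, ?_⟩
    rw [h0, ← Cfsg.Agent.Helper1.conj_smul_eq_map, map_one, one_smul]
  by_cases h21 : Q₂ ≤ Q₁
  · have h0 := hQ₂max Q₁ hQ₁q hQ₁E h21
    refine ⟨1, C.one_mem, ?_⟩
    rw [h0, ← Cfsg.Agent.Helper1.conj_smul_eq_map, map_one, one_smul]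
  obtain ⟨D, hD⟩ : ∃ D : Subgroup G, D = Q₁ ⊓ Q₂ := ⟨_, rfl⟩
  have hDQ₁ : D ≤ Q₁ := by rw [hD]; exact inf_le_left
  have hDQ₂ : D ≤ Q₂ := by rw [hD]; exact inf_le_right
  have hDlt₁ : D < Q₁ := lt_of_le_of_ne hDQ₁ (fun h => h12 (by rw [← h]; exact hDQ₂))
  have hDlt₂ : D < Q₂ := lt_of_le_of_ne hDQ₂ (fun h => h21 (by rw [← h]; exact hDQ₁))
  have hED : E ≤ normalizer (D : Set G) := by
    rw [hD]; exact le_normalizer_inf9 E Q₁ Q₂ hQ₁E hQ₂E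
  obtain ⟨R₁, hR₁⟩ : ∃ R₁ : Subgroup G, R₁ = Q₁ ⊓ normalizer (D : Set G) := ⟨_, rfl⟩
  obtain ⟨R₂, hR₂⟩ : ∃ R₂ : Subgroup G, R₂ = Q₂ ⊓ normalizer (D : Set G) := ⟨_, rfl⟩
  have hR₁D : ¬ R₁ ≤ D := by rw [hR₁]; exact normalizer_grow9 hQ₁q hDlt₁
  have hR₂D : ¬ R₂ ≤ D := by rw [hR₂]; exact normalizer_grow9 hQ₂q hDlt₂
  have hER₁ : E ≤ normalizer (R₁ : Set G) := by
    rw [hR₁]; exact Cfsg.Agent.Helper1.le_normalizer_inf_normalizer E Q₁ D hQ₁E hED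
  have hER₂ : E ≤ normalizer (R₂ : Set G) := by
    rw [hR₂]; exact Cfsg.Agent.Helper1.le_normalizer_inf_normalizer E Q₂ D hQ₂E hED
  have hR₁q : IsPGroup q ↥R₁ := hQ₁q.to_le (by rw [hR₁]; exact inf_le_left)
  have hR₂q : IsPGroup q ↥R₂ := hQ₂q.to_le (by rw [hR₂]; exact inf_le_left)
  have hE₁ea : Cfsg.IsElementaryAbelian p E₁ :=
    ⟨⟨⟨fun x y => Subtype.ext (hEc x (hE₁E x.2) y (hE₁E y.2))⟩⟩, hE₁exp⟩
  have hE₁2 : p ^ 2 ≤ Nat.card ↥E₁ :=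
    le_trans (Nat.pow_le_pow_right hp.pos (by norm_num)) hE₁card
  have hH1 : ∀ R : Subgroup G, IsPGroup q ↥R → E ≤ normalizer (R : Set G) → ¬ R ≤ D →
      ∃ B : Subgroup G, B ≤ E₁ ∧ B.relIndex E₁ ≤ p ∧ ¬ R ⊓ centralizer (B : Set G) ≤ D := by
    intro R hRq hER hRD
    have hnd : ¬ p ∣ Nat.card ↥R := by
      intro hdvd
      have hc := coprime_card_qgroup9 (p := p) hqp hRq
      exact hp.one_lt.ne' (Nat.eq_one_of_dvd_coprimes hc hdvd dvd_rfl)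
    have hgen := Cfsg.Agent.S1324.result p E₁ R hE₁ea hE₁2 hnd (hE₁E.trans hER)
    by_contra hno
    apply hRD
    rw [hgen]
    refine iSup_le (fun B => ?_)
    by_contra hB
    exact hno ⟨B.1, B.2.1, B.2.2, hB⟩
  obtain ⟨B₁, hB₁E, hB₁r, hB₁D⟩ := hH1 R₁ hR₁q hER₁ hR₁D
  obtain ⟨B₂, hB₂E, hB₂r, hB₂D⟩ := hH1 R₂ hR₂q hER₂ hR₂D
  have hBne : B₁ ⊓ B₂ ≠ ⊥ := by
    intro hbot
    have h1 : (B₁ ⊓ B₂).relIndex E₁ ≤ p * p :=
      (Subgroup.relIndex_inf_le).trans (Nat.mul_le_mul hB₁r hB₂r)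
    have h2 : Nat.card ↥(B₁ ⊓ B₂) * (B₁ ⊓ B₂).relIndex E₁ = Nat.card ↥E₁ := by
      have h0 := Subgroup.relIndex_mul_relIndex (⊥ : Subgroup G) (B₁ ⊓ B₂) E₁ bot_le
        (inf_le_left.trans hB₁E)
      rwa [Subgroup.relIndex_bot_left, Subgroup.relIndex_bot_left] at h0
    rw [hbot] at h1 h2
    rw [Subgroup.card_bot, one_mul] at h2
    rw [h2] at h1
    have h3 : p ^ 3 ≤ p * p := hE₁card.trans h1
    have h4 : p * p < p ^ 3 := by
      have e : p * p = p ^ 2 := by ring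
      rw [e]
      exact Nat.pow_lt_pow_right hp.one_lt (by norm_num)
    exact absurd h3 (not_le.mpr h4)
  obtain ⟨⟨a, haB⟩, ha1'⟩ := Subgroup.ne_bot_iff_exists_ne_one.mp hBne
  have ha1 : a ≠ 1 := fun h => ha1' (Subtype.ext h)
  obtain ⟨haB₁, haB₂⟩ := Subgroup.mem_inf.mp haB
  have haE₁ : a ∈ E₁ := hB₁E haB₁
  have haE : a ∈ E := hE₁E haE₁
  obtain ⟨O, hOc, hEO, hOK⟩ := hloc a haE₁ ha1
  obtain ⟨S₁, hS₁⟩ : ∃ S₁ : Subgroup G, S₁ = R₁ ⊓ centralizer ({a} : Set G) := ⟨_, rfl⟩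
  obtain ⟨S₂, hS₂⟩ : ∃ S₂ : Subgroup G, S₂ = R₂ ⊓ centralizer ({a} : Set G) := ⟨_, rfl⟩
  have hcentmono : ∀ B : Subgroup G, a ∈ B →
      centralizer (B : Set G) ≤ centralizer ({a} : Set G) :=
    fun B haB => Subgroup.centralizer_le (Set.singleton_subset_iff.mpr haB)
  have hS₁D : ¬ S₁ ≤ D := fun h =>
    hB₁D ((inf_le_inf_left _ (hcentmono B₁ haB₁)).trans (by rw [← hS₁]; exact h))
  have hS₂D : ¬ S₂ ≤ D := fun h =>
    hB₂D ((inf_le_inf_left _ (hcentmono B₂ haB₂)).trans (by rw [← hS₂]; exact h))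
  have hECa : E ≤ normalizer ((centralizer ({a} : Set G) : Subgroup G) : Set G) := by
    have h0 : E ≤ centralizer ({a} : Set G) := by
      intro e he
      rw [Subgroup.mem_centralizer_iff]
      intro x hx
      rw [Set.mem_singleton_iff.mp hx]
      exact hEc a haE e he
    exact h0.trans Subgroup.le_normalizer
  have hES₁ : E ≤ normalizer (S₁ : Set G) := by
    rw [hS₁]; exact le_normalizer_inf9 E R₁ _ hER₁ hECa
  have hES₂ : E ≤ normalizer (S₂ : Set G) := by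
    rw [hS₂]; exact le_normalizer_inf9 E R₂ _ hER₂ hECa
  have hS₁q : IsPGroup q ↥S₁ := hR₁q.to_le (by rw [hS₁]; exact inf_le_left)
  have hS₂q : IsPGroup q ↥S₂ := hR₂q.to_le (by rw [hS₂]; exact inf_le_left)
  have hS₁O : S₁ ≤ O :=
    hOK S₁ (by rw [hS₁]; exact inf_le_right) (coprime_card_qgroup9 hqp hS₁q) hES₁
  have hS₂O : S₂ ≤ O :=
    hOK S₂ (by rw [hS₂]; exact inf_le_right) (coprime_card_qgroup9 hqp hS₂q) hES₂
  obtain ⟨L, hL⟩ : ∃ L : Subgroup G, L = O ⊓ normalizer (D : Set G) := ⟨_, rfl⟩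
  have hLO : L ≤ O := by rw [hL]; exact inf_le_left
  have hLN : L ≤ normalizer (D : Set G) := by rw [hL]; exact inf_le_right
  have hEL : E ≤ normalizer (L : Set G) := by
    rw [hL]; exact Cfsg.Agent.Helper1.le_normalizer_inf_normalizer E O D hEO hED
  have hLc : (Nat.card ↥L).Coprime p :=
    Nat.Coprime.coprime_dvd_left (Subgroup.card_dvd_of_le hLO) hOc
  have hS₁L : S₁ ≤ L := by
    rw [hL]; exact le_inf hS₁O (by rw [hS₁, hR₁]; exact inf_le_left.trans inf_le_right)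
  have hS₂L : S₂ ≤ L := by
    rw [hL]; exact le_inf hS₂O (by rw [hS₂, hR₂]; exact inf_le_left.trans inf_le_right)
  have hcopEL : (Nat.card ↥E).Coprime (Nat.card ↥L) := by
    obtain ⟨k, hk⟩ := IsPGroup.iff_card.mp hEp
    rw [hk]; exact Nat.Coprime.pow_left k hLc.symm
  have hsolvE : Group.IsSolvable ↥E := by
    haveI : Group.IsNilpotent ↥E := hEp.isNilpotent
    infer_instance
  obtain ⟨T₁, hT₁L, hT₁c, hS₁T₁, hET₁⟩ := Cfsg.Agent.Helper1.inv_sylow_ge E L hEL hcopEL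
    (Or.inl hsolvE) q S₁ hS₁L hS₁q hES₁
  obtain ⟨T₂, hT₂L, hT₂c, hS₂T₂, hET₂⟩ := Cfsg.Agent.Helper1.inv_sylow_ge E L hEL hcopEL
    (Or.inl hsolvE) q S₂ hS₂L hS₂q hES₂
  obtain ⟨c, hcLC, hcT⟩ := inv_sylow_conj q E L T₂ T₁ hEL hcopEL (Or.inl hsolvE)
    hT₂L hT₂c hET₂ hT₁L hT₁c hET₁
  obtain ⟨hcL, hcE⟩ := Subgroup.mem_inf.mp hcLC
  have hcC : c ∈ C := hC L hLc hEL hcLC
  have hT₁q : IsPGroup q ↥T₁ := IsPGroup.of_card hT₁c
  have hDq : IsPGroup q ↥D := hQ₁q.to_le hDQ₁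
  have hQsq : IsPGroup q ↥(T₁ ⊔ D) :=
    IsPGroup.to_sup_of_normal_right' hT₁q hDq (hT₁L.trans hLN)
  have hEQs : E ≤ normalizer ((T₁ ⊔ D : Subgroup G) : Set G) :=
    le_normalizer_sup9 E T₁ D hET₁ hED
  obtain ⟨Q₃, hQ₃, hQsQ₃⟩ := exists_maxInv_ge9 E q (T₁ ⊔ D) hQsq hEQs
  have hcard₁ : Nat.card ↥D < Nat.card ↥(Q₁ ⊓ Q₃) := by
    have hle : D ⊔ S₁ ≤ Q₁ ⊓ Q₃ := by
      refine sup_le (le_inf hDQ₁ (le_sup_right.trans hQsQ₃))
        (le_inf ?_ ((hS₁T₁.trans le_sup_left).trans hQsQ₃))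
      rw [hS₁, hR₁]; exact inf_le_left.trans inf_le_left
    have hlt : D < D ⊔ S₁ :=
      lt_of_le_of_ne le_sup_left (fun h => hS₁D (by rw [h]; exact le_sup_right))
    exact lt_of_lt_of_le (card_lt_of_lt hlt) (Subgroup.card_le_of_le hle)
  have hm₁ : Nat.card G - Nat.card ↥(Q₁ ⊓ Q₃) < n := by
    have hG1 : Nat.card ↥(Q₁ ⊓ Q₃) ≤ Nat.card G := Subgroup.card_le_card_group (Q₁ ⊓ Q₃)
    rw [← hn, ← hD]; omega
  obtain ⟨c₁, hc₁C, hc₁⟩ := ih _ hm₁ Q₁ Q₃ ⟨hQ₁q, hQ₁E, hQ₁max⟩ hQ₃ rfl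
  obtain ⟨Q₂', hQ₂'⟩ : ∃ Q₂' : Subgroup G, Q₂' = Q₂.map (MulAut.conj c).toMonoidHom :=
    ⟨_, rfl⟩
  have hQ₂'max : IsMaxInv9 E q Q₂' := by
    rw [hQ₂']; exact maxInv_conj9 E q Q₂ ⟨hQ₂q, hQ₂E, hQ₂max⟩ c hcE
  have hcD : D.map (MulAut.conj c).toMonoidHom = D := by
    rw [← Cfsg.Agent.Helper1.conj_smul_eq_map]
    exact Cfsg.Agent.Helper1.mem_normalizer_iff_conj_smul.mp (hLN hcL)
  have hDQ₂' : D ≤ Q₂' := by
    have h0 : D.map (MulAut.conj c).toMonoidHom ≤ Q₂.map (MulAut.conj c).toMonoidHom :=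
      Subgroup.map_mono hDQ₂
    rw [hcD] at h0
    rw [hQ₂']; exact h0
  obtain ⟨S₂', hS₂'⟩ : ∃ S₂' : Subgroup G, S₂' = S₂.map (MulAut.conj c).toMonoidHom :=
    ⟨_, rfl⟩
  have hS₂'Q₂' : S₂' ≤ Q₂' := by
    rw [hS₂', hQ₂']; apply Subgroup.map_mono
    rw [hS₂, hR₂]; exact inf_le_left.trans inf_le_left
  have hS₂'T₁ : S₂' ≤ T₁ := by
    rw [hS₂', ← hcT, Cfsg.Agent.Helper1.conj_smul_eq_map]; exact Subgroup.map_mono hS₂T₂
  have hS₂'D : ¬ S₂' ≤ D := by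
    intro h
    apply hS₂D
    have h1 : S₂'.map (MulAut.conj c⁻¹).toMonoidHom ≤ D.map (MulAut.conj c⁻¹).toMonoidHom :=
      Subgroup.map_mono h
    have h2 : S₂'.map (MulAut.conj c⁻¹).toMonoidHom = S₂ := by
      rw [hS₂', map_conj_inv_map_conj9]
    have h3 : D.map (MulAut.conj c⁻¹).toMonoidHom = D := by
      rw [← Cfsg.Agent.Helper1.conj_smul_eq_map]
      exact Cfsg.Agent.Helper1.mem_normalizer_iff_conj_smul.mp (inv_mem (hLN hcL))
    rwa [h2, h3] at h1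
  have hcard₂ : Nat.card ↥D < Nat.card ↥(Q₃ ⊓ Q₂') := by
    have hle : D ⊔ S₂' ≤ Q₃ ⊓ Q₂' :=
      sup_le (le_inf (le_sup_right.trans hQsQ₃) hDQ₂')
        (le_inf ((hS₂'T₁.trans le_sup_left).trans hQsQ₃) hS₂'Q₂')
    have hlt : D < D ⊔ S₂' :=
      lt_of_le_of_ne le_sup_left (fun h => hS₂'D (by rw [h]; exact le_sup_right))
    exact lt_of_lt_of_le (card_lt_of_lt hlt) (Subgroup.card_le_of_le hle)
  have hm₂ : Nat.card G - Nat.card ↥(Q₃ ⊓ Q₂') < n := by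
    have hG2 : Nat.card ↥(Q₃ ⊓ Q₂') ≤ Nat.card G := Subgroup.card_le_card_group (Q₃ ⊓ Q₂')
    rw [← hn, ← hD]; omega
  obtain ⟨c₂, hc₂C, hc₂⟩ := ih _ hm₂ Q₃ Q₂' hQ₃ hQ₂'max rfl
  refine ⟨c⁻¹ * c₂ * c₁, C.mul_mem (C.mul_mem (C.inv_mem hcC) hc₂C) hc₁C, ?_⟩
  have h2 : Q₂'.map (MulAut.conj c⁻¹).toMonoidHom = Q₂ := by
    rw [hQ₂', map_conj_inv_map_conj9]
  rw [← h2, hc₂, hc₁, ← Cfsg.Agent.Helper1.conj_smul_eq_map,
    ← Cfsg.Agent.Helper1.conj_smul_eq_map, ← Cfsg.Agent.Helper1.conj_smul_eq_map,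
    ← Cfsg.Agent.Helper1.conj_smul_eq_map, Cfsg.Agent.Helper1.conj_smul_smul,
    Cfsg.Agent.Helper1.conj_smul_smul]

/-- The `p'`-core of the normalizer of `T` controls the `E`-invariant `p'`-subgroups of that
normalizer, in a `p`-constrained local subgroup. -/
theorem local_core9 {G : Type u} [Group G] [Finite G] {p : ℕ} [Fact p.Prime]
    (E : Subgroup G) (hEp : IsPGroup p ↥E) (T : Subgroup G)
    (hET : E ≤ normalizer (T : Set G))
    (hcon : Cfsg.IsPConstrained p ↥(normalizer (T : Set G)))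
    (hcase : (p ≠ 2 ∧ ∀ x ∈ centralizer (E : Set G), x ^ p = 1 → x ∈ E) ∨
      ((∀ x ∈ centralizer (E : Set G), (∃ j : ℕ, x ^ p ^ j = 1) → x ∈ E) ∧
        ∀ U : Subgroup G, IsPGroup p ↥U → ∀ x ∈ U, ∀ y ∈ U, ∀ z ∈ U,
          z * ⁅x, y⁆ = ⁅x, y⁆ * z)) :
    ∃ O : Subgroup G, (Nat.card ↥O).Coprime p ∧ O ≤ normalizer (T : Set G) ∧
      normalizer (T : Set G) ≤ normalizer (O : Set G) ∧
      ∀ K : Subgroup G, K ≤ normalizer (T : Set G) → (Nat.card ↥K).Coprime p →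
        E ≤ normalizer (K : Set G) → K ≤ O := by
  generalize hX : normalizer (T : Set G) = X at hET hcon ⊢
  refine ⟨(Cfsg.pPrimeCore p ↥X).map X.subtype, ?_, Subgroup.map_subtype_le _, ?_, ?_⟩
  · rw [Subgroup.card_map_of_injective X.subtype_injective]; exact pPrimeCore_coprime p
  · exact Subgroup.le_normalizer.trans (char_map_normalizer X (Cfsg.pPrimeCore p ↥X))
  · intro K hKX hKc hEK
    have hA : IsPGroup p ↥(E.subgroupOf X) := hEp.comap_subtype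
    have hQ : (Nat.card ↥(K.subgroupOf X)).Coprime p := by
      rw [Nat.card_congr (Subgroup.subgroupOfEquivOfLe hKX).toEquiv]; exact hKc
    have hAQ : E.subgroupOf X ≤ normalizer ((K.subgroupOf X : Subgroup ↥X) : Set ↥X) := by
      intro x hx
      rw [Subgroup.mem_subgroupOf] at hx
      rw [Subgroup.mem_normalizer_iff]
      intro h
      rw [Subgroup.mem_subgroupOf, Subgroup.mem_subgroupOf]
      exact Subgroup.mem_normalizer_iff.mp (hEK hx) (h : G)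
    have hcentr : ∀ x : ↥X, x ∈ centralizer ((E.subgroupOf X : Subgroup ↥X) : Set ↥X) →
        (x : G) ∈ centralizer (E : Set G) := by
      intro x hx
      rw [Subgroup.mem_centralizer_iff] at hx ⊢
      intro e he
      have h0 := hx ⟨e, hET he⟩ (Subgroup.mem_subgroupOf.mpr he)
      exact congrArg Subtype.val h0
    have hle : K.subgroupOf X ≤ Cfsg.pPrimeCore p ↥X := by
      rcases hcase with ⟨hp2, hΩ⟩ | ⟨hΩ, hcl⟩
      · refine inv_pprime_le_core_odd9 hp2 hcon (E.subgroupOf X) hA ?_ (K.subgroupOf X) hQ hAQ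
        intro x hx hxp
        rw [Subgroup.mem_subgroupOf]
        apply hΩ (x : G) (hcentr x hx)
        have h0 := congrArg Subtype.val hxp
        rw [Subgroup.coe_pow, Subgroup.coe_one] at h0
        exact h0
      · refine inv_pprime_le_core_cl2_9 hcon (E.subgroupOf X) hA ?_ ?_ (K.subgroupOf X) hQ hAQ
        · intro x hx hxp
          rw [Subgroup.mem_subgroupOf]
          apply hΩ (x : G) (hcentr x hx)
          obtain ⟨j, hj⟩ := hxp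
          refine ⟨j, ?_⟩
          have h0 := congrArg Subtype.val hj
          rw [Subgroup.coe_pow, Subgroup.coe_one] at h0
          exact h0
        · intro U hU x hx y hy z hz
          have h0 := hcl (U.map X.subtype) (hU.map _) (x : G) (Subgroup.mem_map_of_mem _ hx)
            (y : G) (Subgroup.mem_map_of_mem _ hy) (z : G) (Subgroup.mem_map_of_mem _ hz)
          apply Subtype.ext
          have e : ((⁅x, y⁆ : ↥X) : G) = ⁅(x : G), (y : G)⁆ :=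
            map_commutatorElement X.subtype x y
          show (z : G) * ((⁅x, y⁆ : ↥X) : G) = ((⁅x, y⁆ : ↥X) : G) * (z : G)
          rw [e]
          exact h0
    intro k hk
    exact ⟨⟨k, hKX hk⟩, hle (Subgroup.mem_subgroupOf.mpr hk), rfl⟩

end Cfsg.Agent.Helper9
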