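import Mathlib
import Cfsg.Prelude.Def_Local
import Cfsg.Prelude.Def_Transfer
import Cfsg.Agent.Helper9.Trans
import Cfsg.Agent.Helper9.PLocal
import Cfsg.Agent.Helper9.PConstr
import Cfsg.Agent.Helper9.PConstr2
import Cfsg.Agent.Helper9.Balance
import Cfsg.Agent.Helper9.ABLemma2
import Cfsg.Agent.Helper9.PComp

set_option autoImplicit false

namespace Cfsg.Agent.Helper9

open Subgroup
open scoped commutatorElement Pointwise

universe u

theorem zpowers_isPGroup9 {G : Type*} [Group G] (p : ℕ) (x : G) (j : ℕ) (hx : x ^ p ^ j = 1) :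
    IsPGroup p ↥(zpowers x) := by
  rintro ⟨y, hy⟩
  obtain ⟨k, rfl⟩ := Subgroup.mem_zpowers_iff.mp hy
  refine ⟨j, ?_⟩
  apply Subtype.ext
  show (x ^ k) ^ p ^ j = 1
  rw [← zpow_natCast, ← zpow_mul, mul_comm, zpow_mul, zpow_natCast, hx, one_zpow]

/-- `p`-elements of `C(B)` lie in `B` when `B = C_P(B)` is normalized by the Sylow subgroup `P`. -/
theorem pelt_centralizer_mem9 {X : Type u} [Group X] [Finite X] {p : ℕ} [Fact p.Prime]
    (P : Sylow p X) (B : Subgroup X)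
    (hBn : ∀ x ∈ (P : Subgroup X), ∀ b ∈ B, x * b * x⁻¹ ∈ B)
    (hBc : (P : Subgroup X) ⊓ Subgroup.centralizer (B : Set X) = B)
    (x : X) (hx : x ∈ centralizer (B : Set X)) (j : ℕ) (hxp : x ^ p ^ j = 1) : x ∈ B := by
  have hPN : (P : Subgroup X) ≤ normalizer (B : Set X) := by
    intro g hg
    rw [Subgroup.mem_normalizer_iff]
    intro b
    constructor
    · exact hBn g hg b
    · intro h
      have hg' : g⁻¹ ∈ (P : Subgroup X) := inv_mem hg
      have h0 := hBn g⁻¹ hg' _ h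
      have e : g⁻¹ * (g * b * g⁻¹) * g⁻¹⁻¹ = b := by group
      rwa [e] at h0
  have hxN0 : x ∈ normalizer (B : Set X) := Subgroup.centralizer_le_normalizer _ hx
  have hnorm0 : ∀ n ∈ normalizer (B : Set X), ∀ b : X, b ∈ B ↔ n * b * n⁻¹ ∈ B := by
    intro n hn
    exact Subgroup.mem_normalizer_iff.mp hn
  obtain ⟨N, hN⟩ : ∃ N : Subgroup X, N = normalizer (B : Set X) := ⟨_, rfl⟩
  rw [← hN] at hPN hxN0 hnorm0
  have hx'p : IsPGroup p ↥(zpowers (⟨x, hxN0⟩ : ↥N)) := by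
    apply zpowers_isPGroup9 p _ j
    apply Subtype.ext
    rw [Subgroup.coe_pow, Subgroup.coe_one]
    exact hxp
  obtain ⟨R, hR⟩ := hx'p.exists_le_sylow
  obtain ⟨n, hn⟩ := MulAction.exists_smul_eq ↥N R (P.subtype hPN)
  have hx'R : (⟨x, hxN0⟩ : ↥N) ∈ (R : Subgroup ↥N) := hR (Subgroup.mem_zpowers _)
  have h1 : MulAut.conj n • (⟨x, hxN0⟩ : ↥N) ∈ MulAut.conj n • (R : Subgroup ↥N) :=
    Subgroup.smul_mem_pointwise_smul _ _ _ hx'R
  rw [← Sylow.coe_subgroup_smul, hn, Sylow.coe_subtype, Subgroup.mem_subgroupOf] at h1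
  have h2 : (n : X) * x * (n : X)⁻¹ ∈ (P : Subgroup X) := h1
  have h3 : (n : X) * x * (n : X)⁻¹ ∈ centralizer (B : Set X) := by
    rw [Subgroup.mem_centralizer_iff]
    intro b hb
    have hb' : (n : X)⁻¹ * b * (n : X) ∈ B := by
      have h0 := (hnorm0 _ (inv_mem n.2) b).mp hb
      rwa [inv_inv] at h0
    have hcomm := Subgroup.mem_centralizer_iff.mp hx _ hb'
    calc b * ((n : X) * x * (n : X)⁻¹)
        = (n : X) * (((n : X)⁻¹ * b * (n : X)) * x) * (n : X)⁻¹ := by group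
      _ = (n : X) * (x * ((n : X)⁻¹ * b * (n : X))) * (n : X)⁻¹ := by rw [hcomm]
      _ = ((n : X) * x * (n : X)⁻¹) * b := by group
  have h4 : (n : X) * x * (n : X)⁻¹ ∈ B := by
    rw [← hBc]; exact Subgroup.mem_inf.mpr ⟨h2, h3⟩
  exact (hnorm0 _ n.2 x).mpr h4

/-- The transitivity theorem in the odd order setting (solvable `p`-locals). -/
theorem transitivity_odd9 {X : Type u} [Group X] [Finite X] (hX : Odd (Nat.card X)) (p : ℕ)
    [Fact p.Prime]
    (hloc : ∀ T : Subgroup X, IsPGroup p T → T ≠ ⊥ →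
      Group.IsSolvable (Subgroup.normalizer (T : Set X)))
    (P : Sylow p X) (B : Subgroup X) (hBP : B ≤ (P : Subgroup X))
    (hBn : ∀ x ∈ (P : Subgroup X), ∀ b ∈ B, x * b * x⁻¹ ∈ B) (hBa : IsMulCommutative B)
    (hBc : (P : Subgroup X) ⊓ Subgroup.centralizer (B : Set X) = B)
    (hB3 : ∃ E : Subgroup X, E ≤ B ∧ (∀ e ∈ E, e ^ p = 1) ∧ p ^ 3 ≤ Nat.card E)
    (q : ℕ) [Fact q.Prime] (hqp : q ≠ p) (Q₁ Q₂ : Subgroup X)
    (h₁ : IsMaxInv9 B q Q₁) (h₂ : IsMaxInv9 B q Q₂) :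
    ∃ c ∈ Subgroup.centralizer (B : Set X), Q₂ = Q₁.map (MulAut.conj c).toMonoidHom := by
  have hp : p.Prime := Fact.out
  obtain ⟨E₁, hE₁B, hE₁exp, hE₁card⟩ := hB3
  have hBp : IsPGroup p ↥B := P.isPGroup'.to_le hBP
  have hBcomm : ∀ x ∈ B, ∀ y ∈ B, x * y = y * x := by
    intro x hx y hy
    have h0 := hBa.is_comm.comm (⟨x, hx⟩ : ↥B) ⟨y, hy⟩
    exact congrArg Subtype.val h0
  have hp2 : p ≠ 2 := by
    intro h
    have hE₁p : IsPGroup p ↥E₁ := hBp.to_le hE₁B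
    obtain ⟨k, hk⟩ := IsPGroup.iff_card.mp hE₁p
    have hk0 : k ≠ 0 := by
      intro h0
      rw [hk, h0, pow_zero] at hE₁card
      have h3 : 1 < p ^ 3 := Nat.one_lt_pow (by norm_num) hp.one_lt
      omega
    have hdvd : p ∣ Nat.card X := by
      have h1 : p ∣ Nat.card ↥E₁ := by rw [hk]; exact dvd_pow_self p hk0
      exact h1.trans (Subgroup.card_subgroup_dvd_card E₁)
    rw [h] at hdvd
    exact (Nat.not_even_iff_odd.mpr hX) (even_iff_two_dvd.mpr hdvd)
  have hcase : (p ≠ 2 ∧ ∀ x ∈ centralizer (B : Set X), x ^ p = 1 → x ∈ B) ∨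
      ((∀ x ∈ centralizer (B : Set X), (∃ j : ℕ, x ^ p ^ j = 1) → x ∈ B) ∧
        ∀ U : Subgroup X, IsPGroup p ↥U → ∀ x ∈ U, ∀ y ∈ U, ∀ z ∈ U,
          z * ⁅x, y⁆ = ⁅x, y⁆ * z) := by
    left
    exact ⟨hp2, fun x hx hxp =>
      pelt_centralizer_mem9 P B hBn hBc x hx 1 (by rw [pow_one]; exact hxp)⟩
  have hloc' : ∀ a ∈ E₁, a ≠ 1 → ∃ O' : Subgroup X, (Nat.card ↥O').Coprime p ∧
      B ≤ normalizer (O' : Set X) ∧ ∀ K : Subgroup X, K ≤ centralizer ({a} : Set X) →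
        (Nat.card ↥K).Coprime p → B ≤ normalizer (K : Set X) → K ≤ O' := by
    intro a ha ha1
    have haB : a ∈ B := hE₁B ha
    have hTp : IsPGroup p ↥(zpowers a) := hBp.to_le (Subgroup.zpowers_le.mpr haB)
    have hTne : zpowers a ≠ ⊥ := Subgroup.zpowers_ne_bot.mpr ha1
    have hCN : centralizer ({a} : Set X) ≤ normalizer ((zpowers a : Subgroup X) : Set X) :=
      (centralizer_singleton_le_centralizer_zpowers a).trans
        (Subgroup.centralizer_le_normalizer _)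
    have hET : B ≤ normalizer ((zpowers a : Subgroup X) : Set X) := by
      intro e he
      apply hCN
      rw [Subgroup.mem_centralizer_iff]
      intro h hh
      rw [Set.mem_singleton_iff] at hh
      rw [hh]
      exact hBcomm a haB e he
    have hcon : Cfsg.IsPConstrained p ↥(normalizer ((zpowers a : Subgroup X) : Set X)) :=
      (pConstrained_iff_pLayer_eq_bot p).mpr
        (pLayer_eq_bot_of_solvable p (hloc (zpowers a) hTp hTne))
    obtain ⟨O', hO'c, -, hNO', hO'max⟩ := local_core9 B hBp (zpowers a) hET hcon hcase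
    exact ⟨O', hO'c, hET.trans hNO', fun K hKa hKc hEK => hO'max K (hKa.trans hCN) hKc hEK⟩
  exact transitivity9 hqp B E₁ (centralizer (B : Set X)) hBp hBcomm hE₁B hE₁exp hE₁card
    (fun L _ _ => inf_le_right) hloc' _ Q₁ Q₂ h₁ h₂ rfl

theorem pConstrained_of_pSolvable9 {G : Type*} [Group G] [Finite G] (p : ℕ) [Fact p.Prime]
    (hsol : Cfsg.IsPSolvable p G) : Cfsg.IsPConstrained p G := by
  classical
  rw [pConstrained_iff_pLayer_eq_bot p]
  have hOX : Cfsg.pPrimeCore p (G ⧸ Cfsg.pPrimeCore p G) = ⊥ := pPrimeCore_quotient_eq_bot p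
  apply pLayer_eq_bot_of_surj p (QuotientGroup.mk' (Cfsg.pPrimeCore p G))
    (QuotientGroup.mk'_surjective _) (QuotientGroup.ker_mk' _).symm
  by_contra hne
  obtain ⟨C, hC⟩ := exists_component_of_layer_ne_bot hne
  obtain ⟨l, hlC, hlp, hlc⟩ := component_exists_pelt p hOX C hC
  apply hlc
  have hrange : C ≤ (QuotientGroup.mk' (Cfsg.pPrimeCore p G)).range := by
    rw [MonoidHom.range_eq_top.mpr (QuotientGroup.mk'_surjective _)]
    exact le_top
  exact psolvable_image_pelt_central p hsol _ C hrange hC.2 l hlC hlp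

/-- If `B = Ω₁(P)` for a Sylow `p`-subgroup `P` of a subgroup `C ≥ B`, then every element of order
dividing `p` in `C ∩ C(B)` lies in `B`. -/
theorem omega_centralizer_mem9 {G : Type u} [Group G] [Finite G] {p : ℕ} [Fact p.Prime]
    (B C : Subgroup G) (hBexp : ∀ b ∈ B, b ^ p = 1) (hBp : IsPGroup p ↥B) (hBC : B ≤ C)
    (P : Sylow p ↥C)
    (hBP : B = Subgroup.closure {x : G | x ∈ ((P : Subgroup ↥C).map C.subtype : Subgroup G) ∧
      orderOf x = p})
    (x : G) (hx : x ∈ centralizer (B : Set G)) (hxC : x ∈ C) (hxp : x ^ p = 1) : x ∈ B := by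
  have hxN : zpowers x ≤ normalizer (B : Set G) := by
    rw [Subgroup.zpowers_le]
    exact Subgroup.centralizer_le_normalizer _ hx
  have hxpg : IsPGroup p ↥(zpowers x) := zpowers_isPGroup9 p x 1 (by rw [pow_one]; exact hxp)
  have hUp : IsPGroup p ↥(zpowers x ⊔ B) := IsPGroup.to_sup_of_normal_right' hxpg hBp hxN
  have hUC : zpowers x ⊔ B ≤ C := sup_le (Subgroup.zpowers_le.mpr hxC) hBC
  have hU' : IsPGroup p ↥((zpowers x ⊔ B).subgroupOf C) := hUp.comap_subtype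
  obtain ⟨R, hR⟩ := hU'.exists_le_sylow
  obtain ⟨c, hc⟩ := MulAction.exists_smul_eq ↥C R P
  have key : ∀ u ∈ zpowers x ⊔ B, u ^ p = 1 → (c : G) * u * (c : G)⁻¹ ∈ B := by
    intro u hu hup
    have huC : u ∈ C := hUC hu
    have huR : (⟨u, huC⟩ : ↥C) ∈ (R : Subgroup ↥C) := hR (Subgroup.mem_subgroupOf.mpr hu)
    have h1 : MulAut.conj c • (⟨u, huC⟩ : ↥C) ∈ MulAut.conj c • (R : Subgroup ↥C) :=
      Subgroup.smul_mem_pointwise_smul _ _ _ huR
    rw [← Sylow.coe_subgroup_smul, hc] at h1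
    have h2 : (c : G) * u * (c : G)⁻¹ ∈ ((P : Subgroup ↥C).map C.subtype : Subgroup G) :=
      Subgroup.mem_map.mpr ⟨_, h1, rfl⟩
    by_cases h1' : (c : G) * u * (c : G)⁻¹ = 1
    · rw [h1']; exact B.one_mem
    · rw [hBP]
      apply Subgroup.subset_closure
      refine ⟨h2, ?_⟩
      have hpow : ((c : G) * u * (c : G)⁻¹) ^ p = 1 := by
        rw [conj_pow, hup, mul_one, mul_inv_cancel]
      exact orderOf_eq_prime hpow h1'
  have hinj : Function.Injective ((MulAut.conj (c : G)).toMonoidHom : G → G) :=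
    (MulAut.conj (c : G)).injective
  have hmap : B.map (MulAut.conj (c : G)).toMonoidHom = B := by
    apply Subgroup.eq_of_le_of_card_ge
    · rintro _ ⟨b, hb, rfl⟩
      exact key b ((le_sup_right : B ≤ zpowers x ⊔ B) hb) (hBexp b hb)
    · exact (Subgroup.card_map_of_injective hinj).ge
  have hxB : (c : G) * x * (c : G)⁻¹ ∈ B :=
    key x ((le_sup_left : zpowers x ≤ zpowers x ⊔ B) (Subgroup.mem_zpowers x)) hxp
  rw [← hmap] at hxB
  obtain ⟨b, hb, hbe⟩ := hxB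
  have h5 : (c : G) * b * (c : G)⁻¹ = (c : G) * x * (c : G)⁻¹ := hbe
  have h6 : b = x := mul_left_cancel (mul_right_cancel h5)
  rw [← h6]; exact hb

theorem omega_invariant_le_core9 {G : Type u} [Group G] [Finite G] {p : ℕ} [Fact p.Prime]
    (hp : p ≠ 2) (hG : Cfsg.IsPSolvable p G) (B : Subgroup G)
    (hB : Cfsg.IsElementaryAbelian p B) (b₀ : G) (hb₀ : b₀ ∈ B)
    (P : Sylow p ↥(Subgroup.centralizer ({b₀} : Set G)))
    (hBP : B = Subgroup.closure {x : G | x ∈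
      ((P : Subgroup ↥(Subgroup.centralizer ({b₀} : Set G))).map
        (Subgroup.centralizer ({b₀} : Set G)).subtype : Subgroup G) ∧ orderOf x = p})
    (Q : Subgroup G) (hQ : ¬ p ∣ Nat.card Q) (hinv : ∀ b ∈ B, ∀ x ∈ Q, b * x * b⁻¹ ∈ Q) :
    Q ≤ Cfsg.pPrimeCore p G := by
  have hpp : p.Prime := Fact.out
  obtain ⟨hBa, hBexp⟩ := hB
  have hBcomm : ∀ x ∈ B, ∀ y ∈ B, x * y = y * x := by
    intro x hx y hy
    have h0 := hBa.is_comm.comm (⟨x, hx⟩ : ↥B) ⟨y, hy⟩
    exact congrArg Subtype.val h0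
  have hBp : IsPGroup p ↥B := by
    rintro ⟨b, hb⟩
    refine ⟨1, ?_⟩
    apply Subtype.ext
    show b ^ p ^ 1 = 1
    rw [pow_one]; exact hBexp b hb
  have hQc : (Nat.card ↥Q).Coprime p := ((Nat.Prime.coprime_iff_not_dvd hpp).mpr hQ).symm
  have hBQ : B ≤ normalizer (Q : Set G) := by
    intro b hb
    rw [Subgroup.mem_normalizer_iff]
    intro x
    constructor
    · exact hinv b hb x
    · intro h
      have h0 := hinv b⁻¹ (inv_mem hb) _ h
      have e : b⁻¹ * (b * x * b⁻¹) * b⁻¹⁻¹ = x := by group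
      rwa [e] at h0
  refine inv_pprime_le_core_odd9 hp (pConstrained_of_pSolvable9 p hG) B hBp ?_ Q hQc hBQ
  intro x hx hxp
  have hBC : B ≤ centralizer ({b₀} : Set G) := by
    intro b hb
    rw [Subgroup.mem_centralizer_iff]
    intro h hh
    rw [Set.mem_singleton_iff] at hh
    rw [hh]
    exact hBcomm b₀ hb₀ b hb
  have hxC : x ∈ centralizer ({b₀} : Set G) := by
    rw [Subgroup.mem_centralizer_iff]
    intro h hh
    rw [Set.mem_singleton_iff] at hh
    rw [hh]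
    exact Subgroup.mem_centralizer_iff.mp hx b₀ hb₀
  exact omega_centralizer_mem9 B _ hBexp hBp hBC P hBP x hx hxC hxp

end Cfsg.Agent.Helper9
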